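import Cfsg.Agent.Dc.T1

/-! Groups with pairwise different class sizes: the class equation and sums of reciprocals. -/

set_option autoImplicit false
set_option linter.unusedSectionVars false

namespace CF.Dc

open MulAction Subgroup CF.BG

/-- bound for sums of reciprocals -/
def Bd (A : Set ℕ) (β : ℚ) : Prop := ∀ T : Finset ℕ, (∀ n ∈ T, n ∈ A) → ∑ n ∈ T, (1 / n : ℚ) ≤ β

namespace Bd
variable {A B : Set ℕ} {α β : ℚ}

theorem union (h : Bd A α) (k : Bd B β) : Bd (A ∪ B) (α + β) := fun T hT => by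
  classical
  rw [← Finset.sum_filter_add_sum_filter_not T (· ∈ A)]
  exact add_le_add (h _ fun n hn => (Finset.mem_filter.1 hn).2) (k _ fun n hn =>
    (hT n (Finset.mem_filter.1 hn).1).resolve_left (Finset.mem_filter.1 hn).2)

theorem single (n : ℕ) : Bd {n} (1 / n) := fun T hT =>
  (Finset.sum_le_sum_of_subset_of_nonneg (t := {n}) (fun m hm => by simpa using hT m hm)
    fun _ _ _ => by positivity).trans (by simp)

theorem mul (h : Bd A α) {c : ℕ} (hc : 0 < c) : Bd {n | ∃ a ∈ A, n = c * a} (α / c) := fun T hT => by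
  have k : ∀ n ∈ T, c * (n / c) = n := fun n hn => by
    obtain ⟨a, -, rfl⟩ := hT n hn
    rw [Nat.mul_div_cancel_left _ hc]
  have := h (T.image (· / c)) fun n hn => by
    obtain ⟨m, hm, rfl⟩ := Finset.mem_image.1 hn
    obtain ⟨a, ha, rfl⟩ := hT m hm
    rwa [Nat.mul_div_cancel_left _ hc]
  rw [Finset.sum_image fun a ha b hb e => by rw [← k a ha, ← k b hb, show a / c = b / c from e]] at this
  rw [le_div_iff₀ (by positivity), Finset.sum_mul]
  refine le_of_eq_of_le (Finset.sum_congr rfl fun n hn => ?_) this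
  conv_lhs => rw [← k n hn]
  have : (c : ℚ) ≠ 0 := by positivity
  push_cast; field_simp

theorem diff (h : Bd A α) (L : Finset ℕ) (hL : ∀ n ∈ L, n ∈ A) :
    Bd {n | n ∈ A ∧ n ∉ L} (α - ∑ n ∈ L, (1 / n : ℚ)) := fun T hT => by
  have := h (T ∪ L) fun n hn => (Finset.mem_union.1 hn).elim (fun k => (hT n k).1) (hL n)
  rw [Finset.sum_union (Finset.disjoint_left.2 fun n hn => (hT n hn).2)] at this
  linarith

theorem pow (h : Bd A α) {p : ℕ} (hp : 2 ≤ p) :
    Bd {n | ∃ i, ∃ a ∈ A, n = p ^ i * a} (α * p / (p - 1)) := by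
  have h0 : 0 ≤ α := by simpa using h ∅
  have h1 : (2 : ℚ) ≤ p := by exact_mod_cast hp
  have k : ∀ N, Bd {n | ∃ i < N, ∃ a ∈ A, n = p ^ i * a} (α * p / (p - 1)) := fun N => by
    induction N with
    | zero =>
      intro T hT
      rw [Finset.sum_eq_zero fun n hn => by obtain ⟨i, hi, -⟩ := hT n hn; omega]
      have : (0 : ℚ) < p - 1 := by linarith
      positivity
    | succ N ih =>
      intro T hT
      refine (h.union (ih.mul (c := p) (by omega)) T fun n hn => ?_).trans (le_of_eq ?_)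
      · obtain ⟨i, hi, a, ha, rfl⟩ := hT n hn
        rcases i with _ | i
        · exact Or.inl (by simpa using ha)
        · exact Or.inr ⟨_, ⟨i, by omega, a, ha, rfl⟩, by ring⟩
      · have : (p : ℚ) - 1 ≠ 0 := by linarith
        have : (p : ℚ) ≠ 0 := by linarith
        field_simp; ring
  intro T hT
  choose! i hi using hT
  exact k (T.sup i + 1) T fun n hn => ⟨i n, Nat.lt_succ_of_le (Finset.le_sup hn), hi n hn⟩

end Bd

variable {G : Type*} [Group G] [Finite G]

theorem ncard_orb (M : Subgroup G) (x : G) :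
    {y | ∃ m ∈ M, m * x * m⁻¹ = y}.ncard = (𝐂₁ x).relIndex M := by
  letI : MulAction M G := MulAction.compHom G (MulAut.conj.comp M.subtype)
  have := index_stabilizer M x
  rw [show stabilizer M x = (𝐂₁ x).subgroupOf M from Subgroup.ext fun m =>
    mul_inv_eq_iff_eq_mul.trans mem_cent1.symm] at this
  rw [relIndex, this]
  congr 1
  exact Set.ext fun y => ⟨fun ⟨m, hm, e⟩ => ⟨⟨m, hm⟩, e⟩, fun ⟨m, e⟩ => ⟨m, m.2, e⟩⟩

theorem ncard_cl (x : G) : {y | IsConj x y}.ncard * ♯(𝐂₁ x) = Nat.card G := by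
  have := ncard_orb ⊤ x
  simp only [mem_top, true_and, relIndex_top_right] at this
  simp only [isConj_iff, this, index_mul_card]

theorem Rt.tot (R : Rt G) (y : G) : Nat.totient (orderOf y) * ♯(𝐂₁ y) ∣ Nat.card G := by
  classical
  have := Fintype.ofFinite (zpowers y)
  have h1 : {x | ∃ m ∈ 𝐍 (zpowers y), m * y * m⁻¹ = x} =
      (zpowers y).subtype '' {a | orderOf a = orderOf y} := Set.ext fun x => ⟨by
    rintro ⟨m, hm, rfl⟩
    exact ⟨⟨_, (mem_norm.1 hm y).1 (mem_zpowers y)⟩, by simp [orderOf_conj'], rfl⟩, by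
    rintro ⟨⟨a, ha⟩, h, rfl⟩
    obtain ⟨k, rfl⟩ := (mem_powers_iff_mem_zpowers.2 ha :)
    have h' : orderOf (y ^ k) = orderOf y := by simpa using h
    rw [orderOf_pow, Nat.div_eq_self] at h'
    obtain ⟨c, hc⟩ := isConj_iff.1 (R y k (Nat.Coprime.symm (h'.resolve_left (orderOf_pos y).ne')))
    exact ⟨c, mem_norm_of_cj_le (by rw [cj_zpowers, hc]; exact zpowers_le.2 ha), hc⟩⟩
  have h2 := ncard_orb (𝐍 (zpowers y)) y
  rw [h1, Set.ncard_image_of_injective _ (subtype_injective _), Set.ncard_eq_toFinset_card',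
    Set.toFinset_ofPred, IsCyclic.card_orderOf_eq_totient (by rw [← Nat.card_eq_fintype_card, Nat.card_zpowers])] at h2
  rw [h2, mul_comm, card_mul_relIndex (le_norm_iff.2 fun c hc z hz => by
    rwa [(mem_cent1.1 (zpowers_le.2 (mem_cent1_comm.1 hc) hz)).symm, mul_inv_cancel_right])]
  exact card_subgroup_dvd_card _

/-- centralizer orders determine the classes -/
def Ah (G : Type*) [Group G] : Prop := ∀ x y : G, ♯(𝐂₁ x) = ♯(𝐂₁ y) → IsConj x y

theorem Ah.rt (h : Ah G) : Rt G := fun x k hk => h _ _ (by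
  rw [le_antisymm (cent_le_cent1 (pow_mem (mem_zpowers x) k) |>.trans' (cent_zpowers x).ge)
    (cent_le_cent1 (mem_zpowers_pow_iff.2 hk) |>.trans' (cent_zpowers _).ge)])

theorem Ah.cls (h : Ah G) (S : Set G) {A : Set ℕ} {β : ℚ} (hS : ∀ x ∈ S, ♯(𝐂₁ x) ∈ A) (b : Bd A β) :
    (S.ncard : ℚ) ≤ β * Nat.card G := by
  classical
  rw [Set.ncard_eq_toFinset_card S, Finset.card_eq_sum_card_image fun x => ♯(𝐂₁ x)]
  refine le_trans ?_ (mul_le_mul_of_nonneg_right (b ((Set.toFinite S).toFinset.image fun x => ♯(𝐂₁ x))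
    fun n hn => ?_) (by positivity))
  · rw [Finset.sum_mul]; push_cast
    refine Finset.sum_le_sum fun n hn => ?_
    obtain ⟨x, -, rfl⟩ := Finset.mem_image.1 hn
    have h0 : (0 : ℚ) < ♯(𝐂₁ x) := by exact_mod_cast Nat.card_pos
    rw [← ncard_cl x, one_div_mul_eq_div, le_div_iff₀ h0]; push_cast
    refine mul_le_mul_of_nonneg_right ?_ h0.le
    rw [← Set.ncard_coe_finset]
    refine Nat.cast_le.2 (Set.ncard_le_ncard fun y hy => h x y ?_)
    exact (Finset.mem_filter.1 hy).2.symm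
  · obtain ⟨x, hx, rfl⟩ := Finset.mem_image.1 hn
    exact hS x (by simpa using hx)

theorem Ah.one_le (h : Ah G) {A : Set ℕ} {β : ℚ} (hS : ∀ x : G, ♯(𝐂₁ x) ∈ A) (b : Bd A β) : 1 ≤ β := by
  have := h.cls Set.univ (fun x _ => hS x) b
  rw [Set.ncard_univ] at this
  exact le_of_mul_le_mul_right (by rwa [one_mul]) (by exact_mod_cast Nat.card_pos)

theorem eq_of_card_prime {x y : G} {p : ℕ} (hp : p.Prime) {C : Subgroup G} (h : ♯C = p) (hx : x ∈ C)
    (h1 : x ≠ 1) (hy : y ∈ C) : y ∈ zpowers x := by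
  rwa [eq_of_le_of_card_ge (zpowers_le.2 hx) (by
    rw [h, Nat.card_zpowers]
    exact ((hp.eq_one_or_self_of_dvd _ (h ▸ C.orderOf_dvd_natCard hx)).resolve_left
      (mt orderOf_eq_one_iff.1 h1)).ge)]

theorem Ah.sym (h : Ah G) {u : G} (hu : ♯(𝐂₁ u) = 2) : Nonempty (G ≃* Equiv.Perm (Fin 3)) := by
  classical
  have hz : ∀ z : G, (∀ g, g * z = z * g) → z = 1 := fun z hz => isConj_one_right.1 (h _ _ (by
    rw [cent1_one, (eq_top_iff' _).2 fun g => mem_cent1.2 (hz g)]))
  set T := {y | IsConj u y} with hT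
  have h1 : ∀ t ∈ T, ♯(𝐂₁ t) = 2 := fun t ht => (CF.Fgs2.card_centralizer_eq_of_isConj ht).symm.trans hu
  have h2 : (1 : G) ∉ T := fun k => by
    have k1 := h1 1 k
    rw [cent1_one, card_top] at k1
    have : Fact (Nat.Prime 2) := ⟨Nat.prime_two⟩
    have := (isCyclic_of_prime_card k1).isMulCommutative
    have : Subsingleton G := ⟨fun a b => by
      rw [hz a fun g => mul_comm' g a, hz b fun g => mul_comm' g b]⟩
    simp [Nat.card_of_subsingleton (1 : G)] at k1
  have h3 : ∀ t ∈ T, ∀ c, c * t = t * c → c = 1 ∨ c = t := fun t ht c hc => by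
    by_contra k
    push Not at k
    have := Set.ncard_le_ncard (show ({1, t, c} : Set G) ⊆ (𝐂₁ t : Subgroup G) by
      rintro _ (rfl | rfl | rfl)
      exacts [one_mem _, self_mem_cent1 _, mem_cent1.2 hc])
    rw [Set.ncard_eq_three.2 ⟨1, t, c, fun e => h2 (e ▸ ht), k.1.symm, k.2.symm, rfl⟩,
      ← Nat.card_coe_set_eq] at this
    exact absurd (this.trans (h1 t ht).le) (by omega)
  have h4 : ∀ t ∈ T, t⁻¹ = t := fun t ht => (h3 t ht t⁻¹ (by simp)).resolve_left fun e =>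
    h2 (inv_eq_one.1 e ▸ ht)
  have h5 : T.ncard * 2 = Nat.card G := hu ▸ ncard_cl u
  have h6 : Tᶜ.ncard = T.ncard := by have := Set.ncard_add_ncard_compl T; omega
  have h7 : ∀ t ∈ T, ∀ a ∉ T, ∃ s ∈ T, t * s = a := fun t ht a ha => by
    have k : (t * ·) '' T = Tᶜ := Set.eq_of_subset_of_ncard_le (by
      rintro _ ⟨s, hs, rfl⟩ k
      have := h4 _ k
      rw [mul_inv_rev, h4 s hs, h4 t ht] at this
      rcases h3 t ht s this with rfl | rfl
      · exact h2 hs
      · exact h2 (by rwa [← mul_inv_cancel s, h4 s hs])) (by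
      rw [Set.ncard_image_of_injective _ (mul_right_injective t), h6])
    exact (k ▸ ha : a ∈ (t * ·) '' T)
  have h8 : ∀ t ∈ T, ∀ a ∉ T, t * a * t⁻¹ = a⁻¹ := fun t ht a ha => by
    obtain ⟨s, hs, rfl⟩ := h7 t ht a ha
    rw [mul_inv_rev, h4 s hs, ← mul_assoc, mul_eq_one_iff_eq_inv.2 (h4 t ht).symm, one_mul]
  have hu' : u ∈ T := IsConj.refl u
  have h9 : ∀ a ∉ T, ∀ g ∉ T, g * a * g⁻¹ = a := fun a ha g hg => by
    obtain ⟨s, hs, rfl⟩ := h7 u hu' g hg
    rw [show u * s * a * (u * s)⁻¹ = u * (s * a * s⁻¹) * u⁻¹ by group, h8 s hs a ha,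
      show u * a⁻¹ * u⁻¹ = (u * a * u⁻¹)⁻¹ by group, h8 u hu' a ha, inv_inv]
  have h10 : ∀ a ∉ T, a ≠ 1 → ((𝐂₁ a : Subgroup G) : Set G) = Tᶜ := fun a ha a1 => Set.ext fun g =>
    ⟨fun k hg => (h3 g hg a (mem_cent1.1 k).symm).elim a1 fun e => ha (e ▸ hg),
      fun k => mem_cent1.2 (mul_inv_eq_iff_eq_mul.1 (h9 a ha g k))⟩
  have h11 : T.ncard ≤ 3 := by
    rw [← h6]
    by_cases k : ∃ a ∉ T, a ≠ 1
    · obtain ⟨a, ha, a1⟩ := k
      refine (Set.ncard_le_ncard (t := {1, a, a⁻¹}) fun b hb => ?_).trans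
        ((Set.ncard_insert_le _ _).trans (Nat.succ_le_succ ((Set.ncard_insert_le _ _).trans (by simp))))
      refine or_iff_not_imp_left.2 fun b1 => ?_
      obtain ⟨c, rfl⟩ := isConj_iff.1 (h a b (by
        rw [SetLike.coe_injective ((h10 a ha a1).trans (h10 b hb b1).symm)]))
      by_cases hc : c ∈ T
      exacts [Or.inr (h8 c hc a ha), Or.inl (h9 a ha c hc)]
    · push Not at k
      exact (Set.ncard_le_ncard (t := {1}) fun b hb => k b hb).trans (by simp)
  letI : MulAction G T :=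
    { smul := fun g t => ⟨g * t * g⁻¹, t.2.trans (isConj_iff.2 ⟨g, rfl⟩)⟩
      one_smul := fun t => Subtype.ext (show 1 * t.1 * 1⁻¹ = t by simp)
      mul_smul := fun a b t => Subtype.ext (show a * b * t.1 * (a * b)⁻¹ = a * (b * t * b⁻¹) * a⁻¹ by
        group) }
  have h12 : Function.Injective (toPermHom G T) := (injective_iff_map_eq_one _).2 fun g hg => by
    have k : ∀ t ∈ T, g * t = t * g := fun t ht => mul_inv_eq_iff_eq_mul.1
      (congrArg Subtype.val (DFunLike.congr_fun hg ⟨t, ht⟩) :)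
    refine (h3 u hu' g (k u hu')).resolve_right fun e => h2 (hz u (fun c => ?_) ▸ hu')
    have hc : c * u * c⁻¹ ∈ T := isConj_iff.2 ⟨c, rfl⟩
    exact mul_inv_eq_iff_eq_mul.1 ((h3 u hu' _ (e ▸ (k _ hc).symm)).resolve_left fun e => h2 (e ▸ hc))
  have h13 := Nat.card_le_card_of_injective _ h12
  rw [Nat.card_perm, Nat.card_coe_set_eq, ← h5] at h13
  have h14 : T.ncard = 3 := by
    have := (Set.ncard_pos (Set.toFinite T)).2 ⟨u, hu'⟩
    revert this h11 h13
    generalize T.ncard = m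
    intro a b c
    interval_cases m <;> first | rfl | exact absurd b (by decide)
  exact ⟨(MulEquiv.ofBijective _ ((Nat.bijective_iff_injective_and_card _).2 ⟨h12, by
    rw [Nat.card_perm, Nat.card_coe_set_eq, ← h5, h14]; rfl⟩)).trans
    (Finite.equivFinOfCardEq ((Nat.card_coe_set_eq T).trans h14)).permCongrHom⟩

theorem Rt.exists_index_two [Nontrivial G] (R : Rt G) (hs : Group.IsSolvable G) :
    ∃ K : Subgroup G, K.index = 2 := by
  obtain ⟨M, hM, hle⟩ := (eq_top_or_exists_le_coatom (commutator G)).resolve_left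
    (Group.IsSolvable.commutator_lt_top_of_nontrivial G).ne
  have : M.Normal := Normal.of_commutator_le G hle
  obtain ⟨g, -, hg⟩ := SetLike.exists_of_lt hM.lt_top
  have h1 : zpowers (g : G ⧸ M) = ⊤ := by
    rw [← map_comap_eq_self_of_surjective (QuotientGroup.mk'_surjective M) (zpowers (g : G ⧸ M)),
      hM.2 _ (lt_of_le_of_ne (QuotientGroup.le_comap_mk' M _) fun e => hg (e.ge
        (mem_comap.2 (mem_zpowers (g : G ⧸ M))))),
      map_top_of_surjective _ (QuotientGroup.mk'_surjective M)]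
  refine ⟨M, ?_⟩
  rw [index, ← card_top, ← h1, Nat.card_zpowers]
  refine orderOf_eq_prime (hp := ⟨Nat.prime_two⟩) ?_ (mt (QuotientGroup.eq_one_iff g).1 hg)
  obtain ⟨c, hc⟩ := isConj_iff.1 (R.inv g)
  rw [← QuotientGroup.mk_pow, QuotientGroup.eq_one_iff, ← inv_mem_iff, pow_two, mul_inv_rev]
  nth_rewrite 1 [← hc]
  exact hle (commutator_mem_commutator (mem_top c) (mem_top g))

end CF.Dc
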