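import Cfsg.Agent.Dc.A

/-! Centralizer orders divisible by five in rational solvable groups. -/

set_option autoImplicit false
set_option linter.unusedSectionVars false

namespace CF.Dc

open MulAction Subgroup CF.BG

universe u

theorem tr_sum {K V Γ : Type*} [Field K] [AddCommGroup V] [Module K V] [FiniteDimensional K V]
    [Group Γ] [DistribMulAction Γ V] [SMulCommClass Γ K V] {x t : Γ} {m : ℕ} (hm : (m : K) ≠ 0)
    (hx : ∀ v : V, x ^ m • v = v) {w : V} (w0 : w ≠ 0) (hw : x • w = w)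
    (fx : ∀ v : V, x • v = v → ∃ c : K, c • w = v) {c : K} (ht : t • w = c • w) :
    ∑ i ∈ Finset.range m, (Representation.ofDistribMulAction K Γ V).character (t * x ^ i) = c * m := by
  set ρ := Representation.ofDistribMulAction K Γ V
  let σ : V →ₗ[K] V := ∑ i ∈ Finset.range m, ρ (x ^ i)
  have h1 : ∀ v, σ v = ∑ i ∈ Finset.range m, x ^ i • v := fun v => LinearMap.sum_apply _ _ v
  have h2 : ∀ v, σ v ∈ K ∙ w := fun v => Submodule.mem_span_singleton.2 (fx _ (by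
    have k := (Finset.sum_range_succ (fun i => x ^ i • v) m).symm.trans (Finset.sum_range_succ' _ m)
    rw [hx, pow_zero, one_smul, add_left_inj] at k
    rw [h1, Finset.smul_sum, k]
    exact Finset.sum_congr rfl fun i _ => by rw [pow_succ', mul_smul]))
  have h3 : ∀ i, x ^ i • w = w := fun i => pow_mem (mem_stabilizer_iff.2 hw) i
  have h4 : LinearMap.IsProj (K ∙ w) ((m : K)⁻¹ • σ) := ⟨fun v => Submodule.smul_mem _ _ (h2 v),
    fun v hv => by
      obtain ⟨a, rfl⟩ := Submodule.mem_span_singleton.1 hv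
      rw [map_smul, LinearMap.smul_apply, h1]
      simp [h3, ← Nat.cast_smul_eq_nsmul K, smul_smul, hm]⟩
  have h5 := h4.trace
  rw [finrank_span_singleton w0, map_smul, smul_eq_mul, inv_mul_eq_iff_eq_mul₀ hm] at h5
  have h6 : ρ t * σ = c • σ := LinearMap.ext fun v => by
    obtain ⟨a, ha⟩ := Submodule.mem_span_singleton.1 (h2 v)
    show t • σ v = c • σ v
    rw [← ha, sm, ht, smul_comm]
  have h7 := congrArg (LinearMap.trace K V) h6
  rw [map_smul, h5, Finset.mul_sum, map_sum] at h7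
  simpa [Representation.character] using h7

variable {G : Type*} [Group G] [Finite G]

theorem ncard_modEq {p : ℕ} {H : Subgroup G} (hp : p.Prime) (k : PiGrp {p} H) {s : Set G}
    (hs : ∀ h ∈ H, ∀ x ∈ s, h * x * h⁻¹ ∈ s) : s.ncard ≡ (s ∩ 𝐂 H).ncard [MOD p] := by
  haveI := Fact.mk hp
  letI : MulAction H s :=
    { smul := fun h x => ⟨h * x * (h : G)⁻¹, hs h h.2 x x.2⟩
      one_smul := fun x => Subtype.ext (by change (1 : G) * x * 1⁻¹ = x; group)
      mul_smul := fun g h x => Subtype.ext (by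
        change (g : G) * h * x * ((g : G) * h)⁻¹ = g * (h * x * (h : G)⁻¹) * (g : G)⁻¹; group) }
  refine (k.isPGroup.card_modEq_card_fixedPoints s).trans ?_
  rw [← Nat.card_coe_set_eq]
  let e : MulAction.fixedPoints H s ≃ ↥(s ∩ 𝐂 H) := ⟨fun x => ⟨x.1, x.1.2, fun h hh =>
    mul_inv_eq_iff_eq_mul.1 (congrArg Subtype.val (x.2 ⟨h, hh⟩))⟩, fun x => ⟨⟨x.1, x.2.1⟩, fun h =>
      Subtype.ext (mul_inv_eq_iff_eq_mul.2 (x.2.2 h h.2))⟩, fun _ => rfl, fun _ => rfl⟩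
  rw [Nat.card_congr e]

theorem card_modEq {p : ℕ} {H X : Subgroup G} (hp : p.Prime) (k : PiGrp {p} H) (n : H ≤ 𝐍 X) :
    ♯X ≡ ♯(X ⊓ 𝐂 H) [MOD p] :=
  ncard_modEq hp k (s := X) fun _ hh _ hx => conj_mem_of_norm (n hh) hx

theorem onto {M : Subgroup G} {y n : G} (hy : y ∈ 𝐍 M) (h : M ⊓ 𝐂₁ y = ⊥) (hn : n ∈ M) :
    ∃ m ∈ M, m * y * m⁻¹ = n * y := by
  let δ : M → M := fun m => ⟨m * (y * (m : G)⁻¹ * y⁻¹), mul_mem m.2 (conj_mem_of_norm hy (inv_mem m.2))⟩
  obtain ⟨m, hm⟩ := Finite.injective_iff_surjective.1 (show Function.Injective δ from fun a b e => by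
    have k : (a : G) * (y * (a : G)⁻¹ * y⁻¹) = b * (y * (b : G)⁻¹ * y⁻¹) := congrArg Subtype.val e
    have : (b : G)⁻¹ * a ∈ M ⊓ 𝐂₁ y := ⟨M.mul_mem (M.inv_mem b.2) a.2, mem_cent1.2 (by
      rw [show (b : G)⁻¹ * a * y = (b : G)⁻¹ * (a * (y * (a : G)⁻¹ * y⁻¹)) * y * a by group, k]; group)⟩
    rw [h, mem_bot, inv_mul_eq_one] at this
    exact Subtype.ext this.symm) ⟨n, hn⟩
  exact ⟨m, m.2, by rw [← show _ = n from congrArg Subtype.val hm]; simp [δ, mul_assoc]⟩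

theorem z5 : ¬ (3 : ZMod 5) = 2 := by decide

theorem five_tr (R : Rt G) {N : Subgroup G} [N.Normal] (a : Abelem 5 N) {x : G}
    (h5 : ♯(N ⊓ 𝐂₁ x) = 5) : 25 ∣ ♯(𝐂₁ x) := by
  by_contra h25
  have : Fact (Nat.Prime 5) := ⟨by norm_num⟩
  letI : CommGroup N := { (inferInstance : Group N) with
    mul_comm := fun x y => Subtype.ext (a.abel y.2 x x.2) }
  letI : Module (ZMod 5) (Additive N) := AddCommGroup.zmodModule fun v =>
    Additive.toMul.injective (Subtype.ext (a.pow _ v.toMul.2))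
  let θ : G →* MulAut N := MulAut.conjNormal
  letI : DistribMulAction G (Additive N) :=
    { smul := fun h v => Additive.ofMul (θ h v.toMul)
      one_smul := fun v => congrArg Additive.ofMul (DFunLike.congr_fun θ.map_one v.toMul)
      mul_smul := fun a b v => congrArg Additive.ofMul (DFunLike.congr_fun (θ.map_mul a b) v.toMul)
      smul_zero := fun h => congrArg Additive.ofMul (map_one (θ h))
      smul_add := fun h u v => congrArg Additive.ofMul (map_mul (θ h) u.toMul v.toMul) }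
  have : SMulCommClass G (ZMod 5) (Additive N) := ⟨fun g c v =>
    ZMod.map_smul (DistribSMul.toAddMonoidHom (Additive N) g) c v⟩
  have : Module.Finite (ZMod 5) (Additive N) := Module.Finite.of_finite
  have hθ : ∀ (g : G) (v : Additive N), ((g • v).toMul : G) = g * v.toMul * g⁻¹ := fun _ _ => rfl
  have ex : ∀ u v : Additive N, (u.toMul : G) = v.toMul → u = v := fun u v e =>
    Additive.toMul.injective (Subtype.ext e)
  obtain ⟨w, hw, o⟩ := exists_mem_orderOf_eq (H := N ⊓ 𝐂₁ x) (p := 5) (by norm_num) (by rw [h5])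
  have w1 : w ≠ 1 := fun e => by simp [e] at o
  have hm : ((N.relIndex (𝐂₁ x) : ℕ) : ZMod 5) ≠ 0 := fun e => h25 (by
    rw [← card_inf_mul_relIndex N, h5]
    exact Nat.mul_dvd_mul_left 5 ((ZMod.natCast_eq_zero_iff _ _).1 e))
  have hx : ∀ v : Additive N, x ^ N.relIndex (𝐂₁ x) • v = v := fun v => ex _ _ (by
    rw [hθ, ← a.abel (N.pow_relIndex_mem (self_mem_cent1 x)) _ v.toMul.2, mul_inv_cancel_right])
  set v : Additive N := Additive.ofMul ⟨w, hw.1⟩
  have v0 : v ≠ 0 := fun e => w1 (congrArg (fun v : Additive N => (v.toMul : G)) e)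
  have xv : x • v = v := ex _ _ (mul_inv_eq_iff_eq_mul.2 (mem_cent1.1 hw.2).symm)
  have fx : ∀ u : Additive N, x • u = u → ∃ c : ZMod 5, c • v = u := fun u hu => by
    obtain ⟨k, hk⟩ := mem_powers_iff_mem_zpowers.2 (eq_of_card_prime (by norm_num) h5 hw w1
      ⟨u.toMul.2, mem_cent1.2 (mul_inv_eq_iff_eq_mul.1 ((hθ x u).symm.trans (by rw [hu]))).symm⟩)
    exact ⟨k, by rw [Nat.cast_smul_eq_nsmul]; exact ex _ _ hk⟩
  obtain ⟨t, ht⟩ := isConj_iff.1 (R w 2 (by rw [o]; norm_num))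
  have tv : t • v = (2 : ZMod 5) • v := by rw [two_smul]; exact ex _ _ (ht.trans (pow_two w))
  have a1 := tr_sum hm hx v0 xv fx tv
  have a2 := tr_sum (x := x⁻¹) (t := t⁻¹) (c := 3) hm (fun u => by rw [inv_pow, inv_smul_eq_iff, hx]) v0
    (by rw [inv_smul_eq_iff, xv]) (fun u hu => fx u (inv_smul_eq_iff.1 hu).symm) (by
      rw [inv_smul_eq_iff, sm, tv, smul_smul, show (3 * 2 : ZMod 5) = 1 from rfl, one_smul])
  rw [Finset.sum_congr rfl fun i _ => ?_, a2] at a1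
  · exact z5 (mul_right_cancel₀ hm a1)
  obtain ⟨c, hc⟩ := isConj_iff.1 (R.inv (t * x ^ i))
  rw [Representation.char_mul_comm _ (x⁻¹ ^ i), inv_pow, ← mul_inv_rev, ← hc, Representation.char_conj]

theorem claimB (n : ℕ) : ∀ (Γ : Type u) [Group Γ] [Finite Γ], Nat.card Γ = n → Group.IsSolvable Γ →
    Rt Γ → ∀ x : Γ, 5 ∣ ♯(𝐂₁ x) → 25 ∣ ♯(𝐂₁ x) ∨ 80 ≤ ♯(𝐂₁ x) := by
  induction n using Nat.strong_induction_on with | _ n ih => ?_
  intro Γ _ _ hn hs R x h5
  have p5 : Nat.Prime 5 := by norm_num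
  have : Nontrivial Γ := Finite.one_lt_card_iff_nontrivial.1
    (p5.one_lt.trans_le (Nat.le_of_dvd Nat.card_pos (h5.trans (card_subgroup_dvd_card _))))
  obtain ⟨N, hN, q, hq, a, m⟩ := exists_min Γ hs
  have IH := ih _ (hn ▸ card_quot_lt m.ne_bot) (Γ ⧸ N) rfl inferInstance
    (R.of_surj _ (QuotientGroup.mk'_surjective N)) x
  have le := CF.Fgs2.card_centralizer_quotient_le N x
  have nN : ∀ H : Subgroup Γ, H ≤ 𝐍 N := fun H => le_top.trans m.norm
  set D := (𝐂₁ (x : Γ ⧸ N)).comap (QuotientGroup.mk' N) with hD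
  have cD : ♯D = ♯(𝐂₁ (x : Γ ⧸ N)) * ♯N := CF.Solv.card_comap_mk' N _
  have mD : ∀ d ∈ D, d * x * d⁻¹ * x⁻¹ ∈ N := fun d hd => by
    rw [← QuotientGroup.eq_one_iff]
    have : (d : Γ ⧸ N) * x = x * d := mem_cent1.1 hd
    simp [this]
  have c1 := card_sup_mul_card_inf (Or.inr (nN (𝐂₁ x)))
  have c2 : ♯(𝐂₁ x) ∣ ♯(𝐂₁ (x : Γ ⧸ N)) * ♯(N ⊓ 𝐂₁ x) := by
    obtain ⟨k, hk⟩ := card_dvd (show N ⊔ 𝐂₁ x ≤ D from sup_le (QuotientGroup.le_comap_mk' N _)
      fun c hc => mem_cent1.2 (congrArg (QuotientGroup.mk' N) (mem_cent1.1 hc)))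
    refine ⟨k, Nat.eq_of_mul_eq_mul_left (card_pos' N) ?_⟩
    rw [← mul_assoc, mul_comm (♯N), ← cD, hk, ← mul_assoc, ← c1]; ring
  obtain ⟨i, hi⟩ := (a.pi.inf_left (K := 𝐂₁ x)).card_pow
  by_cases hq5 : q = 5
  · subst hq5
    rcases i with _ | _ | i
    · rw [hi, pow_zero, mul_one] at c2 c1
      refine (IH (h5.trans c2)).imp (fun k => k.trans ?_) fun k => k.trans le
      have : D ≤ N ⊔ 𝐂₁ x := fun d hd => by
        obtain ⟨y, hy, e⟩ := onto (nN ⊤ (mem_top x)) (card_eq_one'.1 hi) (mD d hd)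
        rw [show d = y * (y⁻¹ * d) by group]
        refine mul_mem_sup hy (mem_cent1.2 ?_)
        rw [show y⁻¹ * d * x = y⁻¹ * (d * x * d⁻¹ * x⁻¹ * x) * d by group, ← e]; group
      have := card_dvd this
      rw [cD, c1, mul_comm] at this
      exact Nat.dvd_of_mul_dvd_mul_left (card_pos' N) this
    · exact Or.inl (five_tr R a hi)
    · exact Or.inl ((show 25 ∣ 5 ^ (i + 1 + 1) from ⟨5 ^ i, by ring⟩).trans
        (hi ▸ card_dvd inf_le_right))
  have cq : ∀ j, (5 : ℕ).Coprime (q ^ j) := fun j =>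
    ((Nat.coprime_primes p5 hq).2 (Ne.symm hq5)).pow_right j
  refine (IH ((cq i).dvd_of_dvd_mul_right (hi ▸ h5.trans c2))).elim (fun k => ?_)
    fun k => Or.inr (k.trans le)
  obtain ⟨P, hP⟩ := exists_syl 5 D
  have c3 : 25 ∣ ♯P := hP.dvd_card (cD ▸ k.mul_right _) (piNat_pow_self p5 2)
  obtain ⟨l, hl⟩ := a.pi.card_pow
  obtain ⟨y, hy, cy⟩ : ({y | y * x⁻¹ ∈ N} ∩ 𝐂 P : Set Γ).Nonempty := by
    have k1 := ncard_modEq p5 hP.pi (s := {y | y * x⁻¹ ∈ N}) fun d hd y hy => by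
      show d * y * d⁻¹ * x⁻¹ ∈ N
      rw [show d * y * d⁻¹ * x⁻¹ = d * (y * x⁻¹) * d⁻¹ * (d * x * d⁻¹ * x⁻¹) by group]
      exact mul_mem (hN.conj_mem _ hy d) (mD d (hP.le hd))
    rw [show {y | y * x⁻¹ ∈ N} = (· * x⁻¹) ⁻¹' (N : Set Γ) from rfl,
      Set.ncard_preimage_of_injective_subset_range (mul_left_injective _)
        (by rw [(mul_right_surjective _).range_eq]; exact Set.subset_univ _),
      ← Nat.card_coe_set_eq, SetLike.coe_sort_coe, hl] at k1
    refine Set.nonempty_of_ncard_ne_zero fun e => ?_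
    rw [show ((· * x⁻¹) ⁻¹' (N : Set Γ) ∩ 𝐂 P).ncard = 0 from e] at k1
    exact absurd ((cq l).eq_one_of_dvd (Nat.modEq_zero_iff_dvd.1 k1)) (by decide)
  have e1 : N ⊓ 𝐂₁ y = N ⊓ 𝐂₁ x := by
    ext c
    refine and_congr_right fun hc => ?_
    have k : c * (y * x⁻¹) = y * x⁻¹ * c := a.abel hy c hc
    show c ∈ 𝐂₁ y ↔ c ∈ 𝐂₁ x
    rw [mem_cent1, mem_cent1, show c * y = c * (y * x⁻¹) * x by group, k,
      show y * c = y * x⁻¹ * (x * c) by group, mul_assoc, mul_right_inj]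
  have cp : (♯P).Coprime (♯N) := by
    obtain ⟨j, hj⟩ := hP.pi.card_pow
    rw [hj, hl]; exact (cq l).pow_left j
  by_cases hA : N ⊓ 𝐂₁ x ≤ 𝐂 P
  · obtain ⟨n0, h0, n1, h1, e⟩ := (mem_sup_norm (nN _ |>.trans' le_rfl |> fun h =>
      norm_commutator h (norm_of_cent inf_le_right))).1
      ((a.abel.dprod_cent_comm (nN P) cp).sup.ge (show x * y⁻¹ ∈ N by simpa using N.inv_mem hy))
    obtain ⟨c, hc, e'⟩ := onto (y := y) (norm_commutator (nN _) (norm_of_cent (zpowers_le.2 cy))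
      (mem_zpowers y)) (CF.BG.eq_bot_mono (a.abel.comm_inf_cent (nN P) cp) (le_inf inf_le_left
        ((e1 ▸ inf_le_inf_right _ (comm_le_left (nN P))).trans hA))) h1
    refine Or.inl (c3.trans (card_cj c P ▸ card_dvd ?_))
    have e2 : x = c * (n0 * y) * c⁻¹ := by
      rw [← mul_assoc, a.abel h0.1 c (comm_le_left (nN P) hc), mul_assoc n0, mul_assoc n0, e',
        ← mul_assoc, e]; group
    rw [e2, ← cj_cent1]
    exact cj_mono c (le_cent1_iff.2 (mul_mem h0.2 cy))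
  have k1 := card_modEq p5 hP.pi (X := N ⊓ 𝐂₁ x) (e1 ▸ norm_inf (nN P)
    (norm_of_le (le_cent1_iff.2 cy)))
  obtain ⟨j, hj⟩ := ((a.pi.inf_left (K := 𝐂₁ x)).inf_left (K := 𝐂 P)).card_pow
  have k2 := card_lt (inf_lt_left.2 hA)
  rw [hi, hj] at k1 k2
  have k3 := (Nat.pow_lt_pow_iff_right hq.one_lt).1 k2
  have k4 : 5 * q ^ i ≤ ♯(𝐂₁ x) := Nat.le_of_dvd (card_pos' _)
    ((cq i).mul_dvd_of_dvd_of_dvd h5 (hi ▸ card_dvd inf_le_right))
  refine Or.inr (le_trans ?_ k4)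
  have hq' := gow hs R hq ((a.pi.dvd_card m.ne_bot).trans (card_subgroup_dvd_card N))
  by_contra k5
  have k6 : i < 4 := by
    by_contra k6
    have := Nat.pow_le_pow_left hq.two_le 4
    have := Nat.pow_le_pow_right hq.pos (not_lt.1 k6)
    omega
  rcases hq' with rfl | rfl | rfl
  · interval_cases i <;> interval_cases j <;> simp_all (config := {decide := true})
  · interval_cases i <;> interval_cases j <;> simp_all (config := {decide := true})
  · exact hq5 rfl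

end CF.Dc
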