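import Cfsg.Agent.Dc.B

/-! A centralizer of order four. -/

set_option autoImplicit false
set_option linter.unusedSectionVars false

namespace CF.Dc

open MulAction Subgroup CF.BG

variable {G : Type*} [Group G] [Finite G]

theorem sm235 {n : ℕ} (h0 : n ≠ 0) (h : ∀ p, p.Prime → p ∣ n → p = 2 ∨ p = 3 ∨ p = 5) :
    ∃ a b c, n = 2 ^ a * (3 ^ b * 5 ^ c) := by
  obtain ⟨a, m, h2, rfl⟩ := Nat.exists_eq_pow_mul_and_not_dvd h0 2 (by decide)
  obtain ⟨b, m, h3, rfl⟩ := Nat.exists_eq_pow_mul_and_not_dvd (right_ne_zero_of_mul h0) 3 (by decide)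
  obtain ⟨c, m, h5, rfl⟩ := Nat.exists_eq_pow_mul_and_not_dvd
    (right_ne_zero_of_mul (right_ne_zero_of_mul h0)) 5 (by decide)
  obtain rfl : m = 1 := Nat.eq_one_iff_not_exists_prime_dvd.2 fun p hp hd => by
    rcases h p hp (((hd.mul_left _).mul_left _).mul_left _) with rfl | rfl | rfl
    exacts [h2 ((hd.mul_left _).mul_left _), h3 (hd.mul_left _), h5 hd]
  exact ⟨a, b, c, by rw [mul_one]⟩

theorem Rt.two_pow (R : Rt G) {y : G} (hy : PiElt {2} y) {k : ℕ} (h : y ^ 2 ^ k ≠ 1) :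
    2 ^ k * ♯(𝐂₁ y) ∣ Nat.card G ∧ 2 ^ (k + 1) ∣ ♯(𝐂₁ y) := by
  obtain ⟨n, hn⟩ := PiNat.exists_pow hy (orderOf_pos y).ne'
  have h1 : k < n := by
    by_contra k1
    exact h (orderOf_dvd_iff_pow_eq_one.1 (hn ▸ pow_dvd_pow 2 (not_lt.1 k1)))
  have := R.tot y
  rw [hn, Nat.totient_prime_pow Nat.prime_two (by omega)] at this
  exact ⟨(Nat.mul_dvd_mul_right ((pow_dvd_pow 2 (by omega)).mul_right _) _).trans this,
    (pow_dvd_pow 2 h1).trans (hn ▸ orderOf_dvd_card' (self_mem_cent1 y))⟩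

theorem Rt.not16 (R : Rt G) {x : G} (hx : ♯(𝐂₁ x) = 4) : ¬ 16 ∣ Nat.card G := fun h16 => by
  have : Fact (Nat.Prime 2) := ⟨Nat.prime_two⟩
  obtain ⟨S, hS, hxS⟩ := exists_syl_le (M := ⊤) le_top (piGrp_zpowers.2
    ((piNat_pow_self Nat.prime_two 2).dvd (hx ▸ orderOf_dvd_card' (self_mem_cent1 x) :)))
  have h1 : 16 ∣ ♯S := hS.dvd_card (by rwa [card_top]) (piNat_pow_self Nat.prime_two 4)
  have h2 : ♯(𝐂₁ (⟨x, hxS (mem_zpowers x)⟩ : S)) ≤ 4 := by
    rw [← hx, ← card_map S.subtype_injective]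
    exact card_le (by rintro _ ⟨c, hc, rfl⟩; exact mem_cent1.2 (congrArg Subtype.val (mem_cent1.1 hc)))
  have h3 : ¬ IsCyclic S := fun k => by
    have := k.isMulCommutative
    rw [(eq_top_iff' _).2 fun g => mem_cent1.2 (mul_comm' _ _), card_top] at h2
    exact absurd (Nat.le_of_dvd Nat.card_pos h1) (by omega)
  have h4 := CF.Fgs2.sq_dvd_index_commutator hS.pi.isPGroup h3
  have h5 := (CF.Fgs2.card_centralizer_quotient_le (commutator S) _).trans h2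
  have h9 : ∀ y : S ⧸ commutator S, 𝐂₁ y = ⊤ := fun y =>
    (eq_top_iff' _).2 fun g => mem_cent1.2 (mul_comm (G := Abelianization S) _ _)
  rw [show centralizer _ = ⊤ from h9 _, card_top] at h5
  obtain ⟨a, ha⟩ := CF.Fgs2.exists_cyclic_index_two S hS.pi.isPGroup
    (le_antisymm h5 (Nat.le_of_dvd (Nat.pos_of_ne_zero index_ne_zero_of_finite) h4))
  have h6 := (zpowers a).index_mul_card
  obtain ⟨n, hn⟩ := hS.pi.card_pow
  rw [ha, Nat.card_zpowers, hn] at h6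
  have h7 : 4 ≤ n := (Nat.pow_dvd_pow_iff_le_right one_lt_two).1 (hn ▸ h1 :)
  obtain ⟨n, rfl⟩ := Nat.exists_eq_add_of_le' h7
  have h8 : orderOf (a : G) = 2 ^ (n + 3) := by
    rw [orderOf_coe]; rw [pow_succ'] at h6; omega
  obtain ⟨k1, k2⟩ := R.two_pow (hS.pi.elt a.2) (k := n + 2) fun e => by
    have := orderOf_dvd_iff_pow_eq_one.2 e
    rw [h8, Nat.pow_dvd_pow_iff_le_right one_lt_two] at this
    omega
  have := hS.dvd_card (card_top (G := G) ▸ (Nat.mul_dvd_mul_left _ k2).trans k1) (by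
    rw [← pow_add]; exact piNat_pow_self Nat.prime_two _)
  rw [hn, ← pow_add, Nat.pow_dvd_pow_iff_le_right one_lt_two] at this
  omega

theorem exists_odd_pow (c : G) : ∃ m, Odd m ∧ PiElt {2} (c ^ m) := by
  obtain ⟨k, m, hm, e⟩ := Nat.exists_eq_two_pow_mul_odd (orderOf_pos c).ne'
  exact ⟨m, hm, (piNat_pow_self Nat.prime_two k).dvd (orderOf_dvd_iff_pow_eq_one.2 (by
    rw [← pow_mul, mul_comm, ← e, pow_orderOf_eq_one]))⟩

theorem two_elt {c v : G} (hv : orderOf v = 5) (hc : c * v * c⁻¹ = v ^ 2) :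
    ∃ t ∈ zpowers c, PiElt {2} t ∧ t ^ 2 * v ≠ v * t ^ 2 := by
  obtain ⟨m, ⟨k, rfl⟩, ht⟩ := exists_odd_pow c
  have h1 : ∀ n, c ^ n * v * (c ^ n)⁻¹ = v ^ 2 ^ n := fun n => by
    induction n with
    | zero => simp
    | succ n ih => rw [pow_succ', mul_inv_rev, show c * c ^ n * v * ((c ^ n)⁻¹ * c⁻¹) =
        c * (c ^ n * v * (c ^ n)⁻¹) * c⁻¹ by group, ih, ← conj_pow, hc, ← pow_mul, pow_succ']
  refine ⟨_, pow_mem (mem_zpowers c) _, ht, fun e => ?_⟩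
  have := h1 ((2 * k + 1) * 2)
  rw [pow_mul, e, mul_inv_cancel_right] at this
  have h2 := pow_eq_pow_iff_modEq.1 ((pow_one v).trans this)
  rw [hv, show (2 * k + 1) * 2 = 4 * k + 2 by ring, pow_add, pow_mul] at h2
  have h3 : (2 ^ 4) ^ k * 2 ^ 2 ≡ 1 ^ k * 2 ^ 2 [MOD 5] := ((by decide : 2 ^ 4 ≡ 1 [MOD 5]).pow k).mul_right _
  exact absurd (h2.trans h3) (by rw [one_pow]; decide)

theorem Rt.four (R : Rt G) (h16 : ¬ 16 ∣ Nat.card G) {t : G} (ht : PiElt {2} t) (h : t ^ 2 ≠ 1) :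
    t ^ 4 = 1 ∧ 4 ∣ ♯(𝐂₁ t) ∧ ¬ 8 ∣ ♯(𝐂₁ t) := by
  obtain ⟨k1, k2⟩ := R.two_pow ht (k := 1) h
  refine ⟨by_contra fun k => ?_, k2, fun k => h16 ((Nat.mul_dvd_mul_left 2 k).trans k1)⟩
  obtain ⟨k1, k2⟩ := R.two_pow ht (k := 2) k
  exact h16 ((show 16 ∣ 2 ^ 2 * 2 ^ (2 + 1) by decide).trans ((Nat.mul_dvd_mul_left _ k2).trans k1))

theorem Rt.no_ten (R : Rt G) (h16 : ¬ 16 ∣ Nat.card G) {u v : G} (hu : orderOf u = 2)
    (hv : orderOf v = 5) : u * v ≠ v * u := fun hc => by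
  have c : Commute u v := hc
  have u2 : u ^ 2 = 1 := hu ▸ pow_orderOf_eq_one u
  have v5 : v ^ 5 = 1 := hv ▸ pow_orderOf_eq_one v
  obtain ⟨g, hg⟩ := isConj_iff.1 (R (u * v) 7 (by
    rw [c.orderOf_mul_eq_mul_orderOf_of_coprime (by rw [hu, hv]; decide), hu, hv]; decide))
  have k : ∀ a b a' b' : ℕ, (u * v) ^ (2 * a + a') = u ^ a' * v ^ (2 * a + a') ∧
      (v : G) ^ (5 * b + b') = v ^ b' := fun a b a' b' =>
    ⟨by rw [c.mul_pow, pow_add u, pow_mul, u2, one_pow, one_mul], by rw [pow_add, pow_mul, v5, one_pow,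
      one_mul]⟩
  have h1 : g * u * g⁻¹ = u := by
    have := congrArg (· ^ 5) hg
    simpa only [conj_pow, ← pow_mul, (k 2 0 1 0).1, (k 17 0 1 0).1, (k 0 7 0 0).2, v5, pow_one, pow_zero,
      mul_one] using this
  have h2 : g * v * g⁻¹ = v ^ 2 := by
    have := congrArg (· ^ 6) hg
    simpa only [conj_pow, ← pow_mul, (k 3 0 0 0).1, (k 21 0 0 0).1, (k 0 8 0 2).2, (k 0 1 0 1).2, pow_one,
      pow_zero, one_mul] using this
  obtain ⟨t, ht, p2, hn⟩ := two_elt hv h2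
  obtain ⟨a1, -, a2⟩ := R.four h16 p2 fun e => hn (by rw [e, one_mul, mul_one])
  have a3 : u ∈ 𝐂₁ t := mem_cent1_comm.1 (zpowers_le.2 (mem_cent1.2 (mul_inv_eq_iff_eq_mul.1 h1)) ht)
  have a4 : orderOf t = 2 ^ (1 + 1) := orderOf_eq_prime_pow (hp := ⟨Nat.prime_two⟩)
    (fun e => hn (by rw [show t ^ 2 = 1 from e, one_mul, mul_one])) a1
  have a5 : u ∉ zpowers t := fun hm => by
    obtain ⟨j, hj⟩ := mem_powers_iff_mem_zpowers.2 hm
    obtain rfl : t ^ j = u := hj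
    have b1 : 2 ∣ j := by
      have := orderOf_dvd_iff_pow_eq_one.2 ((pow_mul t j 2).trans u2)
      rw [a4] at this; omega
    have b2 : ¬ 4 ∣ j := fun b => by
      rw [show t ^ j = 1 from orderOf_dvd_iff_pow_eq_one.1 (a4 ▸ b)] at hu; simp at hu
    refine hn ?_
    rwa [show t ^ 2 = t ^ j from pow_eq_pow_iff_modEq.2 (by rw [a4]; unfold Nat.ModEq; omega)]
  obtain ⟨n, hn⟩ := (p2.zpowers.sup (piElt_of_pow_eq_one Nat.prime_two u2).zpowers (Or.inr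
    (norm_of_cent (zpowers_le.2 (cent_zpowers t ▸ a3))))).card_pow
  have a6 := card_lt (show zpowers t < zpowers t ⊔ zpowers u from
    left_lt_sup.2 fun k => a5 (k (mem_zpowers u)))
  rw [Nat.card_zpowers, a4, hn, Nat.pow_lt_pow_iff_right one_lt_two] at a6
  exact a2 ((pow_dvd_pow 2 a6).trans (hn ▸ card_dvd (sup_le (zpowers_le.2 (self_mem_cent1 t))
    (zpowers_le.2 a3))))

theorem Rt.sq_mem (R : Rt G) (hs : Group.IsSolvable G) (h16 : ¬ 16 ∣ Nat.card G)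
    (h5 : 5 ∣ Nat.card G) {K : Subgroup G} (hK : K.index = 2) {u : G} (hu : u ^ 2 = 1) : u ∈ K := by
  by_contra hn
  have p5 : Nat.Prime 5 := by norm_num
  have hN := normal_of_index_eq_two hK
  obtain ⟨v, -, hv⟩ := exists_mem_orderOf_eq (H := (⊤ : Subgroup G)) p5 (by rwa [card_top])
  obtain ⟨c, hc⟩ := isConj_iff.1 (R v 2 (by rw [hv]; decide))
  obtain ⟨t, -, p2, ht⟩ := two_elt hv hc
  obtain ⟨S, hS, htS⟩ := exists_syl_le (M := ⊤) le_top p2.zpowers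
  obtain ⟨g, -, hg⟩ := hS.syl_cj_le le_top (piElt_of_pow_eq_one Nat.prime_two hu).zpowers
  rw [cj_zpowers, zpowers_le] at hg
  have hn' : g * u * g⁻¹ ∉ K := fun k => hn (by simpa [mul_assoc] using hN.conj_mem' _ k g)
  have hu' : (g * u * g⁻¹) ^ 2 = 1 := by rw [conj_pow, hu, mul_one, mul_inv_cancel]
  generalize g * u * g⁻¹ = u at hg hn' hu'
  have h1 := hS.pi.inf_cent_ne_bot (hS.pi.inf_left (K := K))
    (norm_inf (le_norm_self S) (le_norm_iff.2 fun a _ b hb => hN.conj_mem b hb a)) fun e =>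
      ht (by
        have : t ^ 2 ∈ S ⊓ K := ⟨pow_mem (htS (mem_zpowers t)) 2, sq_mem_of_index_two hK t⟩
        rw [e, mem_bot] at this
        rw [this, one_mul, mul_one])
  obtain ⟨z, hz, oz⟩ := exists_mem_orderOf_eq Nat.prime_two
    (((hS.pi.inf_left (K := K)).inf_left (K := 𝐂 S)).dvd_card h1)
  have z2 : z ^ 2 = 1 := oz ▸ pow_orderOf_eq_one z
  have uz : Commute u z := hz.2 u hg
  obtain ⟨X, hX, hSX⟩ := Sol.exists_hall_le (M := (⊤ : Subgroup G)) (π := {2, 5}) inferInstance le_top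
    (hS.pi.mono (by simp))
  obtain ⟨w, hw, ow⟩ := exists_mem_orderOf_eq p5 (hX.prime_dvd p5 (by simp) (by rwa [card_top]))
  obtain ⟨M, hM, m⟩ := exists_minN (K := X) (A := X) (fun e => by
    rw [e, mem_bot] at hw; simp [hw] at ow) (le_norm_self X)
  obtain ⟨r, hr, a⟩ := m.exists_abelem inferInstance
  rcases (hX.pi.le hM) r hr (a.pi.dvd_card m.ne_bot) with rfl | rfl
  · have k1 := card_modEq p5 (piElt_of_pow_eq_one p5 (ow ▸ pow_orderOf_eq_one w)).zpowers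
      ((zpowers_le.2 hw).trans m.norm)
    have k2 : M ⊓ 𝐂 (zpowers w) = ⊥ := (eq_bot_iff_forall _).2 fun y hy => by_contra fun y1 =>
      R.no_ten h16 (a.orderOf hy.1 y1) ow (hy.2 w (mem_zpowers w)).symm
    obtain ⟨n, hn⟩ := a.pi.card_pow
    have k3 := one_lt_card.2 m.ne_bot
    have k4 : n < 4 := by
      by_contra k
      exact h16 ((pow_dvd_pow 2 (not_lt.1 k)).trans (hn ▸ card_subgroup_dvd_card M))
    rw [k2, card_bot, hn] at k1
    rw [hn] at k3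
    interval_cases n <;> simp_all (config := {decide := true})
  have k : ∀ s ∈ S, s ^ 2 = 1 → s ≠ 1 → ∀ y ∈ M, s * y * s⁻¹ = y⁻¹ := fun s hs s2 s1 y hy => by
    have b1 := conj_mem_of_norm (m.norm (hSX hs)) hy
    by_contra b2
    refine R.no_ten h16 (orderOf_eq_of_pow Nat.prime_two s2 s1) (a.orderOf (mul_mem b1 hy)
      fun e => b2 (eq_inv_of_mul_eq_one_left e)) ?_
    have b4 : s * (s * y * s⁻¹) * s⁻¹ = y := by
      rw [show s * (s * y * s⁻¹) * s⁻¹ = s ^ 2 * y * (s ^ 2)⁻¹ by rw [pow_two]; group, s2]; group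
    rw [← mul_inv_eq_iff_eq_mul, show s * (s * y * s⁻¹ * y) * s⁻¹ =
      s * (s * y * s⁻¹) * s⁻¹ * (s * y * s⁻¹) by group, b4]
    exact (a.abel hy _ b1).symm
  obtain ⟨y, hy, y1⟩ := M.bot_or_exists_ne_one.resolve_left m.ne_bot
  have u1 : u ≠ 1 := fun e => hn' (e ▸ one_mem K)
  have z1 : z ≠ 1 := fun e => by simp [e] at oz
  refine R.no_ten h16 (orderOf_eq_of_pow Nat.prime_two (x := u * z) (by rw [uz.mul_pow, hu', z2, one_mul])
    fun e => hn' ?_) (a.orderOf hy y1) ?_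
  · rw [eq_inv_of_mul_eq_one_left e]; exact inv_mem hz.1.2
  · rw [← mul_inv_eq_iff_eq_mul, show u * z * y * (u * z)⁻¹ = u * (z * y * z⁻¹) * u⁻¹ by group,
      k z hz.1.1 z2 z1 y hy, k u hg hu' u1 _ (inv_mem hy), inv_inv]

theorem bd3 : Bd {n | ∃ b, n = 3 ^ b} (3 / 2) := fun T hT =>
  ((Bd.single 1).pow (p := 3) (by decide) T fun n hn =>
    let ⟨b, e⟩ := hT n hn; ⟨b, 1, rfl, by rw [e, mul_one]⟩).trans (by norm_num)

theorem Ah.four [Nontrivial G] (h : Ah G) (hs : Group.IsSolvable G) (h16 : ¬ 16 ∣ Nat.card G) :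
    ¬ 5 ∣ Nat.card G := fun h5 => by
  have R := h.rt
  obtain ⟨K, hK⟩ := R.exists_index_two hs
  have hN := normal_of_index_eq_two hK
  have h1 := h.cls (K : Set G)ᶜ (fun g hg => ?_) (bd3.mul (c := 4) (by decide))
  · have h2 := Set.ncard_add_ncard_compl (K : Set G)
    have h3 := K.index_mul_card
    rw [← Nat.card_coe_set_eq, SetLike.coe_sort_coe] at h2
    rw [show (K : Set G)ᶜ.ncard = ♯K by rw [hK] at h3; omega, ← h3, hK] at h1
    have : (0 : ℚ) < ♯K := by exact_mod_cast card_pos' K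
    push_cast at h1; linarith
  have t2 : constt {2} g ^ 2 ≠ 1 := fun e => hg (by
    rw [← constt_mul_constt {2} g]
    exact mul_mem (R.sq_mem hs h16 h5 hK e) ((constt_pi _ g).mem_of_relIndex (mem_top _)
      (le_norm_iff.2 fun a _ b hb => hN.conj_mem b hb a) (by
        rw [relIndex_top_right, hK]; exact (piNat_self Nat.prime_two).compl_compl)))
  obtain ⟨a1, -, a2⟩ := R.four h16 (constt_pi _ g) t2
  have a3 : 4 ∣ ♯(𝐂₁ g) := (orderOf_eq_prime_pow (hp := ⟨Nat.prime_two⟩) (n := 1) t2 a1).symm.dvd.trans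
    (orderOf_dvd_card' (zpowers_le.2 (self_mem_cent1 g) (constt_mem _ g)))
  have a4 := mt (dvd_trans · (card_dvd (cent1_le_cent1_constt {2} g))) a2
  have a5 : ¬ 5 ∣ ♯(𝐂₁ g) := fun k => by
    obtain ⟨v, hv, ov⟩ := exists_mem_orderOf_eq (by norm_num) k
    exact R.no_ten h16 (orderOf_eq_of_pow Nat.prime_two (by rw [← pow_mul, a1]) t2) ov
      (Commute.pow_left (mem_cent1.1 (cent1_le_cent1_constt {2} g hv)).symm 2)
  obtain ⟨a, b, c, e⟩ := sm235 (card_ne_zero' (𝐂₁ g)) fun p hp hd =>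
    gow hs R hp (hd.trans (card_subgroup_dvd_card _))
  rw [e] at a3 a4 a5 ⊢
  obtain rfl : c = 0 := by_contra fun k => a5 (((dvd_pow_self 5 k).mul_left _).mul_left _)
  have a6 : a < 3 := by_contra fun k => a4 ((pow_dvd_pow 2 (not_lt.1 k)).mul_right _)
  have a7 : 2 ≤ a := (Nat.pow_dvd_pow_iff_le_right one_lt_two).1
    ((show (2 ^ 2).Coprime (3 ^ b * 5 ^ 0) by
      simpa using (by decide : Nat.Coprime 4 3).pow_right b).dvd_of_dvd_mul_right a3)
  exact ⟨_, ⟨b, rfl⟩, by rw [show a = 2 by omega]; ring⟩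

end CF.Dc
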