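import Cfsg.Agent.Dc.C

/-! A centralizer of order six: the group theory. -/

set_option autoImplicit false
set_option linter.unusedSectionVars false

namespace CF.Dc

open MulAction Subgroup CF.BG

variable {H : Type*} [Group H] [Finite H]

theorem two_ind {Q : Subgroup H} (k : PiGrp {2} Q) {P : H → Prop} (h1 : P 1)
    (h : ∀ q ∈ Q, P (q * q) → P q) : ∀ q ∈ Q, P q := by
  obtain ⟨n, hn⟩ := k.card_pow
  have : ∀ n, ∀ q ∈ Q, q ^ 2 ^ n = 1 → P q := fun n => by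
    induction n with
    | zero => intro q _ e; rw [pow_zero, pow_one] at e; rwa [e]
    | succ n ih =>
      exact fun q hq e => h q hq (ih _ (mul_mem hq hq) (by rw [← pow_two, ← pow_mul, ← pow_succ', e]))
  exact fun q hq => this n q hq (orderOf_dvd_iff_pow_eq_one.1 (hn ▸ orderOf_dvd_card' hq))

/-- an element of order three or six with tiny centralizer -/
structure Sx (a b : H) : Prop where
  sol : Group.IsSolvable H
  pr : ∀ p, p.Prime → p ∣ Nat.card H → p = 2 ∨ p = 3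
  a2 : a * a = 1
  b3 : orderOf b = 3
  ab : a * b = b * a
  cc : ∀ g, g * a = a * g → g * b = b * g → g ∈ zpowers b ∨ a * g ∈ zpowers b

namespace Sx

variable {a b : H}

theorem bb (h : Sx a b) : b * b * b = 1 := by
  have := pow_orderOf_eq_one b
  rwa [h.b3, pow_three'] at this

theorem bi (h : Sx a b) : b⁻¹ = b * b := inv_eq_of_mul_eq_one_left h.bb

theorem b1 (h : Sx a b) : b ≠ 1 := fun e => by simpa [e] using h.b3

theorem bne (h : Sx a b) : b⁻¹ ≠ b := fun e => h.b1 (by rw [← h.bb, ← h.bi, e, ← h.bi, e])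

theorem ai (h : Sx a b) : a⁻¹ = a := inv_eq_of_mul_eq_one_left h.a2

theorem mz (h : Sx a b) {y : H} (hy : y ∈ zpowers b) : y = 1 ∨ y = b ∨ y = b⁻¹ := by
  classical
  rw [mem_zpowers_iff_mem_range_orderOf, h.b3, Finset.mem_image] at hy
  obtain ⟨n, hn, rfl⟩ := hy
  rw [Finset.mem_range] at hn
  interval_cases n <;> simp [h.bi, pow_two]

theorem p2 (h : Sx a b) : PiElt {2} a := piElt_of_pow_eq_one Nat.prime_two (pow_two a ▸ h.a2)

theorem p3 (h : Sx a b) : PiGrp {3} (zpowers b) :=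
  piGrp_zpowers.2 (piElt_of_pow_eq_one Nat.prime_three (h.b3 ▸ pow_orderOf_eq_one b))

theorem bC (h : Sx a b) : zpowers b ≤ 𝐂₁ a := zpowers_le.2 (mem_cent1.2 h.ab.symm)

theorem two (h : Sx a b) {g : H} (ga : g * a = a * g) (gb : g * b = b * g) (p : PiElt {2} g) :
    g = 1 ∨ g = a :=
  (h.cc g ga gb).imp (fun k => p.eq_one ((h.p3.elt k).of_single' (by simp))) fun k => by
    rw [← h.ai]
    exact eq_inv_of_mul_eq_one_right ((h.p2.mul p ga.symm).eq_one ((h.p3.elt k).of_single' (by simp)))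

theorem three (h : Sx a b) {g : H} (ga : g * a = a * g) (gb : g * b = b * g) (p : PiElt {3} g) :
    g ∈ zpowers b := by
  refine (h.cc g ga gb).elim id fun k => ?_
  have := (h.p3.elt k).mul p.inv (by rw [mul_inv_cancel_right, ← ga, inv_mul_cancel_left])
  rw [mul_inv_cancel_right] at this
  rwa [h.p2.eq_one (this.of_single' (by simp)), one_mul] at k

theorem syl (h : Sx a b) : Syl 3 (zpowers b) (𝐂₁ a) :=
  syl_of_syl_norm h.bC (syl_of_max (le_inf h.bC (le_norm_self _)) h.p3 fun _ hQ k l =>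
    le_antisymm (fun g hg => h.three (mem_cent1.1 (hQ hg).1) (k.cent_of_prime Nat.prime_three
      (by rw [Nat.card_zpowers, h.b3]) (hQ.trans inf_le_right) (mem_zpowers b) g hg) (k.elt hg)) l)

theorem aQ (h : Sx a b) : a ∈ 𝐎 {2} (𝐂₁ a) :=
  le_O ⟨zpowers_le.2 (self_mem_cent1 a), norm_of_cent (cent_zpowers a).ge⟩ h.p2.zpowers (mem_zpowers a)

theorem bN (h : Sx a b) : zpowers b ≤ 𝐍 (𝐎 {2} (𝐂₁ a)) := h.bC.trans (O_normal _ _).norm

theorem bQ (h : Sx a b) : b ∉ 𝐎 {2} (𝐂₁ a) := fun k =>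
  h.b1 (((O_pi _ _).elt k).eq_one ((h.p3.elt (mem_zpowers b)).of_single' (by simp)))

theorem nrm (h : Sx a b) : 𝐎 {2} (𝐂₁ a) ⊔ zpowers b ⊴ 𝐂₁ a := by
  have := h.sol
  have n := (O_normal {2} (𝐂₁ a)).norm
  refine ⟨sup_le (O_le _ _) h.bC, norm_sup_of_qt h.bN n ?_⟩
  obtain ⟨p, hp, k⟩ := (Sol.qt (H := 𝐂₁ a) inferInstance (𝐎 {2} (𝐂₁ a))).exists_O_ne_bot fun e =>
    h.bQ ((qt_eq_bot n).1 e (h.bC (mem_zpowers b)))
  have k1 := (O_pi _ _).dvd_card k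
  rcases h.pr p hp (k1.trans ((card_dvd (O_le _ _)).trans ((card_qt_dvd _ _).trans
    (card_subgroup_dvd_card _)))) with rfl | rfl
  · exact (k (O_qt_O _ _)).elim
  rw [← eq_of_card_le (h.syl.qt n).O_le ((Nat.le_of_dvd (by rw [Nat.card_zpowers, h.b3]; decide)
    (card_qt_dvd _ _)).trans (by
      rw [Nat.card_zpowers, h.b3]; exact Nat.le_of_dvd (card_pos' _) k1))]
  exact (O_normal _ _).norm

theorem mem2 (h : Sx a b) {x : H} (hx : x ∈ 𝐎 {2} (𝐂₁ a) ⊔ zpowers b) (p : PiElt {2} x) :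
    x ∈ 𝐎 {2} (𝐂₁ a) :=
  have k : PiGrp {2}ᶜ (zpowers b) := h.p3.of_single_ne (by decide)
  ((SDProd.mk' h.bN ((O_pi _ _).inf_eq_bot k)).hall_left (O_pi _ _) k).mem_normal
    (normalIn_sup_left h.bN).norm hx p

theorem cb (h : Sx a b) {n : H} (hn : n * b * n⁻¹ ∈ zpowers b) :
    n * b * n⁻¹ = b ∨ n * b * n⁻¹ = b⁻¹ :=
  (h.mz hn).resolve_left fun e => h.b1 (by simpa using e)

theorem dec (h : Sx a b) {g : H} (hg : g ∈ 𝐂₁ a) : ∃ q ∈ 𝐎 {2} (𝐂₁ a), ∃ n ∈ 𝐂₁ a, q * n = g ∧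
    (n * b * n⁻¹ = b ∨ n * b * n⁻¹ = b⁻¹) := by
  obtain ⟨x, hx, n, hn, rfl⟩ := (h.syl.of_le le_sup_right h.nrm.le).syl_frattini h.nrm hg
  obtain ⟨q, hq, y, hy, rfl⟩ := (mem_sup_norm' h.bN).1 hx
  exact ⟨q, hq, y * n, mul_mem (h.bC hy) hn.1, (mul_assoc _ _ _).symm,
    h.cb (conj_mem_of_norm (mul_mem (le_norm_self _ hy) hn.2) (mem_zpowers b))⟩

theorem sq (h : Sx a b) {n : H} (hn : n ∈ 𝐂₁ a) (e : n * b * n⁻¹ = b⁻¹) : n * n = 1 ∨ n * n = a := by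
  have e' : n * b⁻¹ * n⁻¹ = b := by rw [← conj_inv, e, inv_inv]
  have k : ∀ y ∈ zpowers b, n * y * n⁻¹ = y → y = 1 := fun y hy k => by
    rcases h.mz hy with rfl | rfl | rfl
    exacts [rfl, (h.bne (e.symm.trans k)).elim, (h.bne (k.symm.trans e')).elim]
  have na := mem_cent1.1 hn
  refine (h.cc (n * n) (mem_cent1.1 (mul_mem hn hn)) ?_).imp (fun m => k _ m (by group)) fun m => ?_
  · rw [← mul_inv_eq_iff_eq_mul, show n * n * b * (n * n)⁻¹ = n * (n * b * n⁻¹) * n⁻¹ by group, e, e']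
  · rw [← h.ai]
    exact eq_inv_of_mul_eq_one_right (k _ m (by rw [← mul_assoc, na]; group))

theorem yy (h : Sx a b) {q : H} (hq : q ∈ 𝐎 {2} (𝐂₁ a)) : ∃ e, (e = q ∨ e = a * q) ∧
    ∃ c ∈ 𝐂₁ a, c * (e * b) * c⁻¹ = b ∨ c * (e * b) * c⁻¹ = b⁻¹ := by
  have hx : q * b ∈ 𝐎 {2} (𝐂₁ a) ⊔ zpowers b := mul_mem_sup hq (mem_zpowers b)
  obtain ⟨y, z, hy, hz, py, pz, e⟩ := exists_piPart {2} (q * b)
  have yC := zpowers_le.2 (h.nrm.le hx) hy
  have zC := zpowers_le.2 (h.nrm.le hx) hz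
  have yz : y * z = z * y := (abel_zpowers _).mul_comm hy hz
  have p3 : PiElt {3} z := fun p hp hd =>
    (h.pr p hp (hd.trans (orderOf_dvd_natCard z))).resolve_left (pz p hp hd)
  obtain ⟨c, hc, k⟩ := h.syl.syl_cj_le (zpowers_le.2 zC) p3.zpowers
  rw [cj_zpowers, zpowers_le] at k
  have k1 := (h.mz k).resolve_left fun e' => h.bQ (by
    have z1 : z = 1 := by simpa using e'
    rw [z1, mul_one] at e
    simpa using mul_mem (inv_mem hq) (h.mem2 hx (e ▸ py)))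
  have k2 : c * y * c⁻¹ * (c * z * c⁻¹) = c * z * c⁻¹ * (c * y * c⁻¹) := by
    rw [conj_mul, conj_mul, yz]
  have ca := mem_cent1.1 hc
  rcases h.two (g := c * y * c⁻¹) (mem_cent1.1 (mul_mem (mul_mem hc yC) (inv_mem hc)))
    (k1.elim (fun e => e ▸ k2) fun e => by
      rw [e] at k2; exact (Commute.inv_right_iff.1 k2 :)) (py.conj c) with k3 | k3
  · have y1 : y = 1 := by simpa using k3
    exact ⟨q, .inl rfl, c, hc, by rwa [← e, y1, one_mul]⟩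
  · have y1 : y = a := by rwa [mul_inv_eq_iff_eq_mul, ← ca, mul_right_inj] at k3
    exact ⟨a * q, .inr rfl, c, hc, by rwa [mul_assoc a, ← e, y1, ← mul_assoc a, h.a2, one_mul]⟩

theorem card_le (h : Sx a b) (z : 𝐂₁ a = ⊤) {s : H} (hs : s * b * s⁻¹ = b⁻¹) :
    Nat.card H ≤ ♯(𝐎 {2} (𝐂₁ a)) * 6 := by
  have za : ∀ g : H, g * a = a * g := fun g => mem_cent1.1 (z ▸ mem_top g)
  have := Nat.card_le_card_of_surjective (fun x : 𝐎 {2} (𝐂₁ a) × Bool × zpowers b =>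
    x.1 * (if x.2.1 then s else 1) * (x.2.2 : H)) fun g => ?_
  · simpa [Nat.card_zpowers, h.b3] using this
  obtain ⟨q, hq, n, -, rfl, k⟩ := h.dec (g := g) (z ▸ mem_top g)
  have k1 : ∀ (t : Bool) (m : H), m * b * m⁻¹ = b → ∃ x : 𝐎 {2} (𝐂₁ a) × Bool × zpowers b,
      x.1 * (if x.2.1 then s else 1) * (x.2.2 : H) = q * ((if t then s else 1) * m) := fun t m e => by
    rcases h.cc m (za m) (mul_inv_eq_iff_eq_mul.1 e) with k | k
    · exact ⟨(⟨q, hq⟩, t, ⟨m, k⟩), mul_assoc _ _ _⟩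
    · refine ⟨(⟨q * a, mul_mem hq h.aQ⟩, t, ⟨_, k⟩), ?_⟩
      simp only [mul_assoc q]
      rw [← za, mul_assoc, ← mul_assoc a, h.a2, one_mul]
  rcases k with k | k
  · simpa using k1 false n k
  · simpa using k1 true (s⁻¹ * n) (by
      rw [show s⁻¹ * n * b * (s⁻¹ * n)⁻¹ = s⁻¹ * (n * b * n⁻¹) * s by group, k, ← hs]; group)

/-- the quaternion case -/
theorem quat (h : Sx a b) (R : Rt H) (z : 𝐂₁ a = ⊤) (h8 : 8 ∣ Nat.card H)
    (u : ∀ q ∈ 𝐎 {2} (𝐂₁ a), q * q = 1 → q = 1 ∨ q = a) : False := by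
  have za : ∀ g : H, g * a = a * g := fun g => mem_cent1.1 (z ▸ mem_top g)
  obtain ⟨s, hs⟩ := isConj_iff.1 (R.inv b)
  have c1 := h.card_le z hs
  have pQ := O_pi {2} (𝐂₁ a)
  have nQ : ∀ g : H, ∀ q ∈ 𝐎 {2} (𝐂₁ a), g * q * g⁻¹ ∈ 𝐎 {2} (𝐂₁ a) := fun g q hq =>
    (O_normal _ _).conj_mem (z ▸ mem_top g) hq
  have aQ := h.aQ
  generalize 𝐎 {2} (𝐂₁ a) = Q at *
  have h3 : 3 ∣ Nat.card H := h.b3 ▸ orderOf_dvd_natCard b
  have ma : ∀ y ∈ zpowers a, y = 1 ∨ y = a := fun y hy =>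
    h.two (za y) (mem_cent1.1 (zpowers_le.2 (mem_cent1.2 h.ab) hy)) (h.p2.of_mem_zpowers hy)
  have ca : ♯(zpowers a) ≤ 2 := by
    rw [Nat.card_zpowers]; exact orderOf_le_of_pow_eq_one two_pos (pow_two a ▸ h.a2)
  have h1 : zpowers a < Q := lt_of_le_of_ne (zpowers_le.2 aQ) fun e => by
    have := Nat.le_of_dvd Nat.card_pos ((by decide : Nat.Coprime 8 3).mul_dvd_of_dvd_of_dvd h8 h3)
    rw [← e] at c1; omega
  obtain ⟨U, -, C⟩ := exists_chief_above ⟨h1.le, norm_of_le_center fun x hx =>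
    cent_symm (le_top.trans (z.symm.trans (cent_zpowers a).symm).le |> (le_top.trans ·)) hx⟩
    (NormalIn.refl Q) h1
  have h2 := C.comm_le_of_nil (NormalIn.refl Q) (pQ.nil.qt _)
  obtain ⟨i, iU, i1, i2⟩ : ∃ i ∈ U, i ∉ zpowers a ∧ i * i ∈ zpowers a := by
    by_contra! k
    exact C.lt.not_ge (two_ind (pQ.le C.normal.le) (one_mem _) fun q hq m => by_contra fun e => k q hq e m)
  have iQ := C.normal.le iU
  have ne : ∀ {x}, x ∉ zpowers a → ¬ (x = 1 ∨ x = a) := fun hx e =>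
    hx (e.elim (· ▸ one_mem _) (· ▸ mem_zpowers a))
  have sq : ∀ x ∈ Q, x ∉ zpowers a → x * x ∈ zpowers a → x * x = a := fun x hx x1 x2 =>
    (ma _ x2).resolve_left fun e => ne x1 (u x hx e)
  have ii := sq i iQ i1 i2
  have nb : ∀ e ∈ zpowers a, ∀ c, (c = b ∨ c = b⁻¹) → c * i * c⁻¹ ≠ i * e := fun e he c hc k => by
    have e1 : ∀ g : H, g * e = e * g := fun g => by rcases ma e he with rfl | rfl; exacts [by simp, za g]
    have e2 : e * e = 1 := by rcases ma e he with rfl | rfl; exacts [by simp, h.a2]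
    have k1 : c * c * i * (c * c)⁻¹ = i := by
      rw [show c * c * i * (c * c)⁻¹ = c * (c * i * c⁻¹) * c⁻¹ by group, k, mul_assoc, mul_assoc i, ← e1,
        ← mul_assoc, ← mul_assoc, k, mul_assoc, e2, mul_one]
    have k2 : Commute (c * c) i := mul_inv_eq_iff_eq_mul.1 k1
    refine ne i1 (h.two (za i) ?_ (pQ.elt iQ))
    rcases hc with rfl | rfl
    · rw [← h.bi] at k2; exact (Commute.inv_left_iff.1 k2).symm
    · rw [← mul_inv_rev, ← h.bi, inv_inv] at k2; exact k2.symm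
  have cm : ∀ x ∈ Q, ∀ y ∈ Q, x * x = a → y * y = a → x * y = y * x → y ∈ zpowers x ⊔ zpowers a ∧
      x⁻¹ * y ∈ zpowers a := fun x hx y hy x2 y2 c => by
    have : x⁻¹ * y ∈ zpowers a := by
      have k := u (x⁻¹ * y) (mul_mem (inv_mem hx) hy) (by
        rw [(Commute.inv_left c).symm.mul_mul_mul_comm, ← mul_inv_rev, x2, y2, inv_mul_cancel])
      exact k.elim (· ▸ one_mem _) (· ▸ mem_zpowers a)
    exact ⟨by simpa using mul_mem_sup (mem_zpowers x) this, this⟩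
  have jQ := nQ b i iQ
  have jj : b * i * b⁻¹ * (b * i * b⁻¹) = a := by rw [conj_mul, ii, za, mul_inv_cancel_right]
  have ij : i * (b * i * b⁻¹) ≠ b * i * b⁻¹ * i := fun c =>
    nb _ (cm i iQ _ jQ ii jj c).2 b (.inl rfl) (by group)
  have d1 : 𝐂₁ i ⊓ 𝐂₁ (b * i * b⁻¹) ⊓ Q ≤ zpowers a := two_ind pQ.inf_right (one_mem _) fun q hq m => by
    by_contra e
    exact ij (mem_cent1.1 ((sup_le (zpowers_le.2 hq.1.2) (zpowers_le.2 (mem_cent1.2 (za _).symm)))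
      (cm q hq.2 i iQ (sq q hq.2 e m) ii (mem_cent1.1 hq.1.1)).1))
  have d2 : ∀ g : H, (𝐂₁ (g * i * g⁻¹)).relIndex Q ≤ 2 := fun g => by
    rw [← ncard_orb]
    refine le_trans (Set.ncard_le_ncard (t := (· * (g * i * g⁻¹)) '' (zpowers a : Set H)) ?_)
      ((Set.ncard_image_le (Set.toFinite _)).trans ca)
    rintro _ ⟨m, hm, rfl⟩
    have k := inv_mem (h2 (commutator_mem_commutator iU (by simpa using nQ g⁻¹ m hm)))
    refine ⟨_, conj_mem_of_norm (z.ge.trans (norm_of_cent (cent_zpowers a).ge) (mem_top g)) k, ?_⟩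
    simp only [commutatorElement_def]; group
  have d3 : ♯Q ≤ 8 := by
    have k1 := d2 1
    rw [one_mul, inv_one, mul_one] at k1
    rw [← card_inf_mul_relIndex (𝐂₁ i ⊓ 𝐂₁ (b * i * b⁻¹)) Q]
    exact Nat.mul_le_mul ((BG.card_le d1).trans ca) (relIndex_inf_le.trans (Nat.mul_le_mul k1 (d2 b)))
  have s2 : s * s ∈ zpowers a := (h.sq (z ▸ mem_top s) hs).elim (· ▸ one_mem _) (· ▸ mem_zpowers a)
  have d4 : ∀ q ∈ Q, q * (s * q * s⁻¹) ∈ zpowers a := fun q hq => by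
    have k1 : (q * s) ^ 2 ∈ Q := by
      rw [show (q * s) ^ 2 = q * (s * q * s⁻¹) * (s * s) by rw [pow_two]; group]
      exact mul_mem (mul_mem hq (nQ s q hq)) (h1.le s2)
    have k2 : PiElt {2} (q * s) := fun p hp hd => by
      obtain ⟨n, hn⟩ := pQ.card_pow
      have : orderOf (q * s) ∣ 2 * 2 ^ n := orderOf_dvd_iff_pow_eq_one.2 (by
        rw [pow_mul]; exact orderOf_dvd_iff_pow_eq_one.1 (hn ▸ orderOf_dvd_card' k1))
      rw [← pow_succ'] at this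
      exact piNat_pow_self Nat.prime_two _ p hp (hd.trans this)
    have k3 : (q * s) ^ 2 ^ 2 = 1 := by
      by_contra k
      obtain ⟨k1, k2⟩ := R.two_pow k2 k
      have := Nat.le_of_dvd Nat.card_pos ((by decide : Nat.Coprime (2 ^ 2 * 2 ^ (2 + 1)) 3
        ).mul_dvd_of_dvd_of_dvd ((Nat.mul_dvd_mul_left _ k2).trans k1) h3)
      omega
    have k4 : (q * s) ^ 2 ∈ zpowers a := (u _ k1 (by rw [← pow_add]; exact k3)).elim
      (· ▸ one_mem _) (· ▸ mem_zpowers a)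
    rw [show q * (s * q * s⁻¹) = (q * s) ^ 2 * (s * s)⁻¹ by rw [pow_two]; group]
    exact mul_mem k4 (inv_mem s2)
  have n : ∀ g : H, ∀ e ∈ zpowers a, g * e * g⁻¹ ∈ zpowers a := fun g e he =>
    conj_mem_of_norm (z.ge.trans (norm_of_cent (cent_zpowers a).ge) (mem_top g)) he
  have f1 : s * (b * i * b⁻¹) * s⁻¹ = b⁻¹ * (s * i * s⁻¹) * b := by
    rw [show s * (b * i * b⁻¹) * s⁻¹ = s * b * s⁻¹ * (s * i * s⁻¹) * (s * b * s⁻¹)⁻¹ by group, hs, inv_inv]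
  have f2 := mul_mem (n b⁻¹ _ (d4 _ jQ)) (inv_mem (n b _ (d4 i iQ)))
  rw [f1, show b⁻¹ * (b * i * b⁻¹ * (b⁻¹ * (s * i * s⁻¹) * b)) * b⁻¹⁻¹ * (b * (i * (s * i * s⁻¹)) * b⁻¹)⁻¹ =
    i * (b * b * b)⁻¹ * b * (s * i * s⁻¹) * (b * b * b) * (s * i * s⁻¹)⁻¹ * i⁻¹ * b⁻¹ by group, h.bb] at f2
  exact nb _ (n i⁻¹ _ (inv_mem f2)) b (.inl rfl) (by group)

end Sx

end CF.Dc
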