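import Cfsg.Agent.Dc.D

/-! A centralizer of order six: the module in characteristic five. -/

set_option autoImplicit false
set_option linter.unusedSectionVars false

namespace CF.Dc

open MulAction Subgroup CF.BG

variable {K V H : Type*} [Field K] [AddCommGroup V] [Module K V] [Group H] [DistribMulAction H V]
  [SMulCommClass H K V] {f : V →ₗ[K] V →ₗ[K] K} [Finite H] {a b : H}

theorem mem_fz {g : H} {v : V} : v ∈ Fix K V (zpowers g) ↔ g • v = v :=
  ⟨fun h => h g (mem_zpowers g), fun h _ hx => zpowers_le.2 (mem_stabilizer_iff.2 h) hx⟩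

theorem two_cancel (h2 : (2 : K) ≠ 0) {u v : V} (h : u + u = v + v) : u = v :=
  sub_eq_zero.1 (eq_zero_of_eq_neg h2 (by rw [neg_sub, sub_eq_sub_iff_add_eq_add, h]))

theorem Sx.trick (h : Sx a b) (h2 : (2 : K) ≠ 0) (U : Submodule K V)
    (hU : ∀ g ∈ 𝐂₁ a, ∀ u ∈ U, g • u ∈ U) (hb : ∀ u ∈ U, b • u = u → u = 0) {q : H}
    (hq : q ∈ 𝐎 {2} (𝐂₁ a)) (q2 : ∀ u ∈ U, q • q • u = u) :
    (∀ u ∈ U, q • u = u) ∨ ∀ u ∈ U, (a * q) • u = u := by
  obtain ⟨e, he, c, hc, k⟩ := h.yy hq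
  have qC := O_le _ _ hq
  have bC := h.bC (mem_zpowers b)
  have eC : e ∈ 𝐂₁ a := by rcases he with rfl | rfl; exacts [qC, mul_mem (self_mem_cent1 a) qC]
  have e2 : ∀ u ∈ U, e • e • u = u := fun u hu => by
    rcases he with rfl | rfl
    · exact q2 u hu
    · rw [← mul_smul, mul_assoc, ← mul_assoc q, mem_cent1.1 qC, ← mul_assoc, ← mul_assoc, h.a2, one_mul,
        mul_smul, q2 u hu]
  have cube : ∀ x ∈ 𝐂₁ a, x * x * x = 1 → (∀ u ∈ U, x • u = u → u = 0) →
      ∀ u ∈ U, x⁻¹ • u + x • u + u = 0 := fun x hx x3 fx u hu => by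
    refine fx _ (add_mem (add_mem (hU _ (inv_mem hx) u hu) (hU x hx u hu)) hu) ?_
    rw [smul_add, smul_add, smul_inv_smul, ← mul_smul, ← inv_eq_of_mul_eq_one_left x3]; abel
  have x3 : e * b * (e * b) * (e * b) = 1 := by
    have : c * (e * b * (e * b) * (e * b)) * c⁻¹ = 1 := by
      rw [← conj_mul, ← conj_mul]
      rcases k with k | k <;> rw [k]
      exacts [h.bb, by rw [← mul_inv_rev, ← mul_inv_rev, ← mul_assoc, h.bb, inv_one]]
    simpa using this
  have k1 := cube b bC h.bb hb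
  have k2 := cube (e * b) (mul_mem eC bC) x3 fun u hu fu => by
    have m : (c * (e * b) * c⁻¹) • c • u = c • u := by rw [← mul_smul, inv_mul_cancel_right, mul_smul, fu]
    refine (smul_eq_zero_iff_eq c).1 (hb _ (hU c hc u hu) ?_)
    rcases k with k | k <;> rw [k] at m
    exacts [m, (inv_smul_eq_iff.1 m).symm]
  have k3 : ∀ u ∈ U, e • b • u + u = b • e • u + e • u := fun u hu => by
    have m1 := k1 _ (hU e eC u hu)
    have m2 := k2 u hu
    rw [mul_inv_rev, mul_smul, mul_smul, inv_smul_eq_iff.2 (e2 u hu).symm] at m2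
    rw [add_assoc] at m1 m2
    exact add_left_cancel (m2.trans m1.symm)
  have k4 : ∀ u ∈ U, e • u = u := fun u hu => by
    have m1 := k3 u hu
    have m2 := congrArg (e • ·) (k3 _ (hU e eC u hu))
    simp only [smul_add, e2 u hu, e2 _ (hU b bC _ (hU e eC u hu))] at m2
    refine two_cancel h2 ?_
    generalize e • b • u = A at *
    generalize b • e • u = B at *
    generalize e • u = C at *
    linear_combination (norm := abel) m1.symm + m2.symm
  rcases he with rfl | rfl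
  exacts [.inl k4, .inr k4]

theorem Fm.sa (F : Fm H f) (hc : (Nat.card H : K) ≠ 0) {Y : Subgroup H} {g : H}
    (hg : ∀ w ∈ Fix K V Y, g • w ∈ Fix K V Y) (h : ∀ w ∈ Fix K V Y, f w (g • w) = 0) {w : V}
    (hw : w ∈ Fix K V Y) : g • g • w = w := by
  refine sub_eq_zero.1 (F.nd_fix hc (sub_mem (hg _ (hg w hw)) hw) fun v hv => ?_)
  have := h _ (add_mem (hg w hw) hv)
  simp only [smul_add, map_add, LinearMap.add_apply, h _ (hg w hw), h v hv, F.inv] at this
  rw [map_sub, LinearMap.sub_apply, F.skew (g • g • w)]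
  linear_combination -this

theorem pow_smul_eig {h : H} {w : V} {c : K} (e : h • w = c • w) (n : ℕ) : h ^ n • w = c ^ n • w := by
  induction n with
  | zero => simp
  | succ n ih => rw [pow_succ, mul_smul, e, sm, ih, pow_succ', mul_smul]

theorem exists_tw [CharP K 5] {h : H} {w : V} (e : h • w = (2 : K) • w) :
    ∃ t : H, PiElt {2} t ∧ ∃ c : K, c * c = -1 ∧ t • w = c • w := by
  obtain ⟨m, hm, p⟩ := exists_odd_pow h
  have h5 : (5 : K) = 0 := by exact_mod_cast CharP.cast_eq_zero K 5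
  exact ⟨_, p, 2 ^ m, by rw [← mul_pow, show (2 * 2 : K) = -1 by linear_combination h5, hm.neg_one_pow],
    pow_smul_eig e m⟩

theorem ne25 [CharP K 5] : (2 : K) ≠ 0 := fun e => by
  have := (CharP.cast_eq_zero_iff K 5 2).1 (by exact_mod_cast e)
  omega

theorem Sx.case1 [CharP K 5] (h : Sx a b) (F : Fm H f) (hc : (Nat.card H : K) ≠ 0)
    (ev : ∀ v : V, ∃ h : H, h • v = (2 : K) • v) (fa : ∀ g : H, (∀ v : V, g • v = v) → g = 1)
    (hf : ∀ v : V, a • v = v → b • v = v → v = 0) {u : V} (hu : a • u = u) : u = 0 := by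
  have h2 : (2 : K) ≠ 0 := ne25
  have hU : ∀ g ∈ 𝐂₁ a, ∀ u ∈ Fix K V (zpowers a), g • u ∈ Fix K V (zpowers a) := fun g hg u hu =>
    mem_fz.2 (by rw [← mul_smul, ← mem_cent1.1 hg, mul_smul, mem_fz.1 hu])
  have QC := O_le {2} (𝐂₁ a)
  have pQ := O_pi {2} (𝐂₁ a)
  have h1 : ∀ q ∈ 𝐎 {2} (𝐂₁ a), ∀ u ∈ Fix K V (zpowers a), q • u = u :=
    two_ind pQ (fun u _ => one_smul _ u) fun q hq k =>
      (h.trick h2 _ hU (fun u hu => hf u (mem_fz.1 hu)) hq fun u hu => by rw [← mul_smul, k u hu]).elim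
        id fun m u hu => by
          have := m u hu
          rwa [mul_smul, mem_fz.1 (hU q (QC hq) u hu)] at this
  have h3 : 𝐍 (𝐎 {2} (𝐂₁ a)) ≤ 𝐂₁ a := fun g hg => by
    have m1 := conj_mem_of_norm hg h.aQ
    have m2 := conj_mem_of_norm' hg h.aQ
    have aa : ∀ v : V, a • a • v = v := fun v => by rw [← mul_smul, h.a2, one_smul]
    have k : ∀ v : V, a • v = -v → (g * a * g⁻¹) • v = -v := fun v hv => by
      have k1 : a • g⁻¹ • ((g * a * g⁻¹) • v + v) = g⁻¹ • ((g * a * g⁻¹) • v + v) := by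
        simp only [smul_add, mul_smul, inv_smul_smul, aa]; abel
      have k2 := h1 _ m2 _ (mem_fz.2 k1)
      rw [mul_smul, smul_inv_smul, mul_smul, smul_left_cancel_iff, smul_add, ← mul_smul,
        ← mem_cent1.1 (QC m1), mul_smul, hv, smul_neg, ← neg_add] at k2
      exact eq_neg_of_add_eq_zero_left (eq_zero_of_eq_neg h2 k2.symm)
    rw [mem_cent1, ← mul_inv_eq_iff_eq_mul, ← inv_mul_eq_one]
    refine fa _ fun v => ?_
    rw [mul_smul, inv_smul_eq_iff]
    have k1 := k (v - a • v) (by rw [smul_sub, aa, neg_sub])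
    have k2 := h1 _ m1 (v + a • v) (mem_fz.2 (by rw [smul_add, aa, add_comm]))
    rw [smul_sub] at k1
    rw [smul_add] at k2
    refine two_cancel h2 ?_
    generalize (g * a * g⁻¹) • a • v = A at *
    generalize (g * a * g⁻¹) • v = B at *
    generalize a • v = C at *
    linear_combination (norm := abel) k1.symm + k2.symm
  have h4 : ∀ w ∈ Fix K V (zpowers a), f w (b • w) = 0 := fun w hw => by
    rcases eq_or_ne w 0 with rfl | w0
    · simp
    have mL : ∀ g : H, g ∈ Sb H (K ∙ w) ↔ ∃ c : K, c • w = g • w := fun g =>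
      ⟨fun k => Submodule.mem_span_singleton.1 (k w (Submodule.mem_span_singleton_self w)),
        fun ⟨c, e⟩ v hv => by
          obtain ⟨d, rfl⟩ := Submodule.mem_span_singleton.1 hv
          exact Submodule.mem_span_singleton.2 ⟨d * c, by rw [sm, ← e, mul_smul]⟩⟩
    obtain ⟨S, hS, QS⟩ := exists_syl_le (M := Sb H (K ∙ w))
      (fun q hq => (mL q).2 ⟨1, by rw [h1 q hq w hw, one_smul]⟩) pQ
    obtain ⟨t, ht⟩ := ev w
    obtain ⟨t, pt, c, cc, ht⟩ := exists_tw ht
    have lt : 𝐎 {2} (𝐂₁ a) < S := lt_of_le_of_ne QS fun e => by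
      obtain ⟨g, hg, k⟩ := hS.syl_cj_le (zpowers_le.2 ((mL t).2 ⟨c, ht.symm⟩)) pt.zpowers
      rw [cj_zpowers, zpowers_le, ← e] at k
      obtain ⟨d, hd⟩ := (mL _).1 (inv_mem hg)
      have := h1 _ k w hw
      rw [mul_smul, mul_smul, ← hd, sm, ht, smul_comm d, sm, hd, smul_inv_smul] at this
      obtain rfl : c = 1 := smul_left_injective K w0 (this.trans (one_smul K w).symm)
      exact h2 (by linear_combination cc)
    obtain ⟨s, hs, sQ⟩ := SetLike.exists_of_lt (hS.pi.nil.lt_inf_norm lt)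
    obtain ⟨q, hq, n, hn, rfl, k⟩ := h.dec (h3 hs.2)
    obtain ⟨d, hd⟩ := (mL _).1 (hS.le hs.1)
    rw [mul_smul, h1 q hq _ (hU n hn w hw)] at hd
    rcases k with k | k
    · refine (sQ (h.mem2 ?_ (hS.pi.elt hs.1))).elim
      rcases h.cc n (mem_cent1.1 hn) (mul_inv_eq_iff_eq_mul.1 k) with m | m
      · exact mul_mem_sup hq m
      · simpa [mul_assoc] using mul_mem_sup (mul_mem hq (inv_mem h.aQ)) m
    have k1 : (d * d) • w = w := by
      rw [mul_smul, hd, ← sm, hd, ← mul_smul]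
      rcases h.sq hn k with e | e <;> rw [e]
      exacts [one_smul _ _, mem_fz.1 hw]
    have k2 : d * d = 1 := smul_left_injective K w0 (k1.trans (one_smul K w).symm)
    have k3 := F.inv n w (b • w)
    rw [← mul_smul, mul_inv_eq_iff_eq_mul.1 k, mul_smul, ← hd, sm, fl, fr, ← mul_assoc, k2, one_mul,
      F.adj', inv_inv, F.skew] at k3
    exact cancel 2 h2 (by linear_combination -k3)
  have := F.sa hc (hU b (h.bC (mem_zpowers b))) h4 (mem_fz.2 hu)
  rw [← mul_smul, ← h.bi, inv_smul_eq_iff] at this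
  exact hf u hu this.symm

theorem Sx.case2 [CharP K 5] (h : Sx a b) (R : Rt H) (F : Fm H f) (hc : (Nat.card H : K) ≠ 0)
    (ev : ∀ v : V, ∃ h : H, h • v = (2 : K) • v) (fa : ∀ g : H, (∀ v : V, g • v = v) → g = 1)
    (h8 : 8 ∣ Nat.card H) (ha : ∀ v : V, a • v = -v) : False := by
  have h2 : (2 : K) ≠ 0 := ne25
  have h5 : (5 : K) = 0 := by exact_mod_cast CharP.cast_eq_zero K 5
  have z : 𝐂₁ a = ⊤ := (eq_top_iff' _).2 fun g => by
    rw [mem_cent1, ← inv_mul_eq_one]
    exact fa _ fun v => by rw [mul_smul, inv_smul_eq_iff, mul_smul, mul_smul, ha, ha, smul_neg]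
  have za : ∀ g : H, g * a = a * g := fun g => mem_cent1.1 (z ▸ mem_top g)
  obtain ⟨s, hs⟩ := isConj_iff.1 (R.inv b)
  have pm : ∀ w ∈ Fix K V (zpowers b), ∀ m : H, m * b * m⁻¹ = b → m • w = w ∨ m • w = -w :=
    fun w hw m e => (h.cc m (za m) (mul_inv_eq_iff_eq_mul.1 e)).imp (hw m) fun k => by
      have := hw _ k
      rwa [mul_smul, ha, neg_eq_iff_eq_neg] at this
  have h1 : ∀ w ∈ Fix K V (zpowers b), ∃ c : K, c * c = -1 ∧ s • w = c • w := fun w hw => by
    rcases eq_or_ne w 0 with rfl | w0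
    · exact ⟨2, by linear_combination h5, by simp⟩
    obtain ⟨g, hg⟩ := ev w
    have bw : zpowers b ≤ stabilizer H w := zpowers_le.2 (mem_fz.1 hw)
    have gb : g * b * g⁻¹ ∈ stabilizer H w := by
      have : g⁻¹ • w = (2⁻¹ : K) • w := by rw [inv_smul_eq_iff, sm, hg, inv_smul_smul₀ h2]
      rw [mem_stabilizer_iff, mul_smul, mul_smul, this, sm, mem_fz.1 hw, ← this, smul_inv_smul]
    obtain ⟨k, hk, m⟩ := ((z ▸ h.syl : Syl 3 (zpowers b) ⊤).of_le bw le_top).syl_cj_le (zpowers_le.2 gb)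
      ((h.p3.elt (mem_zpowers b)).conj g).zpowers
    rw [cj_zpowers, zpowers_le, show k * (g * b * g⁻¹) * k⁻¹ = k * g * b * (k * g)⁻¹ by group] at m
    have n2 : (k * g) • w = (2 : K) • w := by rw [mul_smul, hg, sm, mem_stabilizer_iff.1 hk]
    rcases h.cb m with e | e
    · exfalso
      rcases pm w hw _ e with e | e <;> rw [n2] at e
      · exact one_ne_zero (by linear_combination smul_left_injective K w0 (e.trans (one_smul K w).symm) :
          (1 : K) = 0)
      · exact h2 (by linear_combination h5 - smul_left_injective K w0 (e.trans (neg_one_smul K w).symm))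
    rcases pm w hw (s⁻¹ * (k * g)) (by
      rw [show s⁻¹ * (k * g) * b * (s⁻¹ * (k * g))⁻¹ = s⁻¹ * (k * g * b * (k * g)⁻¹) * s by group, e, ← hs]
      group) with e | e <;> rw [mul_smul, inv_smul_eq_iff, n2] at e
    · exact ⟨2, by linear_combination h5, e.symm⟩
    · exact ⟨-2, by linear_combination h5, by rw [neg_smul, e, smul_neg, neg_neg]⟩
  have h3 : ∀ w : V, b • w = w → w = 0 := fun w hw => by
    have := F.sa (g := s) hc (fun w hw => by obtain ⟨c, -, e⟩ := h1 w hw; exact e ▸ Submodule.smul_mem _ c hw)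
      (fun w hw => by obtain ⟨c, -, e⟩ := h1 w hw; rw [e, fr, F.alt, mul_zero]) (mem_fz.2 hw)
    obtain ⟨c, cc, e⟩ := h1 w (mem_fz.2 hw)
    rw [e, sm, e, ← mul_smul, cc, neg_one_smul] at this
    exact eq_zero_of_eq_neg h2 this.symm
  refine h.quat R z h8 fun q hq q2 => (h.trick h2 ⊤ (fun _ _ _ _ => trivial) (fun u _ => h3 u) hq
    fun u _ => by rw [← mul_smul, q2, one_smul]).imp (fun k => fa q fun v => k v trivial) fun k => ?_
  rw [← h.ai]
  exact eq_inv_of_mul_eq_one_right (fa _ fun v => k v trivial)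

universe u

theorem six {Γ : Type u} [Group Γ] [Finite Γ] (hs : Group.IsSolvable Γ) (R : Rt Γ)
    (h5 : 5 ∣ Nat.card Γ) (x : Γ) : ♯(𝐂₁ x) ≠ 6 := fun hx => by
  obtain ⟨H, K, V, _, _, _, _, _, _, _, _, π, f, T⟩ := exists_tp (by norm_num) le_rfl _ Γ rfl hs R h5
  have := Finite.of_surjective _ T.sj
  have hH := Group.isSolvable_of_surjective T.sj
  have R' := R.of_surj _ T.sj
  have h2 : (2 : K) ≠ 0 := ne25
  have ev : ∀ v : V, ∃ h : H, h • v = (2 : K) • v := fun v => by simpa using T.ev v 2 (by decide)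
  obtain ⟨w, w0⟩ := T.nt
  have h8 : 8 ∣ Nat.card H := by
    obtain ⟨t, ht⟩ := ev w
    obtain ⟨t, pt, c, cc, ht⟩ := exists_tw ht
    obtain ⟨k1, k2⟩ := R'.two_pow pt (k := 1) fun e => w0 (eq_zero_of_eq_neg h2 (by
      have := pow_smul_eig ht (2 ^ 1)
      rwa [e, one_smul, pow_one, pow_two, cc, neg_one_smul] at this))
    exact (Nat.mul_dvd_mul_left _ k2).trans k1
  have c1 : ♯(𝐂₁ (π x)) ≤ 6 := by
    let e := QuotientGroup.quotientKerEquivOfSurjective π T.sj
    rw [← hx]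
    refine le_trans ?_ (CF.Fgs2.card_centralizer_quotient_le π.ker x)
    rw [← card_map (f := e.toMonoidHom) e.injective]
    refine BG.card_le fun g hg => ⟨e.symm g, mem_cent1.2 (e.injective ?_), by simp⟩
    rw [map_mul, map_mul, e.apply_symm_apply]
    exact mem_cent1.1 hg
  have nt : 𝐂₁ (π x) ≠ ⊤ := fun e => by
    have := Nat.le_of_dvd Nat.card_pos h8
    rw [e, card_top] at c1; omega
  have fp : ∀ v : V, π x • v = v → v = 0 := fun v hv => by_contra fun v0 => by
    have := T.ce x v v0 hv fun e => nt (by simp [e])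
    omega
  have x6 : π x ^ 6 = 1 := by
    rw [← map_pow, orderOf_dvd_iff_pow_eq_one.1 (hx ▸ orderOf_dvd_card' (self_mem_cent1 x)), map_one]
  generalize π x = y at c1 nt fp x6
  have y2 : y ^ 2 ≠ 1 := fun e => nt ((eq_top_iff' _).2 fun g => by
    have k : ∀ v : V, y • v = -v := fun v => eq_neg_of_add_eq_zero_left (fp _ (by
      rw [smul_add, ← mul_smul, ← pow_two, e, one_smul, add_comm]))
    rw [mem_cent1, ← inv_mul_eq_one]
    exact T.fa _ fun v => by rw [mul_smul, inv_smul_eq_iff, mul_smul, mul_smul, k, k, smul_neg])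
  have b3 : orderOf (y ^ 2) = 3 := orderOf_eq_of_pow Nat.prime_three (by rw [← pow_mul, x6]) y2
  have bC : zpowers (y ^ 2) ≤ 𝐂₁ y := zpowers_le.2 (pow_mem (self_mem_cent1 y) 2)
  have ix := card_mul_relIndex bC
  rw [Nat.card_zpowers, b3] at ix
  obtain ⟨a, aC, a2, cc⟩ : ∃ a ∈ 𝐂₁ y, a * a = 1 ∧ ∀ g ∈ 𝐂₁ y, g ∈ zpowers (y ^ 2) ∨
      a * g ∈ zpowers (y ^ 2) := by
    have := relIndex_pos (zpowers (y ^ 2)) (𝐂₁ y)
    obtain e | e : (zpowers (y ^ 2)).relIndex (𝐂₁ y) = 1 ∨ (zpowers (y ^ 2)).relIndex (𝐂₁ y) = 2 := by omega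
    · exact ⟨1, one_mem _, one_mul _, fun g hg => .inl (relIndex_eq_one.1 e hg)⟩
    obtain ⟨a, ha, oa⟩ := exists_mem_orderOf_eq Nat.prime_two (H := 𝐂₁ y) (by omega)
    refine ⟨a, ha, by rw [← pow_two, ← oa, pow_orderOf_eq_one], fun g hg => or_iff_not_imp_left.2 fun k => ?_⟩
    refine mem_subgroupOf.1 ((mul_mem_iff_of_index_two e (a := ⟨a, ha⟩) (b := ⟨g, hg⟩)).2
      (iff_of_false (fun m => ?_) k))
    have := orderOf_dvd_card' (mem_subgroupOf.1 m)
    rw [Nat.card_zpowers, b3, oa] at this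
    omega
  have yy : y ∈ zpowers (y ^ 2) ⊔ zpowers a := (cc y (self_mem_cent1 y)).elim (mem_sup_left ·) fun k => by
    simpa using mul_mem (mem_sup_right (inv_mem (mem_zpowers a))) (mem_sup_left k)
  have S : Sx a (y ^ 2) := ⟨hH, fun p hp hd => by
    rcases gow hH R' hp hd with e | e | rfl
    exacts [.inl e, .inr e, (T.card hd).elim], a2, b3, (Commute.pow_right (mem_cent1.1 aC) 2),
    fun g ga gb => cc g (mem_cent1_comm.1 (sup_le (zpowers_le.2 (mem_cent1.2 gb.symm))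
      (zpowers_le.2 (mem_cent1.2 ga.symm)) yy))⟩
  have hc := mt (CharP.cast_eq_zero_iff K 5 _).1 T.card
  refine S.case2 R' T.toFm hc ev T.fa h8 fun v => eq_neg_of_add_eq_zero_left
    (S.case1 T.toFm hc ev T.fa (fun v ha hb => fp v ?_) ?_)
  · exact sup_le (zpowers_le.2 (mem_stabilizer_iff.2 hb)) (zpowers_le.2 (mem_stabilizer_iff.2 ha)) yy
  · rw [smul_add, ← mul_smul, a2, one_smul, add_comm]

end CF.Dc
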