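import Cfsg.Agent.Dc.E

/-! Solvable groups with pairwise different class sizes. -/

set_option autoImplicit false
set_option linter.unusedSectionVars false

namespace CF.Dc

open MulAction Subgroup CF.BG

theorem bdp {p : ℕ} (hp : 2 ≤ p) : Bd {n | ∃ b, n = p ^ b} (p / (p - 1)) := fun T hT =>
  ((Bd.single 1).pow hp T fun n hn =>
    let ⟨b, e⟩ := hT n hn; ⟨b, 1, rfl, by rw [e, mul_one]⟩).trans (by simp)

theorem bd23 : Bd {n | ∃ a b, n = 2 ^ a * 3 ^ b} 3 := fun T hT =>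
  (bd3.pow (p := 2) le_rfl T fun n hn => let ⟨a, b, e⟩ := hT n hn; ⟨a, _, ⟨b, rfl⟩, e⟩).trans (by norm_num)

universe u

variable {G : Type u} [Group G] [Finite G]

theorem cent_three {x : G} (x1 : x ≠ 1) (hx : ♯(𝐂₁ x) = 3) {y : G} (hy : 3 ∣ ♯(𝐂₁ y)) :
    y = 1 ∨ ♯(𝐂₁ y) = 3 := by
  have p3 : (♯(𝐂₁ x)).Prime := hx ▸ Nat.prime_three
  have pC : PiGrp {3} (𝐂₁ x) := piGrp_of_card_prime Nat.prime_three hx
  have zx := zpowers_eq_of_prime p3 (self_mem_cent1 x) x1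
  have h1 : ∀ z ∈ 𝐂₁ x, z ≠ 1 → 𝐂₁ z = 𝐂₁ x := fun z hz z1 => by
    rw [← cent_zpowers, ← cent_zpowers x, zpowers_eq_of_prime p3 hz z1, zx]
  have h2 : Syl 3 (𝐂₁ x) ⊤ := syl_of_syl_norm le_top (syl_of_max (le_inf le_top (le_norm_self _)) pC
    fun _ hQ k l => le_antisymm (le_cent1_iff.2 (k.cent_of_prime Nat.prime_three hx
      (hQ.trans inf_le_right) (self_mem_cent1 x))) l)
  obtain ⟨z, hz, oz⟩ := exists_mem_orderOf_eq Nat.prime_three hy
  obtain ⟨g, -, k⟩ := h2.syl_cj_le le_top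
    (piElt_of_pow_eq_one Nat.prime_three (oz ▸ pow_orderOf_eq_one z)).zpowers
  rw [cj_zpowers, zpowers_le] at k
  have k1 := h1 _ k fun e => by
    have : z = 1 := by simpa using e
    simp [this] at oz
  rw [← cj_cent1] at k1
  refine or_iff_not_imp_left.2 fun y1 => ?_
  rw [← hx, ← h1 (g * y * g⁻¹) (k1 ▸ conj_mem_cj.2 (mem_cent1_comm.1 hz)) (by simpa using y1),
    ← cj_cent1, cj_def, card_map (conj_inj g)]

theorem five_split {a b c : ℕ} (h : 25 ∣ 2 ^ a * (3 ^ b * 5 ^ (c + 1)) ∨ 80 ≤ 2 ^ a * (3 ^ b * 5 ^ (c + 1))) :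
    (∃ d, c = d + 1) ∨ (c = 0 ∧ 16 ≤ 2 ^ a * 3 ^ b) := by
  rcases c with _ | c
  · refine .inr ⟨rfl, h.elim (fun k => ?_) fun k => by rw [← mul_assoc] at k; omega⟩
    rw [← mul_assoc, show 25 = 5 * 5 ^ (0 + 1) from rfl, Nat.mul_dvd_mul_iff_right (by decide)] at k
    exact absurd ((Nat.Coprime.mul_right ((by decide : Nat.Coprime 5 2).pow_right a)
      ((by decide : Nat.Coprime 5 3).pow_right b)).eq_one_of_dvd k) (by decide)
  · exact .inl ⟨c, rfl⟩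

theorem Ah.main [Nontrivial G] (h : Ah G) (hs : Group.IsSolvable G) :
    Nonempty (G ≃* Equiv.Perm (Fin 3)) := by
  by_cases k2 : ∃ u : G, ♯(𝐂₁ u) = 2
  · exact h.sym k2.choose_spec
  exfalso
  push Not at k2
  have R := h.rt
  have k1 : ∀ x : G, ♯(𝐂₁ x) ≠ 1 := fun x e => by
    have := card_eq_one'.1 e
    rw [eq_one_of_mem_bot this (self_mem_cent1 x), cent1_one] at this
    exact top_ne_bot this
  have sm : ∀ x : G, ∃ a b c, ♯(𝐂₁ x) = 2 ^ a * (3 ^ b * 5 ^ c) := fun x =>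
    sm235 (card_ne_zero' _) fun p hp hd => gow hs R hp (hd.trans (card_subgroup_dvd_card _))
  have cB : ∀ (x : G) a b c, ♯(𝐂₁ x) = 2 ^ a * (3 ^ b * 5 ^ (c + 1)) →
      (∃ d, c = d + 1) ∨ (c = 0 ∧ 16 ≤ 2 ^ a * 3 ^ b) := fun x a b c e =>
    five_split (e ▸ claimB _ G rfl hs R x (e ▸ ((dvd_pow_self 5 c.succ_ne_zero).mul_left _).mul_left _))
  have n5 : ¬ 5 ∣ Nat.card G → ∀ x : G, ∃ a b, ♯(𝐂₁ x) = 2 ^ a * 3 ^ b := fun h5 x => by
    obtain ⟨a, b, c, e⟩ := sm x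
    obtain rfl : c = 0 := by_contra fun k => h5 ((((dvd_pow_self 5 k).mul_left _).mul_left _).trans
      (e ▸ card_subgroup_dvd_card _))
    exact ⟨a, b, by rw [e]; ring⟩
  have b2 := bdp (p := 2) le_rfl
  have b5 := bdp (p := 5) (by decide)
  by_cases k3 : ∃ x : G, ♯(𝐂₁ x) = 3
  · obtain ⟨x, hx⟩ := k3
    obtain ⟨K, hK⟩ := R.exists_index_two hs
    obtain ⟨u, -, ou⟩ := exists_mem_orderOf_eq Nat.prime_two (H := (⊤ : Subgroup G))
      (card_top' (G := G) ▸ hK ▸ index_dvd_card K)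
    have h8 : 8 ≤ Nat.card G := by
      have m1 : 2 ∣ ♯(𝐂₁ u) := ou ▸ orderOf_dvd_card' (self_mem_cent1 u)
      have m2 := k2 u
      have m3 := card_pos' (𝐂₁ u)
      have m4 : (𝐂₁ u).index ≠ 1 := fun e => by
        have := isConj_one_right.1 (h 1 u (by rw [index_eq_one.1 e, cent1_one]))
        simp [this] at ou
      have m5 := (𝐂₁ u).index_ne_zero_of_finite
      rw [← (𝐂₁ u).index_mul_card]
      exact Nat.mul_le_mul (by omega : 2 ≤ _) (by omega : 4 ≤ _)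
    have c3 := fun y => cent_three (x := x) (y := y) (fun e => by
      rw [e, cent1_one, card_top] at hx; omega) hx
    have b := ((Bd.single 3).union (Bd.single (Nat.card G))).union (b2.diff {1, 2} (by
      simp only [Finset.mem_insert, Finset.mem_singleton]
      rintro _ (rfl | rfl)
      exacts [⟨0, rfl⟩, ⟨1, rfl⟩]))
    have m : ∀ (y : G) a b c, ♯(𝐂₁ y) = 2 ^ a * (3 ^ b * 5 ^ c) → (♯(𝐂₁ y) = 3 ∨ ♯(𝐂₁ y) = Nat.card G) ∨
        b = 0 := fun y a b c e => or_iff_not_imp_right.2 fun k =>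
      (c3 y (e ▸ ((dvd_pow_self 3 k).mul_right _).mul_left _)).symm.imp_right fun e => by
        rw [e, cent1_one, card_top]
    have m0 : ∀ (y : G) a, ♯(𝐂₁ y) = 2 ^ a * (3 ^ 0 * 5 ^ 0) →
        (∃ b, ♯(𝐂₁ y) = 2 ^ b) ∧ ♯(𝐂₁ y) ∉ ({1, 2} : Finset ℕ) := fun y a e =>
      ⟨⟨a, by rw [e]; ring⟩, by simp [k1, k2]⟩
    by_cases h5 : 5 ∣ Nat.card G
    · have := h.one_le (fun y => ?_) (b.union (((b5.pow (p := 2) le_rfl).mul (c := 25) (by decide)).union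
        (b2.mul (c := 80) (by decide))))
      · have h75 : 75 ≤ Nat.card G := by
          have m1 : 3 ∣ Nat.card G := hx ▸ card_subgroup_dvd_card _
          have := claimB _ G rfl hs R 1 (by rwa [cent1_one, card_top])
          rw [cent1_one, card_top] at this
          omega
        have := one_div_le_one_div_of_le (by norm_num) (show (75 : ℚ) ≤ Nat.card G by exact_mod_cast h75)
        norm_num at *; linarith
      obtain ⟨a, b, c, e⟩ := sm y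
      rcases m y a b c e with k | rfl
      · exact .inl (.inl k)
      rcases c with _ | c
      · exact .inl (.inr (m0 y a e))
      rcases cB y a 0 c e with ⟨c, rfl⟩ | ⟨rfl, k⟩
      · exact .inr (.inl ⟨_, ⟨a, _, ⟨c, rfl⟩, rfl⟩, by rw [e]; ring⟩)
      obtain ⟨a, rfl⟩ := Nat.exists_eq_add_of_le ((Nat.pow_le_pow_iff_right one_lt_two).1
        (show 2 ^ 4 ≤ 2 ^ a by simpa using k))
      exact .inr (.inr ⟨_, ⟨a, rfl⟩, by rw [e]; ring⟩)
    · have := h.one_le (fun y => ?_) b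
      · have := one_div_le_one_div_of_le (by norm_num) (show (8 : ℚ) ≤ Nat.card G by exact_mod_cast h8)
        norm_num at *; linarith
      obtain ⟨a, b, e⟩ := n5 h5 y
      rcases m y a b 0 (by rw [e]; ring) with k | rfl
      exacts [.inl k, .inr (m0 y a (by rw [e]; ring))]
  push Not at k3
  by_cases k4 : ∃ x : G, ♯(𝐂₁ x) = 4
  · have h16 := R.not16 k4.choose_spec
    have := h.one_le (fun y => ?_) ((bd3.union ((bd3.mul (c := 2) (by decide)).union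
      ((bd3.mul (c := 4) (by decide)).union (bd3.mul (c := 8) (by decide))))).diff {1, 2, 3} (by
      simp only [Finset.mem_insert, Finset.mem_singleton]
      rintro _ (rfl | rfl | rfl)
      exacts [.inl ⟨0, rfl⟩, .inr (.inl ⟨_, ⟨0, rfl⟩, rfl⟩), .inl ⟨1, rfl⟩]))
    · norm_num at this
    obtain ⟨a, b, e⟩ := n5 (h.four hs h16) y
    refine ⟨?_, by simp [k1, k2, k3]⟩
    have : a < 4 := by_contra fun k => h16 (((pow_dvd_pow 2 (not_lt.1 k)).mul_right _).trans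
      (e ▸ card_subgroup_dvd_card _))
    interval_cases a
    exacts [.inl ⟨b, by rw [e]; ring⟩, .inr (.inl ⟨_, ⟨b, rfl⟩, e⟩), .inr (.inr (.inl ⟨_, ⟨b, rfl⟩, e⟩)),
      .inr (.inr (.inr ⟨_, ⟨b, rfl⟩, e⟩))]
  push Not at k4
  by_cases h5 : 5 ∣ Nat.card G
  · have := h.one_le (fun y => ?_) ((bd23.diff {1, 2, 3, 4, 6} (by
      simp only [Finset.mem_insert, Finset.mem_singleton]
      rintro _ (rfl | rfl | rfl | rfl | rfl)
      exacts [⟨0, 0, rfl⟩, ⟨1, 0, rfl⟩, ⟨0, 1, rfl⟩, ⟨2, 0, rfl⟩, ⟨1, 1, rfl⟩])).union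
      (((bd23.pow (p := 5) (by decide)).mul (c := 25) (by decide)).union
      ((bd23.diff {1, 2, 3, 4, 6, 8, 9, 12} (by
      simp only [Finset.mem_insert, Finset.mem_singleton]
      rintro _ (rfl | rfl | rfl | rfl | rfl | rfl | rfl | rfl)
      exacts [⟨0, 0, rfl⟩, ⟨1, 0, rfl⟩, ⟨0, 1, rfl⟩, ⟨2, 0, rfl⟩, ⟨1, 1, rfl⟩, ⟨3, 0, rfl⟩, ⟨0, 2, rfl⟩,
        ⟨2, 1, rfl⟩])).mul (c := 5) (by decide))))
    · norm_num at this
    obtain ⟨a, b, c, e⟩ := sm y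
    rcases c with _ | c
    · exact .inl ⟨⟨a, b, by rw [e]; ring⟩, by simp [k1, k2, k3, k4, six hs R h5 y]⟩
    rcases cB y a b c e with ⟨c, rfl⟩ | ⟨rfl, k⟩
    · exact .inr (.inl ⟨_, ⟨c, _, ⟨a, b, rfl⟩, rfl⟩, by rw [e]; ring⟩)
    · exact .inr (.inr ⟨_, ⟨⟨a, b, rfl⟩, by
        simp only [Finset.mem_insert, Finset.mem_singleton]; omega⟩, by rw [e]; ring⟩)
  · have := h.one_le (fun y => ?_) (bd23.diff {1, 2, 3, 4} (by
      simp only [Finset.mem_insert, Finset.mem_singleton]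
      rintro _ (rfl | rfl | rfl | rfl)
      exacts [⟨0, 0, rfl⟩, ⟨1, 0, rfl⟩, ⟨0, 1, rfl⟩, ⟨2, 0, rfl⟩]))
    · norm_num at this
    exact ⟨n5 h5 y, by simp [k1, k2, k3, k4]⟩

end CF.Dc
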