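import Mathlib

/-! Invariant alternating forms with many multipliers: quartic invariants, abelian normal
subgroups, orthogonal blocks. -/

set_option autoImplicit false

namespace CF.Dc

variable {K V H X : Type*} [Field K] [AddCommGroup V] [Module K V]
  [Group H] [DistribMulAction H V] [SMulCommClass H K V]

theorem cancel {x : K} (c : K) (hc : c ≠ 0) (h : c * x = 0) : x = 0 :=
  (mul_eq_zero.1 h).resolve_left hc

/-- an invariant non-degenerate alternating form -/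
structure Fm (H : Type*) [Group H] [DistribMulAction H V] (f : V →ₗ[K] V →ₗ[K] K) : Prop where
  alt : ∀ v, f v v = 0
  inv : ∀ (g : H) u v, f (g • u) (g • v) = f u v
  nd : ∀ u, (∀ v, f u v = 0) → u = 0

variable {f : V →ₗ[K] V →ₗ[K] K}

omit [SMulCommClass H K V] in
theorem Fm.skew (F : Fm H f) (u v : V) : f u v = - f v u := by
  have := F.alt (u + v)
  simp only [map_add, LinearMap.add_apply, F.alt] at this
  linear_combination this

omit [SMulCommClass H K V] in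
theorem Fm.adj (F : Fm H f) (g : H) (u v : V) : f (g • u) v = f u (g⁻¹ • v) := by
  rw [← F.inv g u, smul_inv_smul]

omit [SMulCommClass H K V] in
theorem Fm.adj' (F : Fm H f) (g : H) (u v : V) : f u (g • v) = f (g⁻¹ • u) v := by
  rw [← F.inv g (g⁻¹ • u), smul_inv_smul]

variable (K V) in
/-- fixed vectors of a subgroup -/
def Fix (Y : Subgroup H) : Submodule K V where
  carrier := {v | ∀ g ∈ Y, g • v = v}
  add_mem' := fun {a b} ha hb g hg => by rw [smul_add, ha g hg, hb g hg]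
  zero_mem' := fun g _ => smul_zero g
  smul_mem' := fun c v hv g hg => by rw [smul_comm, hv g hg]

theorem mem_Fix {Y : Subgroup H} {v : V} : v ∈ Fix K V Y ↔ ∀ g ∈ Y, g • v = v := Iff.rfl

theorem Fm.nd_fix [Finite H] (F : Fm H f) (hc : (Nat.card H : K) ≠ 0) {Y : Subgroup H} {u : V}
    (hu : u ∈ Fix K V Y) (h : ∀ v ∈ Fix K V Y, f u v = 0) : u = 0 := by
  have := Fintype.ofFinite Y
  have hY : (Nat.card Y : K) ≠ 0 := fun e => hc (by
    obtain ⟨c, hc⟩ := Y.card_subgroup_dvd_card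
    rw [hc]; push_cast; rw [e, zero_mul])
  refine F.nd u fun v => ?_
  have h1 := h (∑ y : Y, (y : H) • v) fun g hg => by
    rw [Finset.smul_sum]
    exact Fintype.sum_equiv (Equiv.mulLeft ⟨g, hg⟩) _ _ fun y => by simp [mul_smul]
  rw [map_sum] at h1
  have h2 : ∀ y : Y, f u ((y : H) • v) = f u v := fun y => by
    rw [F.adj', hu _ (Y.inv_mem y.2)]
  simp only [h2, Finset.sum_const, Finset.card_univ, nsmul_eq_mul, ← Nat.card_eq_fintype_card] at h1
  exact (mul_eq_zero.1 h1).resolve_left hY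

section Q4
variable [Group X] [Fintype X] [DistribMulAction X V]

omit [SMulCommClass H K V] in
theorem Fm.q4 (F : Fm H f) (h15 : (15 : K) ≠ 0) (ev : ∀ v : V, ∃ h : H, h • v = (2 : K) • v)
    (hs : ∀ (e : X) (c : K) (v : V), e • c • v = c • e • v)
    (hθ : ∀ h : H, ∃ σ : X ≃ X, ∀ e (v : V), σ e • h • v = h • e • v) (v : V) :
    ∑ e : X, f v (e • v) ^ 2 = 0 := by
  obtain ⟨h, hh⟩ := ev v
  obtain ⟨σ, hσ⟩ := hθ h
  have h1 : ∑ e : X, f v (e • v) ^ 2 = ∑ e : X, f (h • v) (e • h • v) ^ 2 :=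
    Fintype.sum_equiv σ _ _ fun e => by rw [hσ, F.inv]
  have h2 : ∑ e : X, f (h • v) (e • h • v) ^ 2 = 16 * ∑ e : X, f v (e • v) ^ 2 := by
    rw [Finset.mul_sum]
    refine Finset.sum_congr rfl fun e _ => ?_
    rw [hh, hs]; simp only [map_smul, LinearMap.smul_apply, smul_eq_mul]; ring
  refine cancel 15 h15 ?_
  linear_combination -h1 - h2

theorem polar4 (h6 : (6 : K) ≠ 0) (hs : ∀ (e : X) (c : K) (v : V), e • c • v = c • e • v)
    (q : ∀ v : V, ∑ e : X, f v (e • v) ^ 2 = 0) (u v : V) :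
    ∑ e : X, f v (e • v) * (f v (e • u) + f u (e • v)) = 0 := by
  have h : ∀ x : K, ∑ e : X, (f v (e • v) + x * (f v (e • u) + f u (e • v)) +
      x ^ 2 * f u (e • u)) ^ 2 = 0 := fun x => by
    rw [← q (v + x • u)]
    refine Finset.sum_congr rfl fun e _ => ?_
    rw [smul_add, hs]; simp only [map_add, map_smul, LinearMap.add_apply, LinearMap.smul_apply,
      smul_eq_mul]; ring
  have h24 : (24 : K) ≠ 0 := fun e => h6 (by
    have h2 : (2 : K) ≠ 0 := fun e => h6 (by linear_combination 3 * e)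
    refine cancel _ (mul_ne_zero h2 h2) ?_
    linear_combination e)
  refine cancel 24 h24 ?_
  have : 8 * (∑ e : X, (f v (e • v) + 1 * (f v (e • u) + f u (e • v)) + 1 ^ 2 * f u (e • u)) ^ 2 -
      ∑ e : X, (f v (e • v) + (-1) * (f v (e • u) + f u (e • v)) + (-1) ^ 2 * f u (e • u)) ^ 2) -
      (∑ e : X, (f v (e • v) + 2 * (f v (e • u) + f u (e • v)) + 2 ^ 2 * f u (e • u)) ^ 2 -
      ∑ e : X, (f v (e • v) + (-2) * (f v (e • u) + f u (e • v)) + (-2) ^ 2 * f u (e • u)) ^ 2) =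
      24 * ∑ e : X, f v (e • v) * (f v (e • u) + f u (e • v)) := by
    simp only [← Finset.sum_sub_distrib, Finset.mul_sum]
    exact Finset.sum_congr rfl fun e _ => by ring
  rw [← this, h, h, h, h]; ring

end Q4

theorem conv_zero {A : Type*} [CommGroup A] [Fintype A] (hc : (Nat.card A : K) ≠ 0) (φ : A → K)
    (h : ∀ d, ∑ a, φ a * φ (a⁻¹ * d) = 0) (a : A) : φ a = 0 := by
  classical
  have : NeZero (Nat.card A : K) := ⟨hc⟩
  let Θ : MonoidAlgebra K A := ∑ a, MonoidAlgebra.single a (φ a)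
  have h1 : ∀ b, Θ.coeff b = φ b := fun b => by
    simp [Θ, MonoidAlgebra.coeff_sum, Finsupp.finsetSum_apply, Finsupp.single_apply]
  have h2 : Θ * Θ = 0 := by
    ext d
    conv_lhs => rw [show Θ * Θ = (∑ a, MonoidAlgebra.single a (φ a)) * Θ from rfl, Finset.sum_mul]
    simp [MonoidAlgebra.coeff_sum, Finsupp.finsetSum_apply, h1, h]
  have h3 : Θ = 0 := IsNilpotent.eq_zero ⟨2, by rw [pow_two, h2]⟩
  rw [← h1, h3]; rfl

theorem Fm.sq_of_comm {A : Type*} [CommGroup A] [Fintype A] [DistribMulAction A V]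
    [SMulCommClass A K V] (F : Fm A f) (h6 : (6 : K) ≠ 0) (hc : (Nat.card A : K) ≠ 0)
    (q : ∀ v : V, ∑ e : A, f v (e • v) ^ 2 = 0) (a : A) (v : V) : a • a • v = v := by
  have h2 : (2 : K) ≠ 0 := fun e => h6 (by linear_combination 3 * e)
  have h0 : ∀ v : V, f v (a • v) = 0 := fun v => by
    refine conv_zero hc (fun a => f v (a • v)) (fun d => ?_) a
    have h1 := polar4 h6 (fun e c v => smul_comm e c v) q (d • v) v
    have h3 : ∑ e : A, f v (e • v) * f (d • v) (e • v) = ∑ e : A, f v (e • v) * f v (e • d • v) :=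
      Fintype.sum_equiv (Equiv.mulLeft d⁻¹) _ _ fun e => by
        rw [F.adj, ← mul_smul, ← mul_smul, Equiv.coe_mulLeft, mul_comm]
        congr 3; show e = d⁻¹ * e * d; rw [mul_comm d⁻¹]; group
    simp only [mul_add, Finset.sum_add_distrib, h3] at h1
    have h4 : ∑ e : A, f v (e • v) * f v ((e⁻¹ * d) • v) =
        - ∑ e : A, f v (e • v) * f v (e • d • v) := by
      rw [← Finset.sum_neg_distrib]
      refine Fintype.sum_equiv (Equiv.inv A) _ _ fun e => ?_
      rw [Equiv.inv_apply, ← F.adj e, F.skew (e • v), mul_smul]; ring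
    rw [h4, neg_eq_zero]
    refine cancel 2 h2 ?_
    linear_combination h1
  have h1 : ∀ u w : V, f u (a • w) = f (a • u) w := fun u w => by
    have := h0 (u + w)
    simp only [smul_add, map_add, LinearMap.add_apply, h0] at this
    rw [F.skew (a • u)]; linear_combination this
  refine sub_eq_zero.1 (F.nd _ fun w => ?_)
  rw [map_sub, LinearMap.sub_apply, ← h1, F.inv, sub_self]

theorem ne_zero_of_lt {p : ℕ} [CharP K p] (hp : 7 ≤ p) {n : ℕ} (h0 : 0 < n) (hn : n < 7) :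
    (n : K) ≠ 0 := fun e =>
  absurd (Nat.le_of_dvd h0 ((CharP.cast_eq_zero_iff K p n).1 e)) (by omega)

theorem ne2 {p : ℕ} [CharP K p] (hp : 7 ≤ p) : (2 : K) ≠ 0 := by
  exact_mod_cast ne_zero_of_lt (K := K) hp (n := 2) (by omega) (by omega)

theorem ne3 {p : ℕ} [CharP K p] (hp : 7 ≤ p) : (3 : K) ≠ 0 := by
  exact_mod_cast ne_zero_of_lt (K := K) hp (n := 3) (by omega) (by omega)

theorem ne6 {p : ℕ} [CharP K p] (hp : 7 ≤ p) : (6 : K) ≠ 0 := by
  exact_mod_cast ne_zero_of_lt (K := K) hp (n := 6) (by omega) (by omega)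

theorem ne15 {p : ℕ} [CharP K p] (hp : 7 ≤ p) : (15 : K) ≠ 0 := by
  have h5 : (5 : K) ≠ 0 := by
    exact_mod_cast ne_zero_of_lt (K := K) hp (n := 5) (by omega) (by omega)
  rw [show (15 : K) = 3 * 5 by norm_num]; exact mul_ne_zero (ne3 hp) h5

theorem eq_zero_of_eq_neg (h2 : (2 : K) ≠ 0) {v : V} (h : v = -v) : v = 0 := by
  have : (2 : K) • v = 0 := by rw [two_smul]; exact add_eq_zero_iff_eq_neg.2 h
  exact (smul_eq_zero.1 this).resolve_left h2

theorem cast_card_ne [Finite H] (hc : (Nat.card H : K) ≠ 0) (Y : Subgroup H) :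
    (Nat.card Y : K) ≠ 0 := fun e => hc (by
  obtain ⟨c, hc⟩ := Y.card_subgroup_dvd_card
  rw [hc]; push_cast; rw [e, zero_mul])

/-- an orthogonal block -/
structure Blk (H : Type*) [Group H] [DistribMulAction H V] (f : V →ₗ[K] V →ₗ[K] K)
    (W : Submodule K V) : Prop where
  ne : W ≠ ⊥
  nd : ∀ u ∈ W, (∀ v ∈ W, f u v = 0) → u = 0
  orth : ∀ h : H, (∀ w ∈ W, h • w ∈ W) ∨ ∀ u ∈ W, ∀ v ∈ W, f (h • u) v = 0

/-- the primitive setting -/
structure Pr (p : ℕ) (H : Type*) [Group H] [DistribMulAction H V] (f : V →ₗ[K] V →ₗ[K] K) :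
    Prop extends Fm H f where
  le : 7 ≤ p
  card : (Nat.card H : K) ≠ 0
  ev : ∀ (v : V) (n : ℕ), ¬ p ∣ n → ∃ h : H, h • v = (n : K) • v
  fa : ∀ g : H, (∀ v : V, g • v = v) → g = 1
  prim : ∀ W, Blk H f W → W = ⊤
  nt : ∃ v : V, v ≠ 0

open MulAction in
omit [SMulCommClass H K V] in
theorem exists_mx [Finite H] [Finite V] (nt : ∃ v : V, v ≠ 0) (A : Subgroup H) :
    ∃ u : V, u ≠ 0 ∧ ∀ v : V, v ≠ 0 → Nat.card (A ⊓ stabilizer H v :) ≤
      Nat.card (A ⊓ stabilizer H u :) :=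
  Set.exists_max_image {v : V | v ≠ 0} (fun v => Nat.card (A ⊓ stabilizer H v :)) (Set.toFinite _) nt

theorem ev2 {p : ℕ} (hp : 7 ≤ p) (ev : ∀ (v : V) (n : ℕ), ¬ p ∣ n → ∃ h : H, h • v = (n : K) • v)
    (v : V) : ∃ h : H, h • v = (2 : K) • v := by
  exact_mod_cast ev v 2 fun h => absurd (Nat.le_of_dvd two_pos h) (by omega)

open MulAction in
theorem Pr.ab_pm {p : ℕ} [CharP K p] [Finite H] [Finite V] (P : Pr p H f) (A : Subgroup H)
    [hA : A.Normal] (hc : ∀ a ∈ A, ∀ b ∈ A, a * b = b * a) {a : H} (ha : a ∈ A) :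
    a = 1 ∨ ∀ v : V, a • v = -v := by
  have := Fintype.ofFinite A
  have hsq : ∀ a ∈ A, ∀ v : V, a • a • v = v := fun a ha v => by
    letI : CommGroup A := { (inferInstance : Group A) with
      mul_comm := fun a b => Subtype.ext (hc _ a.2 _ b.2) }
    have F : Fm A f := ⟨P.alt, fun g => P.inv g, P.nd⟩
    refine F.sq_of_comm (ne6 P.le) (cast_card_ne P.card A) (P.toFm.q4 (ne15 P.le) (ev2 P.le P.ev)
      (fun e c v => smul_comm e c v) fun h => ⟨(MulAut.conjNormal h).toEquiv, fun e v => ?_⟩) ⟨a, ha⟩ v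
    show (h * e * h⁻¹) • h • v = h • (e : H) • v
    rw [mul_smul, mul_smul, inv_smul_smul]
  obtain ⟨u, hu, hm⟩ := exists_mx P.nt A
  have h1 : ∀ a ∈ A, a • u ≠ u → ∀ w ∈ Fix K V (A ⊓ stabilizer H u), a • w = -w := fun a ha hn w hw => by
    by_contra h0
    have h2 : a • w + w ≠ 0 := fun e => h0 (add_eq_zero_iff_eq_neg.1 e)
    have h3 : A ⊓ stabilizer H u = A ⊓ stabilizer H (a • w + w) :=
      Subgroup.eq_of_le_of_card_ge (fun g hg => ⟨hg.1, mem_stabilizer_iff.2 (by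
        rw [smul_add, ← mul_smul, hc g hg.1 a ha, mul_smul, hw g hg])⟩) (hm _ h2)
    have h4 : a ∈ A ⊓ stabilizer H (a • w + w) :=
      ⟨ha, mem_stabilizer_iff.2 (by rw [smul_add, hsq a ha, add_comm])⟩
    exact hn (h3 ▸ h4).2
  have h5 := P.prim (Fix K V (A ⊓ stabilizer H u)) ⟨fun e => hu (by
    have : u ∈ Fix K V (A ⊓ stabilizer H u) := fun g hg => hg.2
    rwa [e] at this), fun v hv => P.toFm.nd_fix P.card hv, fun b => ?_⟩
  · by_cases hn : a • u = u
    · exact Or.inl (P.fa a fun v => (h5 ▸ Submodule.mem_top : v ∈ Fix K V (A ⊓ stabilizer H u)) a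
        ⟨ha, hn⟩)
    · exact Or.inr fun v => h1 a ha hn v (h5 ▸ Submodule.mem_top)
  by_cases hb : ∀ g ∈ A ⊓ stabilizer H u, (b⁻¹ * g * b) • u = u
  · refine Or.inl fun w hw g hg => ?_
    have := hw _ ⟨hA.conj_mem' g hg.1 b, hb g hg⟩
    rw [mul_smul, mul_smul, inv_smul_eq_iff] at this; exact this
  · push Not at hb
    obtain ⟨g, hg, hn⟩ := hb
    refine Or.inr fun w hw v hv => ?_
    have h6 := h1 _ (hA.conj_mem' g hg.1 b) hn w hw
    rw [mul_smul, mul_smul, inv_smul_eq_iff, smul_neg] at h6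
    have h7 := P.inv g (b • w) v
    rw [h6, hv g hg, map_neg, LinearMap.neg_apply] at h7
    refine cancel 2 (ne2 P.le) ?_
    linear_combination -h7

/-- the extraspecial setting -/
structure Ex (p : ℕ) [Group X] [DistribMulAction X V] (f : V →ₗ[K] V →ₗ[K] K)
    (θ : H →* MulAut X) (z : X) : Prop where
  FH : Fm H f
  FX : Fm X f
  le : 7 ≤ p
  card : (Nat.card X : K) ≠ 0
  ev : ∀ (v : V) (n : ℕ), ¬ p ∣ n → ∃ h : H, h • v = (n : K) • v
  fa : ∀ g : X, (∀ v : V, g • v = v) → g = 1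
  nt : ∃ v : V, v ≠ 0
  hθ : ∀ h e (v : V), θ h e • h • v = h • e • v
  hz : ∀ v : V, z • v = -v
  cm : ∀ a b : X, a * b = b * a ∨ a * b = z * (b * a)
  ce : ∀ a : X, (∀ b, a * b = b * a) → a = 1 ∨ a = z
  ex : ∃ a b : X, a * b ≠ b * a

theorem Pr.exists_ex {p : ℕ} [CharP K p] [Finite H] [Finite V] (P : Pr p H f)
    (hs : Group.IsSolvable H) :
    ∃ (E : Subgroup H) (_ : E.Normal) (z : E), Ex p f (MulAut.conjNormal : H →* MulAut E) z := by
  classical
  have h0 : ∃ n, ∀ g ∈ derivedSeries H n, g = 1 ∨ ∀ v : V, g • v = -v := by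
    obtain ⟨n, hn⟩ := hs
    exact ⟨n, fun g hg => Or.inl (by rwa [hn] at hg)⟩
  obtain ⟨u, hu⟩ := P.nt
  have h1 : Nat.find h0 ≠ 0 := fun e => by
    have := Nat.find_spec h0
    obtain ⟨h, hh⟩ := ev2 P.le P.ev u
    rcases this h (by rw [e]; trivial) with k | k
    · rw [k, one_smul, two_smul] at hh; exact hu (by simpa using hh)
    · rw [k] at hh
      have : (3 : K) • u = 0 := by
        rw [show (3 : K) = 2 + 1 by norm_num, add_smul, ← hh, one_smul, neg_add_cancel]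
      exact hu ((smul_eq_zero.1 this).resolve_left (ne3 P.le))
  obtain ⟨n, hn⟩ := Nat.exists_eq_succ_of_ne_zero h1
  have h2 := Nat.find_min h0 (m := n) (by omega)
  have h3 := Nat.find_spec h0
  rw [hn] at h3
  set E := derivedSeries H n
  have h4 : ∀ a ∈ E, ∀ b ∈ E, a * b * a⁻¹ * b⁻¹ = 1 ∨ ∀ v : V, (a * b * a⁻¹ * b⁻¹) • v = -v :=
    fun a ha b hb => h3 _ (Subgroup.commutator_mem_commutator ha hb)
  have h5 : ∀ a ∈ E, (∀ b ∈ E, a * b = b * a) → a = 1 ∨ ∀ v : V, a • v = -v := fun a ha hb =>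
    P.ab_pm (E ⊓ Subgroup.centralizer E) (fun a ha b hb => (ha.2 b hb.1).symm)
      ⟨ha, fun b k => (hb b k).symm⟩
  have h6 : ∃ a ∈ E, ∃ b ∈ E, a * b ≠ b * a := by
    by_contra k
    push Not at k
    exact h2 fun g hg => h5 g hg (k g hg)
  obtain ⟨a, ha, b, hb, hab⟩ := h6
  have h7 := (h4 a ha b hb).resolve_left fun e => hab (by
    rw [mul_inv_eq_one, mul_inv_eq_iff_eq_mul] at e; exact e)
  have h8 : ∀ g : H, (∀ v : V, g • v = -v) → g = a * b * a⁻¹ * b⁻¹ := fun g hg => by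
    rw [← mul_inv_eq_one]
    refine P.fa _ fun v => ?_
    rw [mul_smul, hg, ← h7, smul_inv_smul]
  refine ⟨E, inferInstance, ⟨a * b * a⁻¹ * b⁻¹, E.mul_mem (E.mul_mem (E.mul_mem ha hb) (E.inv_mem ha))
    (E.inv_mem hb)⟩, P.toFm, ⟨P.alt, fun g => P.inv g, P.nd⟩, P.le, cast_card_ne P.card E, P.ev,
    fun g hg => Subtype.ext (P.fa g hg), ⟨u, hu⟩, fun h e v => ?_, h7, fun x y => ?_, fun x hx => ?_,
    ⟨a, ha⟩, ⟨b, hb⟩, fun e => hab (congrArg Subtype.val e)⟩
  · show (h * e * h⁻¹) • h • v = h • (e : H) • v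
    rw [mul_smul, mul_smul, inv_smul_smul]
  · refine (h4 x x.2 y y.2).imp (fun e => Subtype.ext ?_) fun e => Subtype.ext ?_
    · rw [mul_inv_eq_one, mul_inv_eq_iff_eq_mul] at e; exact e
    · show (x : H) * y = a * b * a⁻¹ * b⁻¹ * (y * x)
      rw [← h8 _ e]; group
  · exact (h5 x x.2 fun b hb => congrArg Subtype.val (hx ⟨b, hb⟩)).imp Subtype.ext
      fun e => Subtype.ext (h8 _ e)

end CF.Dc
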