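import Cfsg.Agent.Dc.L1

/-! Local analysis of an extraspecial normal subgroup. -/

set_option autoImplicit false
set_option linter.unusedSectionVars false

namespace CF.Dc

open MulAction

variable {K V H X : Type*} [Field K] [AddCommGroup V] [Module K V]
  [Group H] [DistribMulAction H V] [SMulCommClass H K V]
  [Group X] [DistribMulAction X V] [SMulCommClass X K V]
  {f : V →ₗ[K] V →ₗ[K] K} {p : ℕ} [CharP K p] {θ : H →* MulAut X} {z : X}

theorem sm (g : X) (c : K) (v : V) : g • c • v = c • g • v := smul_comm g c v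
theorem fl (c : K) (u v : V) : f (c • u) v = c * f u v := by simp
theorem fr (c : K) (u v : V) : f u (c • v) = c * f u v := by simp

open Classical in
/-- commutator form -/
noncomputable def bt (a b : X) : ZMod 2 := if a * b = b * a then 0 else 1

open Classical in
/-- squaring form -/
noncomputable def qd (a : X) : ZMod 2 := if a * a = 1 then 0 else 1

/-- sign -/
def sg (K : Type*) [Field K] (t : ZMod 2) : K := if t = 0 then 1 else -1

@[simp] theorem sg0 : sg K 0 = 1 := if_pos rfl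
@[simp] theorem sg1 : sg K 1 = -1 := if_neg (by decide)

theorem z2 (t : ZMod 2) : t = 0 ∨ t = 1 := by revert t; decide

theorem sg_add (s t : ZMod 2) : sg K (s + t) = sg K s * sg K t := by
  rcases z2 s with rfl | rfl <;> rcases z2 t with rfl | rfl <;>
    simp [show (1 + 1 : ZMod 2) = 0 from rfl]

theorem sg_inj (h2 : (2 : K) ≠ 0) {s t : ZMod 2} (h : sg K s = sg K t) : s = t := by
  rcases z2 s with rfl | rfl <;> rcases z2 t with rfl | rfl <;> simp at h ⊢ <;>
    exact h2 (by first | linear_combination h | linear_combination -h)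

theorem bt_self (a : X) : bt a a = 0 := if_pos rfl
theorem bt_comm (a b : X) : bt a b = bt b a := by unfold bt; congr 1; exact propext eq_comm
theorem bt0 {a b : X} : bt a b = 0 ↔ a * b = b * a := by
  unfold bt; split_ifs with h <;> simp [h]
theorem qd0 {a : X} : qd a = 0 ↔ a * a = 1 := by
  unfold qd; split_ifs with h <;> simp [h]
theorem bt_map (φ : MulAut X) (a b : X) : bt (φ a) (φ b) = bt a b := by
  unfold bt; congr 1; rw [← map_mul, ← map_mul, φ.apply_eq_iff_eq]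
theorem qd_map (φ : MulAut X) (a : X) : qd (φ a) = qd a := by
  unfold qd; congr 1; rw [← map_mul, φ.map_eq_one_iff]

namespace Ex
variable (E : Ex p f θ z)
include E

theorem ext' {a b : X} (h : ∀ v : V, a • v = b • v) : a = b :=
  mul_inv_eq_one.1 (E.fa _ fun v => by rw [mul_smul, h, smul_inv_smul])

theorem zz : z * z = 1 := E.fa _ fun v => by rw [mul_smul, E.hz, E.hz, neg_neg]

theorem zc (a : X) : z * a = a * z := E.ext' fun v => by
  rw [mul_smul, mul_smul, E.hz, E.hz, smul_neg]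

theorem θz (h : H) : θ h z = z := E.ext' fun v => by
  rw [← smul_inv_smul h v, E.hθ, E.hz, E.hz, smul_neg]

theorem act_bt (a b : X) (v : V) : a • b • v = sg K (bt a b) • b • a • v := by
  by_cases h : a * b = b * a
  · rw [bt0.2 h, sg0, one_smul, ← mul_smul, h, mul_smul]
  · rw [show bt a b = 1 from if_neg h, sg1, ← mul_smul, (E.cm a b).resolve_left h, mul_smul, E.hz,
      mul_smul, neg_one_smul]

theorem act_qd (a : X) (v : V) : a • a • v = sg K (qd a) • v := by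
  by_cases h : a * a = 1
  · rw [qd0.2 h, sg0, one_smul, ← mul_smul, h, one_smul]
  · rw [show qd a = 1 from if_neg h, sg1, ← mul_smul, (E.ce (a * a) fun b => E.ext' fun v => by
      simp only [mul_smul]
      rw [E.act_bt a b, smul_comm, E.act_bt a b, smul_smul, ← sg_add, CharTwo.add_self_eq_zero, sg0,
        one_smul]).resolve_left h, E.hz, neg_one_smul]

theorem sg_eq (g : X) {s t : ZMod 2} (h : ∀ v : V, sg K s • g • v = sg K t • g • v) : s = t := by
  obtain ⟨u, hu⟩ := E.nt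
  exact sg_inj (ne2 E.le) (smul_left_injective K ((smul_ne_zero_iff_ne g).2 hu) (h u))

theorem bt_mul (a b c : X) : bt (a * b) c = bt a c + bt b c :=
  E.sg_eq (c * a * b) fun v => by
    rw [mul_assoc, mul_smul, ← E.act_bt, mul_smul, E.act_bt b c, smul_comm, E.act_bt a c, sg_add,
      mul_comm, mul_smul, mul_smul]

theorem bt_mul' (a b c : X) : bt a (b * c) = bt a b + bt a c := by
  rw [bt_comm, E.bt_mul, bt_comm b, bt_comm c]

theorem qd_mul (a b : X) : qd (a * b) = qd a + qd b + bt a b :=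
  E.sg_eq 1 fun v => by
    rw [one_smul, ← E.act_qd, mul_smul, mul_smul, E.act_bt b a, sm, E.act_qd, E.act_qd,
      sg_add, sg_add, bt_comm, smul_smul, smul_smul]
    congr 1; ring

theorem bt_z (a : X) : bt z a = 0 := bt0.2 (E.zc a)

/-- `± Y` -/
def pm (Y : Subgroup X) : Subgroup X where
  carrier := {d | d ∈ Y ∨ z * d ∈ Y}
  one_mem' := Or.inl Y.one_mem
  mul_mem' := by
    rintro a b (ha | ha) (hb | hb)
    · exact Or.inl (Y.mul_mem ha hb)
    · exact Or.inr (by rw [← mul_assoc, E.zc, mul_assoc]; exact Y.mul_mem ha hb)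
    · exact Or.inr (by rw [← mul_assoc]; exact Y.mul_mem ha hb)
    · refine Or.inl ?_
      have := Y.mul_mem ha hb
      rwa [E.zc a, mul_assoc, ← mul_assoc z, E.zz, one_mul] at this
  inv_mem' := by
    rintro a (ha | ha)
    · exact Or.inl (Y.inv_mem ha)
    · refine Or.inr ?_
      have := Y.inv_mem ha
      rwa [mul_inv_rev, inv_eq_of_mul_eq_one_right E.zz, ← E.zc] at this

theorem mem_pm {Y : Subgroup X} {d : X} : d ∈ E.pm Y ↔ d ∈ Y ∨ z * d ∈ Y := Iff.rfl

theorem pm_act {Y : Subgroup X} {g : X} (hg : g ∈ E.pm Y) :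
    ∃ t, ∀ u ∈ Fix K V Y, g • u = sg K t • u := by
  rcases hg with h | h
  · exact ⟨0, fun u hu => by rw [hu g h, sg0, one_smul]⟩
  · exact ⟨1, fun u hu => by
      have := hu _ h
      rw [mul_smul, E.hz, neg_eq_iff_eq_neg] at this
      rw [this, sg1, neg_one_smul]⟩

end Ex

/-- centralises `Y` -/
def Cn (Y : Subgroup X) (d : X) : Prop := ∀ g ∈ Y, bt d g = 0

variable (K V) in
/-- maximal vector stabiliser -/
structure Mx (Y : Subgroup X) : Prop where
  ne : ∃ u ∈ Fix K V Y, u ≠ 0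
  mx : ∀ v : V, v ≠ 0 → Nat.card (stabilizer X v) ≤ Nat.card Y

theorem Cn.fix {Y : Subgroup X} {d : X} (h : Cn Y d) {u : V} (hu : u ∈ Fix K V Y) :
    d • u ∈ Fix K V Y := fun g hg => by
  rw [← mul_smul, ← bt0.1 (h g hg), mul_smul, hu g hg]

theorem sum_coset [Fintype X] (Y : Subgroup X) (a : X) (c : K) [DecidablePred (· ∈ Y)] :
    ∑ e : X, (if a * e ∈ Y then c else 0) = Nat.card Y * c := by
  rw [Fintype.sum_equiv (Equiv.mulLeft a) (fun e => if a * e ∈ Y then c else 0)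
    (fun e => if e ∈ Y then c else 0) fun _ => rfl, ← Finset.sum_filter, Finset.sum_const, nsmul_eq_mul, Nat.card_eq_fintype_card,
    Fintype.card_subtype]

theorem sg_sq (t : ZMod 2) : sg K t ^ 2 = 1 := by rcases z2 t with rfl | rfl <;> simp

variable [Finite X]

theorem Mx.mem {Y : Subgroup X} (M : Mx K V Y) {u : V} (hu : u ∈ Fix K V Y) (h0 : u ≠ 0) {e : X}
    (he : e • u = u) : e ∈ Y := by
  rw [Subgroup.eq_of_le_of_card_ge (show Y ≤ stabilizer X u from hu) (M.mx u h0)]; exact he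

namespace Ex
variable (E : Ex p f θ z) {Y : Subgroup X}
include E

theorem cn_mul {a b : X} (ha : Cn Y a) (hb : Cn Y b) : Cn Y (a * b) := fun g hg => by
  rw [E.bt_mul, ha g hg, hb g hg, add_zero]

theorem bt_pm {d g : X} (hd : Cn Y d) (hg : g ∈ E.pm Y) : bt g d = 0 := by
  rcases hg with h | h
  · rw [bt_comm, hd g h]
  · have := hd _ h
    rwa [bt_comm, E.bt_mul, E.bt_z, zero_add] at this

theorem fix_sg {u : V} (h0 : u ≠ 0) {t : ZMod 2} (h : u = sg K t • u) : t = 0 :=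
  sg_inj (ne2 E.le) (smul_left_injective K h0 (by simpa using h.symm))

theorem cn_pm (M : ∃ u ∈ Fix K V Y, u ≠ 0) {d : X} (hd : d ∈ E.pm Y) : Cn Y d := fun g hg => by
  obtain ⟨u, hu, h0⟩ := M
  have : ∀ a ∈ Y, bt a g = 0 := fun a ha => E.fix_sg h0 (by
    simpa only [hu g hg, hu a ha] using E.act_bt a g u)
  rcases hd with h | h
  · exact this d h
  · have := this _ h
    rwa [E.bt_mul, E.bt_z, zero_add] at this

theorem qd_pm (M : ∃ u ∈ Fix K V Y, u ≠ 0) {d : X} (hd : d ∈ E.pm Y) : qd d = 0 := by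
  obtain ⟨u, hu, h0⟩ := M
  obtain ⟨t, ht⟩ := E.pm_act hd
  refine E.fix_sg h0 ?_
  rw [← E.act_qd, ht u hu, smul_comm, ht u hu, smul_smul, ← pow_two, sg_sq, one_smul]

theorem orth {e : X} (he : ¬ Cn Y e) {u w : V} (hu : u ∈ Fix K V Y) (hw : w ∈ Fix K V Y) :
    f u (e • w) = 0 := by
  obtain ⟨g, hg, h⟩ : ∃ g ∈ Y, bt e g = 1 := by
    by_contra k
    exact he fun g hg => (z2 _).resolve_right fun e => k ⟨g, hg, e⟩
  have := E.FX.inv g u (e • w)
  rw [E.act_bt g, bt_comm, h, hu g hg, hw g hg, sg1, neg_one_smul, map_neg] at this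
  exact cancel 2 (ne2 E.le) (by linear_combination -this)

theorem pm_of_qd (M : Mx K V Y) {d : X} (hd : Cn Y d) (hq : qd d = 0) : d ∈ E.pm Y := by
  obtain ⟨u, hu, h0⟩ := M.ne
  by_cases h : d • u + u = 0
  · exact Or.inr (M.mem hu h0 (by rw [mul_smul, E.hz, eq_neg_of_add_eq_zero_left h, neg_neg]))
  · exact Or.inl (M.mem (add_mem (hd.fix hu) hu) h (by
      rw [smul_add, E.act_qd, hq, sg0, one_smul, add_comm]))

theorem bt_one (M : Mx K V Y) {a b : X} (ha : Cn Y a) (hb : Cn Y b) (ka : a ∉ E.pm Y)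
    (kb : b ∉ E.pm Y) (k : a * b ∉ E.pm Y) : bt a b = 1 := by
  have h1 := (z2 _).resolve_left (mt (E.pm_of_qd M ha) ka)
  have h2 := (z2 _).resolve_left (mt (E.pm_of_qd M hb) kb)
  have h3 := (z2 _).resolve_left (mt (E.pm_of_qd M (E.cn_mul ha hb)) k)
  rw [E.qd_mul, h1, h2] at h3
  simpa [show (1 + 1 : ZMod 2) = 0 from rfl] using h3

theorem q_coset {a e : X} {w : V} {t : ZMod 2} (h : (a * e) • w = sg K t • w) :
    f w (e • w) ^ 2 = f w (a • w) ^ 2 := by
  rw [← E.FX.inv a w (e • w), ← mul_smul, h, E.FX.skew, fl,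
    neg_sq, mul_pow, sg_sq, one_mul]

theorem q_pm {a e : X} (h : a * e ∈ E.pm Y) {w : V} (hw : w ∈ Fix K V Y) :
    f w (e • w) ^ 2 = f w (a • w) ^ 2 := by
  obtain ⟨t, ht⟩ := E.pm_act h
  exact E.q_coset (ht w hw)

theorem q_pm0 {e : X} (h : e ∈ E.pm Y) {w : V} (hw : w ∈ Fix K V Y) : f w (e • w) = 0 := by
  obtain ⟨t, ht⟩ := E.pm_act h
  rw [ht w hw, map_smul, E.FX.alt, smul_zero]

theorem q4' [Fintype X] (v : V) : ∑ e : X, f v (e • v) ^ 2 = 0 :=
  E.FH.q4 (ne15 E.le) (ev2 E.le E.ev) (fun e c v => smul_comm e c v)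
    (fun h => ⟨(θ h).toEquiv, E.hθ h⟩) v

theorem exists_q (M : ∃ u ∈ Fix K V Y, u ≠ 0) {d : X} (hd : Cn Y d) (hq : qd d = 1) :
    ∃ u ∈ Fix K V Y, f u (d • u) ≠ 0 := by
  by_contra k
  push Not at k
  obtain ⟨u, hu, h0⟩ := M
  refine h0 (E.FX.nd_fix E.card hu fun w hw => cancel 2 (ne2 E.le) ?_)
  have h1 := k _ (add_mem (hd.fix hu) hw)
  have h2 := k _ (hd.fix hu)
  simp only [smul_add, map_add, LinearMap.add_apply, h2, k w hw, E.FX.inv] at h1
  rw [E.act_qd, hq, sg1, neg_one_smul, map_neg, E.FX.skew w] at h1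
  linear_combination h1

theorem exists_cn (M : Mx K V Y) : ∃ d, Cn Y d ∧ d ∉ E.pm Y := by
  classical
  have := Fintype.ofFinite X
  by_contra k
  push Not at k
  obtain ⟨x, g, hg, hx, hq⟩ : ∃ x, ∃ g ∈ Y, bt x g = 1 ∧ qd x = 1 := by
    obtain ⟨x, hx⟩ : ∃ x, ¬ Cn Y x := by
      by_contra h
      push Not at h
      obtain ⟨a, b, hab⟩ := E.ex
      exact hab (bt0.1 (E.bt_pm (h b) (k a (h a))))
    obtain ⟨g, hg, h⟩ : ∃ g ∈ Y, bt x g = 1 := by
      by_contra k
      exact hx fun g hg => (z2 _).resolve_right fun e => k ⟨g, hg, e⟩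
    rcases z2 (qd x) with q | q
    · exact ⟨x * g, g, hg, by rw [E.bt_mul, h, bt_self, add_zero], by
        rw [E.qd_mul, q, h, E.qd_pm M.ne (Or.inl hg)]; rfl⟩
    · exact ⟨x, g, hg, h, q⟩
  have h0 : ∀ e : X, ∀ w ∈ Fix K V Y, f w (e • w) = 0 := fun e w hw => by
    by_cases h : Cn Y e
    · exact E.q_pm0 (k e h) hw
    · exact E.orth h hw hw
  obtain ⟨u, hu, hu0⟩ := M.ne
  refine hu0 (E.FX.nd_fix E.card hu fun w hw => ?_)
  have h1 := E.q4' (u + x • w)
  rw [Finset.sum_congr rfl (g := fun e => if x⁻¹ * e ∈ E.pm Y ⊓ Subgroup.centralizer {x} then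
    4 * f u w ^ 2 else 0), sum_coset] at h1
  · have h2 := cancel _ (cast_card_ne E.card _) h1
    rw [show (4 : K) = 2 * 2 by norm_num] at h2
    exact pow_eq_zero_iff two_ne_zero |>.1 (cancel _ (mul_ne_zero (ne2 E.le) (ne2 E.le)) h2)
  intro e _
  obtain ⟨a, rfl⟩ : ∃ a, e = x * a := ⟨x⁻¹ * e, by group⟩
  have h3 : f (u + x • w) ((x * a) • (u + x • w)) = f w (a • u) - sg K (bt x a) * f u (a • w) := by
    have h4 := h0 (a * x) w hw
    simp only [smul_add, map_add, LinearMap.add_apply, h0 _ u hu]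
    simp only [mul_smul, E.FX.inv] at h4 ⊢
    rw [h4, E.act_bt x a, E.act_qd, hq, sg1, neg_one_smul, smul_neg, fr, map_neg]
    ring
  rw [h3, inv_mul_cancel_left]
  by_cases ha : a ∈ E.pm Y
  · obtain ⟨t, ht⟩ := E.pm_act ha
    rw [ht u hu, ht w hw, fr, fr, E.FX.skew w]
    by_cases hb : x * a = a * x
    · rw [if_pos ⟨ha, Subgroup.mem_centralizer_singleton_iff.2 hb.symm⟩, bt0.2 hb, sg0]
      linear_combination 4 * f u w ^ 2 * sg_sq (K := K) t
    · rw [if_neg fun h => hb (Subgroup.mem_centralizer_singleton_iff.1 h.2).symm,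
        show bt x a = 1 from if_neg hb, sg1]
      ring
  · rw [if_neg fun h => ha h.1, E.orth (mt (k a) ha) hw hu, E.orth (mt (k a) ha) hu hw]; ring

end Ex

theorem cyc3 {Q : Fin 3 → K} {σ : Fin 3 → Fin 3} {ω : K} (a1 : ∀ s, Q s = ω * Q (σ s))
    (q0 : Q 0 ≠ 0) (h : ω ^ 2 ≠ 1) : (∀ s, Q s ≠ 0) ∧ Function.Injective Q := by
  have q1 : Q (σ 0) ≠ 0 := fun e => q0 (by rw [a1, e, mul_zero])
  have q2 : Q (σ (σ 0)) ≠ 0 := fun e => q1 (by rw [a1, e, mul_zero])
  have h1 : ω ≠ 1 := fun e => h (by rw [e, one_pow])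
  have n1 : Q 0 ≠ Q (σ 0) := fun e => h1 (mul_right_cancel₀ q1 (by linear_combination e - a1 0))
  have n2 : Q (σ 0) ≠ Q (σ (σ 0)) := fun e => h1 (mul_right_cancel₀ q2
    (by linear_combination e - a1 (σ 0)))
  have n3 : Q 0 ≠ Q (σ (σ 0)) := fun e => h (mul_right_cancel₀ q2
    (by linear_combination e - a1 0 - ω * a1 (σ 0)))
  have a3 : ∀ s, s = 0 ∨ s = σ 0 ∨ s = σ (σ 0) := by
    have k1 : 0 ≠ σ 0 := fun e => n1 (congrArg Q e)
    have k2 : σ 0 ≠ σ (σ 0) := fun e => n2 (congrArg Q e)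
    have k3 : 0 ≠ σ (σ 0) := fun e => n3 (congrArg Q e)
    revert k1 k2 k3; generalize σ (σ 0) = b; generalize σ 0 = a; revert a b; decide
  refine ⟨fun s => ?_, fun s t e => ?_⟩
  · rcases a3 s with k | k | k <;> rw [k] <;> assumption
  · rcases a3 s with k | k | k <;> rcases a3 t with k' | k' | k' <;> rw [k, k'] at e ⊢ <;>
      first | rfl | exact absurd e ‹_› | exact absurd e.symm ‹_›

/-- the three quaternion units -/
def tr (i j : X) : Fin 3 → X := ![i, j, i * j]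

/-- local quaternion structure -/
structure Lq (E : Ex p f θ z) (Y : Subgroup X) (i j : X) : Prop where
  ci : Cn Y i
  cj : Cn Y j
  qi : qd i = 1
  qj : qd j = 1
  bij : bt i j = 1
  cov : ∀ d, Cn Y d → d ∉ E.pm Y → ∃ s, tr i j s * d ∈ E.pm Y
  q4 : ∀ u ∈ Fix K V Y, f u (i • u) ^ 2 + f u (j • u) ^ 2 + f u ((i * j) • u) ^ 2 = 0

namespace Ex
variable (E : Ex p f θ z) {Y : Subgroup X}
include E

theorem bt_of_pm {a e d : X} (h : a * e ∈ E.pm Y) (hd : Cn Y d) : bt e d = bt a d := by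
  have := E.bt_pm hd h
  rw [E.bt_mul] at this
  revert this; generalize bt a d = s; generalize bt e d = t; revert s t; decide

theorem exists_lq (M : Mx K V Y) : ∃ i j, Lq E Y i j := by
  classical
  have := Fintype.ofFinite X
  have hc := cast_card_ne E.card (E.pm Y)
  obtain ⟨i, ci, ki⟩ := E.exists_cn M
  have qi := (z2 _).resolve_left (mt (E.pm_of_qd M ci) ki)
  obtain ⟨j, cj, kj, kij⟩ : ∃ j, Cn Y j ∧ j ∉ E.pm Y ∧ i * j ∉ E.pm Y := by
    by_contra k
    push Not at k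
    obtain ⟨u, hu, h0⟩ := E.exists_q M.ne ci qi
    have h1 := E.q4' u
    rw [Finset.sum_congr rfl (g := fun e => if i * e ∈ E.pm Y then f u (i • u) ^ 2 else 0),
      sum_coset] at h1
    · exact h0 (pow_eq_zero_iff two_ne_zero |>.1 (cancel _ hc h1))
    intro e _
    split_ifs with h
    · exact E.q_pm h hu
    by_cases he : Cn Y e
    · rw [E.q_pm0 (by_contra fun k' => h (k e he k')) hu]; ring
    · rw [E.orth he hu hu]; ring
  have bij := E.bt_one M ci cj ki kj kij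
  have ck := E.cn_mul ci cj
  have cov : ∀ d, Cn Y d → d ∉ E.pm Y → ∃ s, tr i j s * d ∈ E.pm Y := fun d cd kd => by
    by_contra k
    push Not at k
    have h1 := E.bt_one M ck cd kij kd (k 2)
    rw [E.bt_mul, E.bt_one M ci cd ki kd (k 0), E.bt_one M cj cd kj kd (k 1)] at h1
    exact absurd h1 (by decide)
  refine ⟨i, j, ci, cj, qi, (z2 _).resolve_left (mt (E.pm_of_qd M cj) kj), bij, cov, fun u hu => ?_⟩
  have h1 := E.q4' u
  rw [Finset.sum_congr rfl (g := fun e => (if i * e ∈ E.pm Y then f u (i • u) ^ 2 else 0) +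
    (if j * e ∈ E.pm Y then f u (j • u) ^ 2 else 0) +
    (if i * j * e ∈ E.pm Y then f u ((i * j) • u) ^ 2 else 0)), Finset.sum_add_distrib,
    Finset.sum_add_distrib, sum_coset, sum_coset, sum_coset, ← mul_add, ← mul_add] at h1
  · exact cancel _ hc h1
  intro e _
  have a1 : i * e ∈ E.pm Y → bt e i = 0 ∧ bt e j = 1 := fun h =>
    ⟨by rw [E.bt_of_pm h ci, bt_self], by rw [E.bt_of_pm h cj, bij]⟩
  have a2 : j * e ∈ E.pm Y → bt e i = 1 ∧ bt e j = 0 := fun h =>
    ⟨by rw [E.bt_of_pm h ci, bt_comm, bij], by rw [E.bt_of_pm h cj, bt_self]⟩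
  have a3 : i * j * e ∈ E.pm Y → bt e i = 1 ∧ bt e j = 1 := fun h =>
    ⟨by rw [E.bt_of_pm h ci, E.bt_mul, bt_self, bt_comm, bij, zero_add],
      by rw [E.bt_of_pm h cj, E.bt_mul, bt_self, bij, add_zero]⟩
  by_cases h1 : i * e ∈ E.pm Y
  · rw [if_pos h1, if_neg fun h => by simpa [(a1 h1).1] using (a2 h).1,
      if_neg fun h => by simpa [(a1 h1).1] using (a3 h).1, E.q_pm h1 hu]; ring
  by_cases h2 : j * e ∈ E.pm Y
  · rw [if_neg h1, if_pos h2, if_neg fun h => by simpa [(a2 h2).2] using (a3 h).2, E.q_pm h2 hu]; ring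
  by_cases h3 : i * j * e ∈ E.pm Y
  · rw [if_neg h1, if_neg h2, if_pos h3, E.q_pm h3 hu]; ring
  rw [if_neg h1, if_neg h2, if_neg h3]
  by_cases he : Cn Y e
  · rw [E.q_pm0 (by_contra fun k => ?_) hu]; · ring
    obtain ⟨s, hs⟩ := cov e he k
    fin_cases s
    exacts [h1 hs, h2 hs, h3 hs]
  · rw [E.orth he hu hu]; ring

end Ex

variable (θ) in
/-- `h` normalises `Y` -/
def Nm (h : H) (Y : Subgroup X) : Prop := ∀ g, θ h g ∈ Y ↔ g ∈ Y

theorem Nm.cn {h : H} {Y : Subgroup X} (n : Nm θ h Y) {d : X} (hd : Cn Y d) : Cn Y (θ h d) :=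
  fun g hg => by
    obtain ⟨g, rfl⟩ := (θ h).surjective g
    rw [bt_map, hd g ((n g).1 hg)]

theorem Nm.mul {h k : H} {Y : Subgroup X} (n : Nm θ h Y) (m : Nm θ k Y) : Nm θ (h * k) Y :=
  fun g => by rw [map_mul, MulAut.mul_apply, n, m]

theorem nm_of_le {h : H} {Y : Subgroup X} (n : ∀ g ∈ Y, θ h g ∈ Y) : Nm θ h Y := fun g =>
  ⟨fun k => by
    have : Y.map (θ h).toMonoidHom = Y := Subgroup.eq_of_le_of_card_ge
      (by rintro _ ⟨g, hg, rfl⟩; exact n g hg)
      (Subgroup.card_map_of_injective (θ h).injective).ge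
    rw [← this] at k
    obtain ⟨g', hg, e⟩ := k
    rwa [← (θ h).injective e], n g⟩

theorem Lq.cn {E : Ex p f θ z} {Y : Subgroup X} {i j : X} (L : Lq E Y i j) (s : Fin 3) :
    Cn Y (tr i j s) := by
  fin_cases s
  exacts [L.ci, L.cj, E.cn_mul L.ci L.cj]

theorem Lq.qt {E : Ex p f θ z} {Y : Subgroup X} {i j : X} (L : Lq E Y i j) (s : Fin 3) :
    qd (tr i j s) = 1 := by
  fin_cases s
  exacts [L.qi, L.qj, by show qd (i * j) = 1; rw [E.qd_mul, L.qi, L.qj, L.bij]; rfl]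

theorem Lq.step {E : Ex p f θ z} {Y : Subgroup X} {i j : X} (L : Lq E Y i j)
    (M : ∃ u ∈ Fix K V Y, u ≠ 0) {h : H} (n : Nm θ h Y) (s : Fin 3) :
    ∃ t, tr i j t * θ h (tr i j s) ∈ E.pm Y :=
  L.cov _ (n.cn (L.cn s)) fun k => by simpa [qd_map, L.qt s] using E.qd_pm M k

namespace Ex
variable (E : Ex p f θ z) {Y : Subgroup X}
include E

theorem nm_pm {h : H} (n : Nm θ h Y) : Nm θ h (E.pm Y) := fun g => by
  rw [E.mem_pm, E.mem_pm, n, ← n (z * g), map_mul, E.θz]

theorem θ_fix {h : H} {c : K} (hc : c ≠ 0) {u : V} (hh : h • u = c • u) {g : X} (hg : g • u = u) :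
    θ h g • u = u := by
  have := E.hθ h g u
  rw [hg, hh, sm] at this
  exact smul_right_injective V hc this

theorem nm_of_mul (M : Mx K V Y) {h : H} {c : K} (hc : c ≠ 0) {u : V} (hu : u ∈ Fix K V Y)
    (h0 : u ≠ 0) (hh : h • u = c • u) : Nm θ h Y :=
  nm_of_le fun g hg => M.mem hu h0 (E.θ_fix hc hh (hu g hg))

theorem q_mul {h : H} {c : K} {u : V} (hh : h • u = c • u) (d : X) :
    f u (d • u) = c ^ 2 * f u (θ h d • u) := by
  rw [← E.FH.inv h, ← E.hθ, hh, sm, fl, fr]; ring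

theorem q_rel {h : H} {c : K} {u : V} (hh : h • u = c • u) {a d : X} {t : ZMod 2}
    (k : (a * θ h d) • u = sg K t • u) : f u (d • u) ^ 2 = c ^ 4 * f u (a • u) ^ 2 := by
  rw [E.q_mul hh, mul_pow, E.q_coset k]; ring

theorem exists_sig (M : Mx K V Y) {i j : X} (L : Lq E Y i j) {u : V} (hu : u ∈ Fix K V Y)
    (h0 : u ≠ 0) {n : ℕ} (hn : ¬ p ∣ n) : ∃ (h : H) (σ : Fin 3 → Fin 3), h • u = (n : K) • u ∧
      ∀ s, tr i j (σ s) * θ h (tr i j s) ∈ E.pm Y ∧
        f u (tr i j s • u) ^ 2 = (n : K) ^ 4 * f u (tr i j (σ s) • u) ^ 2 := by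
  obtain ⟨h, hh⟩ := E.ev u n hn
  choose σ hσ using L.step M.ne
    (E.nm_of_mul M (mt (CharP.cast_eq_zero_iff K p n).1 hn) hu h0 hh)
  refine ⟨h, σ, hh, fun s => ⟨hσ s, ?_⟩⟩
  obtain ⟨t, ht⟩ := E.pm_act (hσ s)
  exact E.q_rel hh (ht u hu)

theorem seven (hp : p.Prime) (M : Mx K V Y) {i j : X} (L : Lq E Y i j) : p = 7 := by
  obtain ⟨u, hu, hq⟩ := E.exists_q M.ne L.ci L.qi
  have h0 : u ≠ 0 := by rintro rfl; simp at hq
  have hle := E.le
  have hn : ∀ n, 0 < n → n < 7 → ¬ p ∣ n := fun n a b h => absurd (Nat.le_of_dvd a h) (by omega)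
  have h1 : ∀ n, 0 < n → n < 7 → p ∣ n ^ 24 - 1 := fun n a b => by
    obtain ⟨h, σ, -, hσ⟩ := E.exists_sig M L hu h0 (hn n a b)
    have k : ∀ m s, f u (tr i j s • u) ^ 2 = (n : K) ^ (4 * m) * f u (tr i j (σ^[m] s) • u) ^ 2 :=
      fun m => by
        induction m with
        | zero => simp
        | succ m ih => intro s; rw [(hσ s).2, ih, Function.iterate_succ_apply]; ring
    have k1 : f u (tr i j (σ^[3] 0) • u) ^ 2 ≠ 0 := fun e => hq (pow_eq_zero_iff two_ne_zero |>.1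
      ((k 3 0).trans (by rw [e, mul_zero])))
    have k2 := k 6 (σ^[3] 0)
    rw [show σ^[6] (σ^[3] 0) = σ^[3] 0 by clear hσ k k1 k2; revert σ; decide] at k2
    rw [← CharP.cast_eq_zero_iff K, Nat.cast_sub (Nat.one_le_pow _ _ a)]
    refine mul_right_cancel₀ k1 ?_
    push_cast
    linear_combination -k2
  have h2 : p ∣ 5 * (7 * 13) := Nat.dvd_gcd (h1 2 (by omega) (by omega)) (h1 3 (by omega) (by omega))
  rcases (Nat.Prime.dvd_mul hp).1 h2 with h | h
  · exact absurd h (hn 5 (by omega) (by omega))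
  rcases (Nat.Prime.dvd_mul hp).1 h with h | h
  · exact (Nat.prime_dvd_prime_iff_eq hp (by norm_num)).1 h
  obtain rfl := (Nat.prime_dvd_prime_iff_eq hp (by norm_num)).1 h
  exfalso
  have c13 : (13 : K) = 0 := by exact_mod_cast CharP.cast_eq_zero K 13
  have h2 := ne2 (K := K) hle
  obtain ⟨h', σ, -, hσ⟩ := E.exists_sig M L hu h0 (hn 2 (by omega) (by omega))
  obtain ⟨h, τ, hh, hτ⟩ := E.exists_sig M L hu h0 (hn 5 (by omega) (by omega))
  set Q : Fin 3 → K := fun s => f u (tr i j s • u) ^ 2 with hQ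
  have a1 : ∀ s, Q s = 3 * Q (σ s) := fun s => by
    have := (hσ s).2; push_cast at this; simp only [hQ]
    linear_combination this + f u (tr i j (σ s) • u) ^ 2 * c13
  have a2 : ∀ s, Q s = Q (τ s) := fun s => by
    have := (hτ s).2; push_cast at this; simp only [hQ]
    linear_combination this + 48 * f u (tr i j (τ s) • u) ^ 2 * c13
  obtain ⟨a3, a4⟩ := cyc3 a1 (pow_ne_zero 2 hq) fun e => h2 (cancel (2 * 2) (by simp [h2])
    (by linear_combination e))
  have a5 : ∀ s, ∀ w ∈ Fix K V Y, θ h (tr i j s) • w = -(tr i j s • w) := fun s => by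
    obtain ⟨t, ht⟩ := E.pm_act (hτ s).1
    rw [← a4 (a2 s)] at ht
    have k : ∀ w ∈ Fix K V Y, θ h (tr i j s) • w = -(sg K t • tr i j s • w) := fun w hw => by
      rw [← sm, ← ht w hw, mul_smul, E.act_qd, L.qt, sg1, neg_one_smul, neg_neg]
    have k1 := E.q_mul hh (tr i j s)
    rw [k u hu, map_neg, fr] at k1
    have k2 : sg K t = 1 := mul_right_cancel₀ (mt (pow_eq_zero_iff two_ne_zero).2 (a3 s)) (by
      push_cast at k1
      linear_combination -k1 + 2 * sg K t * f u (tr i j s • u) * c13)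
    simpa only [k2, one_smul] using k
  have a6 : θ h (i * j) • u = -((i * j) • u) := a5 2 u hu
  rw [map_mul, mul_smul, show θ h j • u = -(j • u) from a5 1 u hu, smul_neg,
    show θ h i • j • u = -(i • j • u) from a5 0 _ (L.cj.fix hu), neg_neg, ← mul_smul] at a6
  exact h0 ((smul_eq_zero_iff_eq _).1 (eq_zero_of_eq_neg h2 a6))

end Ex

end CF.Dc
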