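import Cfsg.Agent.Dc.L2

/-! The extraspecial group is quaternion and the module is a plane. -/

set_option autoImplicit false
set_option linter.unusedSectionVars false

namespace CF.Dc

open MulAction

theorem not_sol_five (G : Subgroup (Equiv.Perm (Fin 5)))
    (h : ∀ s, ∃ σ ∈ G, σ ^ 3 = 1 ∧ σ s ≠ s) : ¬ Group.IsSolvable G := fun hs => by
  have h1 : ∀ s, ∃ A : Finset (Fin 5), A.card = 3 ∧ ∀ a ∈ A, ∃ g : G, g • s = a := fun s => by
    obtain ⟨σ, hσ, h3, hn⟩ := h s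
    have k : σ (σ (σ s)) = s := by
      have := DFunLike.congr_fun h3 s
      simpa [pow_succ] using this
    refine ⟨{s, σ s, σ (σ s)}, Finset.card_eq_three.2 ⟨_, _, _, hn.symm, fun e => hn ?_,
      fun e => hn (σ.injective e).symm, rfl⟩, fun a ha => ?_⟩
    · rw [← e] at k; exact k
    · simp only [Finset.mem_insert, Finset.mem_singleton] at ha
      rcases ha with rfl | rfl | rfl
      exacts [⟨1, rfl⟩, ⟨⟨σ, hσ⟩, rfl⟩, ⟨⟨σ * σ, G.mul_mem hσ hσ⟩, rfl⟩]
  have : IsPretransitive G (Fin 5) := ⟨fun s t => by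
    obtain ⟨A, hA, ha⟩ := h1 s
    obtain ⟨B, hB, hb⟩ := h1 t
    obtain ⟨c, h1, h2⟩ := Finset.not_disjoint_iff.1 fun d : Disjoint A B => by
      have := Finset.card_le_univ (A ∪ B)
      rw [Finset.card_union_of_disjoint d, hA, hB] at this
      simp at this
    obtain ⟨g, rfl⟩ := ha c h1
    obtain ⟨k, hk⟩ := hb _ h2
    exact ⟨k⁻¹ * g, by rw [mul_smul, ← hk, inv_smul_smul]⟩⟩
  obtain ⟨σ, hσ, h3, hn⟩ := h 0
  have h2 : orderOf σ = 3 := orderOf_eq_prime (hp := ⟨Nat.prime_three⟩) h3 fun e => hn (by rw [e]; rfl)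
  have h4 := Equiv.Perm.alternatingGroup_le_of_isPreprimitive_of_isThreeCycle_mem
    (IsPreprimitive.of_prime_card (by simp; norm_num)) (card_support_eq_three_iff.1
      ((Equiv.Perm.isCycle_of_prime_order' (h2 ▸ Nat.prime_three) (by simp [h2])).orderOf.symm.trans
        h2)) hσ
  have := Group.isSolvable_of_isSolvable_injective (Subgroup.inclusion_injective h4)
  exact Equiv.Perm.not_isSolvable_fin_5 (Group.isSolvable_of_ker_le_range
    (alternatingGroup (Fin 5)).subtype Equiv.Perm.sign (by rw [Subgroup.range_subtype]; rfl))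

theorem perm_of {L X ι : Type*} [Group L] [Group X] (φ : L →* MulAut X) (Z : Subgroup X)
    (hZ : ∀ h, ∀ g ∈ Z, φ h g ∈ Z) (a : ι → X) (un : ∀ s t, (a s)⁻¹ * a t ∈ Z → s = t)
    (ex : ∀ h s, ∃ t, (a t)⁻¹ * φ h (a s) ∈ Z) :
    ∃ π : L →* Equiv.Perm ι, ∀ h s, (a (π h s))⁻¹ * φ h (a s) ∈ Z := by
  choose σ hσ using ex
  have k : ∀ h s t, (a t)⁻¹ * φ h (a s) ∈ Z → σ h s = t := fun h s t ht => un _ _ (by
    have := Z.mul_mem (hσ h s) (Z.inv_mem ht)
    simpa [mul_assoc] using this)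
  letI : MulAction L ι :=
    { smul := σ
      one_smul := fun s => k 1 s s (by simp)
      mul_smul := fun g h s => k _ _ (σ g (σ h s)) (by
        have := Z.mul_mem (hσ g (σ h s)) (hZ g _ (hσ h s))
        simpa [mul_assoc] using this) }
  exact ⟨toPermHom L ι, hσ⟩

variable {K V H X : Type*} [Field K] [AddCommGroup V] [Module K V]
  [Group H] [DistribMulAction H V] [SMulCommClass H K V]
  [Group X] [DistribMulAction X V] [SMulCommClass X K V] [Finite X]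
  {f : V →ₗ[K] V →ₗ[K] K} {θ : H →* MulAut X} {z : X}

/-- the part of `Y` commuting with `x` -/
abbrev Cx (Y : Subgroup X) (x : X) : Subgroup X := Y ⊓ Subgroup.centralizer {x}

theorem mem_Cx {Y : Subgroup X} {x a : X} : a ∈ Cx Y x ↔ a ∈ Y ∧ bt a x = 0 := by
  rw [Subgroup.mem_inf, Subgroup.mem_centralizer_singleton_iff, bt0]

theorem rot (F : Fm X f) {i j : X} (hi : ∀ v : V, i • i • v = -v) (hj : ∀ v : V, j • j • v = -v)
    (hij : ∀ v : V, j • i • v = -(i • j • v)) (u : V) :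
    f (u + (i * j) • u) (i • (u + (i * j) • u)) = -2 * f u (j • u) ∧
    f (u + (i * j) • u) (j • (u + (i * j) • u)) = 2 * f u (i • u) ∧
    f (u + (i * j) • u) ((i * j) • (u + (i * j) • u)) = 2 * f u ((i * j) • u) := by
  have h1 : f (i • j • u) (j • u) = f u (i • u) := by
    rw [← neg_neg (i • j • u), ← hij, map_neg, LinearMap.neg_apply, F.inv, ← F.skew]
  have h2 := F.skew (j • u) u
  have h3 := F.skew (i • j • u) u
  simp only [smul_add, map_add, LinearMap.add_apply, mul_smul, hi, hij, hj, map_neg, F.inv, smul_neg,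
    neg_neg, F.alt, h1, h2, h3]
  refine ⟨by ring, by ring, by ring⟩

namespace Ex
section
variable {p : ℕ} [CharP K p] (E : Ex p f θ z) {Y : Subgroup X}
include E

theorem inv_pm {a e : X} : a⁻¹ * e ∈ E.pm Y ↔ a * e ∈ E.pm Y := by
  have h : ∀ e : X, z * e ∈ E.pm Y ↔ e ∈ E.pm Y := fun e => by
    rw [E.mem_pm, E.mem_pm, ← mul_assoc, E.zz, one_mul, or_comm]
  have k : a⁻¹ = a ∨ a⁻¹ = z * a := by
    refine (z2 (qd a)).imp (fun q => inv_eq_of_mul_eq_one_right (qd0.1 q)) fun q => E.ext' fun v => ?_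
    rw [inv_smul_eq_iff, mul_smul, E.hz, smul_neg, E.act_qd, q, sg1, neg_one_smul, neg_neg]
  rcases k with k | k <;> rw [k]
  rw [mul_assoc, h]

theorem card_half {x g : X} (hg : g ∈ Y) (hx : bt g x = 1) : Nat.card Y = 2 * Nat.card (Cx Y x) := by
  have h : (Cx Y x).relIndex Y = 2 := Subgroup.relIndex_eq_two_iff_exists_notMem_and'.2
    ⟨g, hg, fun k => by simpa [hx] using (mem_Cx.1 k).2, fun b hb => by
      rcases z2 (bt b x) with k | k
      · exact Or.inr (mem_Cx.2 ⟨hb, k⟩)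
      · exact Or.inl (mem_Cx.2 ⟨Y.mul_mem hg hb, by rw [E.bt_mul, hx, k]; rfl⟩)⟩
  rw [← h, Subgroup.relIndex, ← Subgroup.card_mul_index ((Cx Y x).subgroupOf Y), mul_comm,
    Nat.card_congr (Subgroup.subgroupOfEquivOfLe inf_le_left).toEquiv]

theorem mx_of (M : Mx K V Y) {x g : X} (hg : g ∈ Y) (hx : bt g x = 1) {e y : X}
    (he : Cn (Cx Y x) e) (hy : Cn (Cx Y x) y) (q : qd e = 0) (b : bt e y = 1) :
    ∃ Y', Mx K V Y' ∧ e ∈ Y' ∧ Cx Y' y = Cx Y x := by
  obtain ⟨u, hu, h0, hf⟩ : ∃ u ∈ Fix K V (Cx Y x), u ≠ 0 ∧ e • u = u := by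
    obtain ⟨u, hu, h0⟩ := M.ne
    have hu' : u ∈ Fix K V (Cx Y x) := fun a ha => hu a ha.1
    by_cases h : e • u + u = 0
    · exact ⟨y • u, hy.fix hu', (smul_ne_zero_iff_ne y).2 h0, by
        rw [E.act_bt, b, eq_neg_of_add_eq_zero_left h, sg1, neg_one_smul, smul_neg, neg_neg]⟩
    · exact ⟨_, add_mem (he.fix hu') hu', h, by rw [smul_add, E.act_qd, q, sg0, one_smul, add_comm]⟩
  have h1 : Cx Y x ≤ Cx (stabilizer X u) y := fun a ha =>
    mem_Cx.2 ⟨hu a ha, by rw [bt_comm, hy a ha]⟩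
  have h2 := E.card_half hg hx
  have h3 := E.card_half (Y := stabilizer X u) hf b
  have h4 := M.mx u h0
  have h5 := Subgroup.card_le_of_le h1
  exact ⟨stabilizer X u, ⟨⟨u, fun _ h => h, h0⟩, fun v hv => (M.mx v hv).trans (by omega)⟩, hf,
    (Subgroup.eq_of_le_of_card_ge h1 (by omega)).symm⟩

theorem lq_adj (M : Mx K V Y) {i j a b : X} (L : Lq E Y i j) (ha : a ∈ Y) (hb : b ∈ Y) :
    Lq E Y (i * a) (j * b) := by
  have ca := E.cn_pm M.ne (Or.inl ha)
  have cb := E.cn_pm M.ne (Or.inl hb)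
  have k : ∀ s, ∃ c ∈ Y, tr (i * a) (j * b) s = tr i j s * c := fun s => by
    fin_cases s
    exacts [⟨a, ha, rfl⟩, ⟨b, hb, rfl⟩, ⟨a * b, Y.mul_mem ha hb, by
      show i * a * (j * b) = i * j * (a * b)
      rw [mul_assoc, ← mul_assoc a, ← bt0.1 (L.cj a ha)]; group⟩]
  refine ⟨E.cn_mul L.ci ca, E.cn_mul L.cj cb, ?_, ?_, ?_, fun d cd kd => ?_, fun u hu => ?_⟩
  · rw [E.qd_mul, L.qi, E.qd_pm M.ne (Or.inl ha), L.ci a ha]; rfl
  · rw [E.qd_mul, L.qj, E.qd_pm M.ne (Or.inl hb), L.cj b hb]; rfl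
  · rw [E.bt_mul, E.bt_mul', E.bt_mul', L.bij, L.ci b hb, ca b hb, bt_comm, L.cj a ha]; rfl
  · obtain ⟨s, hs⟩ := L.cov d cd kd
    obtain ⟨c, hc, e⟩ := k s
    exact ⟨s, by
      rw [e, mul_assoc, ← bt0.1 (cd c hc), ← mul_assoc]; exact Subgroup.mul_mem _ hs (Or.inl hc)⟩
  · obtain ⟨c, hc, e⟩ := k 2
    rw [show i * a * (j * b) = i * j * c from e, mul_smul i, mul_smul j, mul_smul _ c, hu a ha, hu b hb,
      hu c hc, L.q4 u hu]

end

variable [CharP K 7] (E : Ex 7 f θ z) {Y : Subgroup X}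
include E

theorem move (M : Mx K V Y) {x g : X} (hg : g ∈ Y) (hx : bt g x = 1) :
    ∃ v : V, ∀ h : H, h • v = (2 : K) • v → Nm θ h (Cx Y x) ∧ g * θ h g ∉ E.pm (Cx Y x) := by
  have c7 : (7 : K) = 0 := by exact_mod_cast CharP.cast_eq_zero K 7
  have h2 := ne2 (K := K) E.le
  obtain ⟨i, j, L⟩ := E.exists_lq M
  obtain ⟨u, hu, hq⟩ := E.exists_q M.ne L.ci L.qi
  have h0 : u ≠ 0 := by rintro rfl; simp at hq
  obtain ⟨r0, r1, r2⟩ := rot E.FX (i := i) (j := j) (fun v => by rw [E.act_qd, L.qi, sg1, neg_one_smul])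
    (fun v => by rw [E.act_qd, L.qj, sg1, neg_one_smul])
    (fun v => by rw [E.act_bt, bt_comm, L.bij, sg1, neg_one_smul]) u
  have hu1 : u + (i * j) • u ∈ Fix K V Y := add_mem hu ((E.cn_mul L.ci L.cj).fix hu)
  set u1 := u + (i * j) • u
  have a0 : ∀ a : X, f (x • u1) (a • x • u1) ^ 2 = f u1 (a • u1) ^ 2 := fun a => by
    rw [E.act_bt, fr, E.FX.inv, mul_pow, sg_sq, one_mul]
  have a1 : ∀ a ∈ Y, a • x • u1 = sg K (bt a x) • x • u1 := fun a ha => by rw [E.act_bt, hu1 a ha]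
  have hw0 : x • u1 ≠ 0 := fun e => hq (cancel 2 h2 (by
    rw [← r1, (smul_eq_zero_iff_eq x).1 e]; simp))
  set w := x • u1
  have gw : g • (u + w) = u - w := by rw [smul_add, hu g hg, a1 g hg, hx, sg1, neg_one_smul, sub_eq_add_neg]
  have two : ∀ a b : V, (2 : K) • a = (2 : K) • b → a = b := fun a b e => smul_right_injective V h2 e
  have d1 : (2 : K) • u = (u + w) + g • (u + w) := by rw [gw, two_smul]; abel
  have a2 : ∀ a ∈ Cx Y x, a • (u + w) = u + w := fun a ha => by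
    rw [smul_add, hu a ha.1, a1 a ha.1, (mem_Cx.1 ha).2, sg0, one_smul]
  have a3 : ∀ e : X, e • (u + w) = u + w → e ∈ Cx Y x := fun e he => by
    have k : (2 : K) • e • u = u + w + sg K (bt e g) • (u - w) := by
      rw [← sm, d1, smul_add, E.act_bt e g, he, gw]
    rcases z2 (bt e g) with b | b
    · have k1 : e • u = u := two _ _ (by rw [k, b, sg0, one_smul, two_smul]; abel)
      have k2 := M.mem hu h0 k1
      rw [smul_add, k1, add_right_inj, a1 e k2] at he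
      exact mem_Cx.2 ⟨k2, E.fix_sg hw0 he.symm⟩
    · have k1 : e • u = w := two _ _ (by rw [k, b, sg1, neg_one_smul, two_smul]; abel)
      have k2 : ∀ a : X, f u1 (a • u1) ^ 2 = f u (a • u) ^ 2 := fun a => by
        rw [← a0, ← k1, E.act_bt, fr, E.FX.inv, mul_pow, sg_sq, one_mul]
      have k3 := k2 i
      have k4 := k2 j
      rw [r0] at k3; rw [r1] at k4
      exact absurd (pow_eq_zero_iff two_ne_zero |>.1 (cancel _ (ne15 E.le)
        (by linear_combination k3 + 4 * k4))) hq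
  refine ⟨u + w, fun h hh => ?_⟩
  have n : Nm θ h (Cx Y x) := nm_of_le fun a ha => a3 _ (E.θ_fix h2 hh (a2 a ha))
  refine ⟨n, fun hb => ?_⟩
  have gg : g * g = 1 := qd0.1 (E.qd_pm M.ne (Or.inl hg))
  have b1 : g * θ (h * h) g ∈ Cx Y x := by
    have k : g * θ (h * h) g = g * θ h g * θ h (g * θ h g) := by
      rw [map_mul, map_mul, MulAut.mul_apply, mul_assoc, ← mul_assoc (θ h g), ← map_mul, gg, map_one,
        one_mul]
    rcases hb with k' | k'
    · rw [k]; exact Subgroup.mul_mem _ k' ((n _).2 k')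
    · have := Subgroup.mul_mem _ k' ((n _).2 k')
      rwa [map_mul, E.θz, E.zc, mul_assoc, ← mul_assoc z, E.zz, one_mul, ← k] at this
  have b2 : θ (h * h) g ∈ Y := (Y.mul_mem_cancel_left hg).1 b1.1
  have n2 : Nm θ (h * h) Y := nm_of_le fun a ha => by
    rcases z2 (bt a x) with k | k
    · exact (((n.mul n) a).2 (mem_Cx.2 ⟨ha, k⟩)).1
    · have := (((n.mul n) (g * a)).2 (mem_Cx.2 ⟨Y.mul_mem hg ha, by rw [E.bt_mul, hx, k]; rfl⟩)).1
      rwa [map_mul, SetLike.mem_coe, Subgroup.mem_toSubmonoid, Y.mul_mem_cancel_left b2] at this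
  have b3 : (h * h) • (u + w) = (4 : K) • (u + w) := by
    rw [mul_smul, hh, smul_comm, hh, smul_smul]; norm_num
  have b4 : (h * h) • u = (4 : K) • u := two _ _ (by
    have k := a2 _ b1
    rw [mul_smul, smul_eq_iff_eq_inv_smul, inv_eq_of_mul_eq_one_right gg] at k
    rw [← smul_comm, d1, smul_add, ← E.hθ, b3, sm, smul_comm (2 : K), d1, k, ← smul_add])
  have b5 : (h * h) • w = (4 : K) • w := by rwa [smul_add, smul_add, b4, add_right_inj] at b3
  obtain ⟨t, ht⟩ := L.step M.ne n2 0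
  obtain ⟨s, hs⟩ := E.pm_act ht
  have c1 := E.q_rel b4 (hs u hu)
  have c2 := E.q_rel b5 (t := s + bt (tr i j t * θ (h * h) (tr i j 0)) x) (a := tr i j t)
    (d := tr i j 0) (by rw [E.act_bt, hs u1 hu1, sm, smul_smul, sg_add, mul_comm])
  rw [a0, a0] at c2
  have c3 := L.q4 u hu
  refine hq (pow_eq_zero_iff two_ne_zero |>.1 ?_)
  change f u (i • u) ^ 2 = _ at c1
  change f u1 (i • u1) ^ 2 = _ at c2
  rw [r0] at c2
  fin_cases t
  · change _ = _ * f u (i • u) ^ 2 at c1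
    linear_combination -5 * c1 - 182 * f u (i • u) ^ 2 * c7
  · change _ = _ * f u (j • u) ^ 2 at c1
    change _ = _ * f u1 (j • u1) ^ 2 at c2
    rw [r1] at c2
    linear_combination -(c1 + 64 * c2) - 9362 * f u (i • u) ^ 2 * c7
  · change _ = _ * f u ((i * j) • u) ^ 2 at c1
    change _ = _ * f u1 ((i * j) • u1) ^ 2 at c2
    rw [r2] at c2
    linear_combination c1 + 256 * (4 * c3 - 4 * c1 - c2) - 256 * 293 * f u ((i * j) • u) ^ 2 * c7

theorem mx_bot (hs : Group.IsSolvable H) (M : Mx K V Y) : Y = ⊥ := by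
  have c7 : (7 : K) = 0 := by exact_mod_cast CharP.cast_eq_zero K 7
  by_contra hY
  obtain ⟨x, g, hg, hx, hq⟩ : ∃ x, ∃ g ∈ Y, bt g x = 1 ∧ qd x = 0 := by
    obtain ⟨g, hg, h1⟩ := Y.bot_or_exists_ne_one.resolve_left hY
    obtain ⟨x, hx⟩ : ∃ x, bt g x = 1 := by
      by_contra k
      obtain ⟨u, hu, h0⟩ := M.ne
      obtain rfl := (E.ce g fun b => bt0.1 ((z2 _).resolve_right fun e => k ⟨b, e⟩)).resolve_left h1
      exact h0 (eq_zero_of_eq_neg (ne2 (K := K) E.le) ((hu g hg).symm.trans (E.hz u)))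
    rcases z2 (qd x) with q | q
    · exact ⟨x, g, hg, hx, q⟩
    · exact ⟨x * g, g, hg, by rw [E.bt_mul', hx, bt_self, add_zero], by
        rw [E.qd_mul, q, bt_comm, hx, E.qd_pm M.ne (Or.inl hg)]; rfl⟩
  obtain ⟨i, j, L, ix, jx⟩ : ∃ i j, Lq E Y i j ∧ bt i x = 0 ∧ bt j x = 0 := by
    obtain ⟨i, j, L⟩ := E.exists_lq M
    have k : ∀ a, ∃ b ∈ Y, bt (a * b) x = 0 := fun a => by
      rcases z2 (bt a x) with k | k
      · exact ⟨1, Y.one_mem, by rwa [mul_one]⟩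
      · exact ⟨g, hg, by rw [E.bt_mul, k, hx]; rfl⟩
    obtain ⟨a, ha, ka⟩ := k i
    obtain ⟨b, hb, kb⟩ := k j
    exact ⟨_, _, E.lq_adj M L ha hb, ka, kb⟩
  have qg := E.qd_pm M.ne (Or.inl hg)
  have ig := L.ci g hg
  have jg := L.cj g hg
  have M2 : ∃ u ∈ Fix K V (Cx Y x), u ≠ 0 := M.ne.imp fun u h => ⟨fun a ha => h.1 a ha.1, h.2⟩
  have dn : ∀ d, Cn Y d → Cn (Cx Y x) d := fun d h a ha => h a ha.1
  have cg := dn g (E.cn_pm M.ne (Or.inl hg))
  have cx : Cn (Cx Y x) x := fun a ha => by rw [bt_comm, (mem_Cx.1 ha).2]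
  have tx : ∀ s, bt (tr i j s) x = 0 := fun s => by
    fin_cases s
    exacts [ix, jx, by show bt (i * j) x = 0; rw [E.bt_mul, ix, jx, add_zero]]
  let a : Fin 5 → X := ![g, x, g * i * x, g * j * x, g * (i * j) * x]
  have p1 : ∀ s, Cn (Cx Y x) (a s) := fun s => by
    fin_cases s
    exacts [cg, cx, E.cn_mul (E.cn_mul cg (dn _ L.ci)) cx, E.cn_mul (E.cn_mul cg (dn _ L.cj)) cx,
      E.cn_mul (E.cn_mul cg (dn _ (L.cn 2))) cx]
  have hx' := (bt_comm x g).trans hx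
  have ix' := (bt_comm x i).trans ix
  have jx' := (bt_comm x j).trans jx
  have ig' := (bt_comm g i).trans ig
  have jg' := (bt_comm g j).trans jg
  have bij := L.bij
  have bji := (bt_comm j i).trans bij
  have p2 : ∀ s, qd (a s) = 0 := fun s => by
    fin_cases s <;> simp only [a, Fin.mk_one, Fin.zero_eta, Fin.reduceFinMk, Matrix.cons_val,
      E.qd_mul, E.bt_mul, E.bt_mul', L.qi, L.qj, *] <;> rfl
  have p3 : ∀ s t, s ≠ t → bt (a s) (a t) = 1 := fun s t h => by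
    fin_cases s <;> fin_cases t <;> first | exact absurd rfl h | (simp only [a, Fin.mk_one,
      Fin.zero_eta, Fin.reduceFinMk, Matrix.cons_val, E.bt_mul, E.bt_mul', bt_self, *]; try rfl)
  have sp : ∀ d ∈ E.pm Y, d ∈ E.pm (Cx Y x) ∨ g * d ∈ E.pm (Cx Y x) := fun d hd => by
    rcases z2 (bt d x) with k | k
    · exact Or.inl (hd.imp (fun h => mem_Cx.2 ⟨h, k⟩) fun h =>
        mem_Cx.2 ⟨h, by rw [E.bt_mul, E.bt_z, k]; rfl⟩)
    · exact Or.inr (hd.imp (fun h => mem_Cx.2 ⟨Y.mul_mem hg h, by rw [E.bt_mul, hx, k]; rfl⟩) fun h =>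
        mem_Cx.2 ⟨by rw [← mul_assoc, E.zc, mul_assoc]; exact Y.mul_mem hg h,
          by rw [E.bt_mul, E.bt_mul, E.bt_z, hx, k]; rfl⟩)
  have up : ∀ d, Cn (Cx Y x) d → bt d g = 0 → Cn Y d := fun d hd k b hb => by
    rcases z2 (bt b x) with k' | k'
    · exact hd b (mem_Cx.2 ⟨hb, k'⟩)
    · simpa [E.bt_mul', k] using hd (g * b) (mem_Cx.2 ⟨Y.mul_mem hg hb, by rw [E.bt_mul, hx, k']; rfl⟩)
  have qe : ∀ b e, Cn (Cx Y x) b → b * e ∈ E.pm (Cx Y x) → qd e = 0 → qd b = 0 := fun b e hb h q => by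
    have := E.qd_pm M2 h
    rwa [E.qd_mul, bt_comm, E.bt_of_pm h hb, bt_self, q, add_zero, add_zero] at this
  have p4 : ∀ e, Cn (Cx Y x) e → qd e = 0 → e ∉ E.pm (Cx Y x) → ∃ s, a s * e ∈ E.pm (Cx Y x) :=
    fun e ce q ke => by
      rcases z2 (bt e g) with k | k
      · exact ⟨0, (sp e (E.pm_of_qd M (up e ce k) q)).resolve_left ke⟩
      have cd := up _ (E.cn_mul cx ce) (by rw [E.bt_mul, hx', k]; rfl)
      by_cases hd : x * e ∈ E.pm Y
      · refine ⟨1, (sp _ hd).resolve_right fun h => ?_⟩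
        have := qe _ e (E.cn_mul cg cx) (by rwa [mul_assoc]) q
        rw [E.qd_mul, qg, hq, hx] at this
        exact absurd this (by decide)
      obtain ⟨s, hs⟩ := L.cov _ cd hd
      have h := (sp _ hs).resolve_left fun h => by
        have := qe _ e (E.cn_mul (dn _ (L.cn s)) cx) (by rwa [mul_assoc]) q
        rw [E.qd_mul, L.qt, hq, tx] at this
        exact absurd this (by decide)
      rw [← mul_assoc, ← mul_assoc] at h
      fin_cases s
      exacts [⟨2, h⟩, ⟨3, h⟩, ⟨4, h⟩]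
  have p5 : ∀ s, a s ∉ E.pm (Cx Y x) := fun s h => by
    simpa [p3 s (s + 1) (by simp)] using E.bt_pm (p1 (s + 1)) h
  let N : Subgroup H :=
    { carrier := {h | Nm θ h (Cx Y x)}
      one_mem' := fun g => by simp
      mul_mem' := Nm.mul
      inv_mem' := fun {h} n b => by rw [← n]; simp }
  obtain ⟨π, hπ⟩ := perm_of (θ.comp N.subtype) (E.pm (Cx Y x)) (fun h b hb => (E.nm_pm h.2 b).2 hb) a
    (fun s t h => by_contra fun k => by
      simpa [bt_self, p3 _ _ k] using E.bt_of_pm (E.inv_pm.1 h) (p1 t))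
    fun h s => (p4 _ (Nm.cn h.2 (p1 s)) ((qd_map _ _).trans (p2 s))
      (mt (E.nm_pm h.2 _).1 (p5 s))).imp fun t ht => E.inv_pm.2 ht
  refine not_sol_five π.range (fun s => ?_) (Group.isSolvable_of_surjective π.rangeRestrict_surjective)
  obtain ⟨Y', M', h1, h2⟩ := E.mx_of M hg hx (p1 s) (p1 (s + 1)) (p2 s) (p3 s (s + 1) (by simp))
  obtain ⟨v, hv⟩ := E.move M' h1 (p3 s (s + 1) (by simp))
  rw [h2] at hv
  obtain ⟨h, hh⟩ := ev2 E.le E.ev v
  have k : ∀ n, h ^ n • v = (2 : K) ^ n • v := fun n => by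
    induction n with
    | zero => simp
    | succ n ih => rw [pow_succ, mul_smul, hh, smul_comm, ih, smul_smul, pow_succ']
  have k8 : (2 : K) ^ 3 = 1 := by linear_combination c7
  refine ⟨π (⟨h, (hv h hh).1⟩ ^ 40), ⟨_, rfl⟩, ?_, fun e => (hv (h ^ 40) ?_).2 ?_⟩
  · rw [map_pow, ← pow_mul]; exact pow_card_eq_one
  · rw [k, show 40 = 3 * 13 + 1 from rfl, pow_succ, pow_mul, k8, one_pow, one_mul]
  · have := hπ (⟨h, (hv h hh).1⟩ ^ 40) s
    rw [e] at this
    exact E.inv_pm.1 this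

end Ex

end CF.Dc
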