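import Cfsg.Agent.Dc.L3

/-! The primitive case: a plane with a normal quaternion group, and a non-rational class
function. -/

set_option autoImplicit false
set_option linter.unusedSectionVars false

namespace CF.Dc

open MulAction

variable {K V H : Type*} [Field K] [AddCommGroup V] [Module K V]
  [Group H] [DistribMulAction H V] [SMulCommClass H K V] {f : V →ₗ[K] V →ₗ[K] K}

theorem schur [CharP K 7] (F : Fm H f) {I J : V →ₗ[K] V} (fi : ∀ u v, f (I u) (I v) = f u v)
    (fj : ∀ u v, f (J u) (J v) = f u v) (hi : ∀ v, I (I v) = -v)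
    (hj : ∀ v, J (J v) = -v) (hij : ∀ v, J (I v) = -I (J v))
    (q4 : ∀ u, f u (I u) ^ 2 + f u (J u) ^ 2 + f u (I (J u)) ^ 2 = 0) (φ : V →ₗ[K] V)
    (φi : ∀ v, φ (I v) = I (φ v)) (φj : ∀ v, φ (J v) = J (φ v)) : ∃ γ : K, ∀ v, φ v = γ • v := by
  have c7 : (7 : K) = 0 := by exact_mod_cast CharP.cast_eq_zero K 7
  have h2 := ne2 (K := K) le_rfl
  let P : V → Prop := fun x => (2 : K) • I x + (3 : K) • J x = x
  have ai : ∀ u v, f (I u) v = -f u (I v) := fun u v => by
    rw [← fi, hi, map_neg, LinearMap.neg_apply]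
  have aj : ∀ u v, f (J u) v = -f u (J v) := fun u v => by
    rw [← fj, hj, map_neg, LinearMap.neg_apply]
  have a1 : ∀ x y, P x → P y → f x y = 0 := fun x y hx hy => cancel 2 h2 (by
    have k1 := congrArg (f · y) hx
    have k2 := congrArg (f x) hy
    simp only [map_add, LinearMap.add_apply, fl, fr, ai, aj] at k1 k2
    linear_combination -k1 - k2)
  have a2 : ∀ x y, P x → P y → f x (I (J x)) * f y (I (J y)) = f x (I (J y)) ^ 2 :=
    fun x y hx hy => by
      have k := q4 (x + I (J y))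
      have k1 := congrArg (f (x + I (J y))) (show (2 : K) • I (x + I (J y)) +
        (3 : K) • J (x + I (J y)) = x - I (J y) by
          have e := congrArg (fun v => I (J v)) hy
          simp only [map_add, map_smul, hi, hij, hj, map_neg, neg_neg] at e ⊢
          linear_combination (norm := module) hx - e)
      have k2 := congrArg (f (x + I (J y))) (show (-3 : K) • I (x + I (J y)) +
        (2 : K) • J (x + I (J y)) = I (J x) + y by
          have e := congrArg (fun v => I (J v)) hx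
          simp only [map_add, map_smul, hi, hij, hj, map_neg, neg_neg] at e ⊢
          linear_combination (norm := module) hy + e)
      have k3 : f (x + I (J y)) (I (J (x + I (J y)))) = f x (I (J x)) + f y (I (J y)) := by
        simp only [hi, hij, hj, neg_neg, map_add, LinearMap.add_apply,
          map_neg, fi, fj, a1 x y hx hy, a1 y x hy hx, F.skew (I (J y)) y]
        ring
      rw [map_add, fr, fr] at k1 k2
      rw [k3] at k
      generalize f (x + I (J y)) (I (x + I (J y))) = A at k k1 k2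
      generalize f (x + I (J y)) (J (x + I (J y))) = B at k k1 k2
      simp only [map_add, map_sub, LinearMap.add_apply, fi, fj, F.alt, a1 x y hx hy, a1 y x hy hx,
        F.skew (I (J y))] at k1 k2
      refine sub_eq_zero.1 (cancel (2 * 2) (by simp [h2]) ?_)
      linear_combination k + (2 * A + 3 * B - 2 * f x (I (J y))) * k1 +
        (-3 * A + 2 * B + f x (I (J x)) - f y (I (J y))) * k2 - 2 * (A ^ 2 + B ^ 2) * c7
  have a3 : ∀ v : V, ∃ x y, P x ∧ P y ∧ (2 : K) • v = x + I (J y) := fun v =>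
    ⟨v + ((2 : K) • I v + (3 : K) • J v), -(I (J (v - ((2 : K) • I v + (3 : K) • J v)))), by
      simp only [P, map_add, map_smul, hi, hij, hj]
      linear_combination (norm := module) (-2 * c7) • v, by
      simp only [P, map_add, map_sub, map_smul, hi, hij, hj, map_neg, neg_neg]
      linear_combination (norm := module) (2 * c7) • I (J v), by
      simp only [map_add, map_sub, map_smul, hi, hij, hj, map_neg, neg_neg]
      module⟩
  have a4 : ∀ x, P x → (∀ y, P y → f x (I (J y)) = 0) → x = 0 := fun x hx h =>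
    F.nd x fun v => cancel 2 h2 (by
      obtain ⟨a, b, ha, hb, e⟩ := a3 v
      rw [← fr, e, map_add, a1 x a hx ha, h b hb, add_zero])
  obtain ⟨γ, hγ⟩ : ∃ γ : K, ∀ y, P y → φ y = γ • y := by
    by_cases h : ∀ x, P x → x = 0
    · exact ⟨0, fun y hy => by simp [h y hy]⟩
    push Not at h
    obtain ⟨x, hx, h0⟩ := h
    have k0 : f x (I (J x)) ≠ 0 := fun e => h0 (a4 x hx fun y hy =>
      pow_eq_zero_iff two_ne_zero |>.1 (by rw [← a2 x y hx hy, e, zero_mul]))
    have k : ∀ y, P y → ∃ c : K, y = c • x := fun y hy => by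
      refine ⟨f y (I (J x)) / f x (I (J x)), sub_eq_zero.1 ?_⟩
      have hp : P (y - (f y (I (J x)) / f x (I (J x))) • x) := by
        simp only [P, map_sub, map_smul] at hx hy ⊢
        linear_combination (norm := module) hy - (f y (I (J x)) / f x (I (J x))) • hx
      have k1 := a2 _ x hp hx
      rw [map_sub f, LinearMap.sub_apply _ _ (I (J x)), fl, div_mul_cancel₀ _ k0, sub_self,
        zero_pow two_ne_zero] at k1
      exact a4 _ hp fun w hw => pow_eq_zero_iff two_ne_zero |>.1 (by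
        rw [← a2 _ w hp hw, map_sub f, (mul_eq_zero.1 k1).resolve_right k0, zero_mul])
    obtain ⟨γ, hγ⟩ := k (φ x) (by
      have := congrArg φ hx
      rwa [map_add, φ.map_smul, φ.map_smul, φi, φj] at this)
    refine ⟨γ, fun y hy => ?_⟩
    obtain ⟨c, rfl⟩ := k y hy
    rw [φ.map_smul, hγ, smul_comm]
  refine ⟨γ, fun v => smul_right_injective V h2 ?_⟩
  obtain ⟨a, b, ha, hb, e⟩ := a3 v
  show (2 : K) • φ v = (2 : K) • γ • v
  rw [← φ.map_smul, smul_comm, e, map_add, φi, φj, hγ a ha, hγ b hb, J.map_smul, I.map_smul, smul_add]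

/-- a plane with a normal quaternion group -/
structure Qu (f : V →ₗ[K] V →ₗ[K] K) (i j : H) (π : H →* Equiv.Perm (Fin 3)) : Prop where
  hi : ∀ v : V, i • i • v = -v
  hj : ∀ v : V, j • j • v = -v
  hij : ∀ v : V, j • i • v = -(i • j • v)
  act : ∀ h s, ∃ t, ∀ v : V, h • tr i j s • v = sg K t • tr i j (π h s) • h • v
  sc : ∀ φ : V →ₗ[K] V, (∀ v, φ (i • v) = i • φ v) → (∀ v, φ (j • v) = j • φ v) →
    ∃ γ : K, ∀ v, φ v = γ • v
  nz : ∃ u, f u (i • u) ≠ 0

theorem Pr.exists_qu {p : ℕ} [CharP K p] [Finite H] [Finite V] (P : Pr p H f) (hp : p.Prime)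
    (hs : Group.IsSolvable H) : p = 7 ∧ ∃ (i j : H) (π : H →* Equiv.Perm (Fin 3)), Qu f i j π := by
  obtain ⟨X, _, z, E⟩ := P.exists_ex hs
  obtain ⟨u, hu, hm⟩ := exists_mx P.nt (⊤ : Subgroup X)
  simp only [top_inf_eq] at hm
  have M : Mx K V (stabilizer X u) := ⟨⟨u, fun _ h => h, hu⟩, hm⟩
  obtain ⟨i, j, L⟩ := E.exists_lq M
  obtain rfl := E.seven hp M L
  have M0 := M.ne
  rw [E.mx_bot hs M] at L M0
  have hF : ∀ v : V, v ∈ Fix K V (⊥ : Subgroup X) := fun v g hg => by rw [hg, one_smul]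
  have n : ∀ h : H, Nm (MulAut.conjNormal : H →* MulAut X) h ⊥ := fun h g => by simp
  obtain ⟨π, hπ⟩ := perm_of MulAut.conjNormal (E.pm ⊥) (fun h b hb => (E.nm_pm (n h) b).2 hb) (tr i j)
    (fun s t h => by
      have k0 := E.bt_of_pm (E.inv_pm.1 h) L.ci
      have k1 := E.bt_of_pm (E.inv_pm.1 h) L.cj
      have k2 := (bt_comm j i).trans L.bij
      fin_cases s <;> fin_cases t <;> simp [tr, E.bt_mul, bt_self, L.bij, k2] at k0 k1 ⊢)
    fun h s => (L.step M0 (n h) s).imp fun t ht => E.inv_pm.2 ht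
  have hi : ∀ v : V, i • i • v = -v := fun v => by rw [E.act_qd, L.qi, sg1, neg_one_smul]
  have hj : ∀ v : V, j • j • v = -v := fun v => by rw [E.act_qd, L.qj, sg1, neg_one_smul]
  have hij : ∀ v : V, j • i • v = -(i • j • v) := fun v => by
    rw [E.act_bt, bt_comm, L.bij, sg1, neg_one_smul]
  refine ⟨rfl, i, j, π, hi, hj, hij, fun h s => ?_, schur E.FX (I := DistribSMul.toLinearMap K V i)
    (J := DistribSMul.toLinearMap K V j) (E.FX.inv i) (E.FX.inv j) hi hj hij fun u => by
      have := L.q4 u (hF u); rw [mul_smul] at this; exact this,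
    (E.exists_q M0 L.ci L.qi).imp fun u h => h.2⟩
  obtain ⟨t, ht⟩ := E.pm_act (hπ h s)
  have k : ∀ s (v : V), tr (i : H) j s • v = tr i j s • v := fun s v => by fin_cases s <;> rfl
  exact ⟨t, fun v => by rw [k, k, ← E.hθ, ← sm, ← ht _ (hF _), mul_smul, smul_inv_smul]⟩

variable (K V) in
/-- a non-rational class function with a cancellation property -/
structure Ps (N : ℕ) (ψ : H → ℤ) : Prop where
  cl : ∀ g b, ψ (g * b * g⁻¹) = ψ b
  pw : ∃ k : ℕ, k.Coprime N ∧ ∀ b, ψ (b ^ k) = -ψ b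
  nz : ∃ b, ψ b ≠ 0
  tw : ∃ w0 w1 w2 : V, w0 ≠ 0 ∧ w1 ≠ 0 ∧ w2 ≠ 0 ∧ ∀ h1 h2 k1 k2 : H, h1 • w0 = (2 : K) • w0 →
    h2 • w0 = (2 : K) • w0 → k1 • w1 = (2 : K) • w1 → k2 • w2 = (2 : K) • w2 →
    ∃ n m : ℕ, 0 < m ∧ (∀ b, ψ (b * (h1⁻¹ * h2) ^ n) = ψ b) ∧
      ∀ b, ∑ r ∈ Finset.range m, ψ (b * ((k1⁻¹ * k2) ^ n) ^ r) = 0

/-- the test function on `S₃` -/
def chi (ρ σ : Equiv.Perm (Fin 3)) : ℤ := if σ = ρ then 1 else if σ = ρ⁻¹ then -1 else 0

variable (V) in
/-- trace condition -/
def Tc (c : K) (b : H) : Prop := ∀ v : V, b • v + b⁻¹ • v = c • v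

theorem Tc.neg {c : K} {b y : H} (h : Tc V c b) (hy : ∀ v : V, y • v = -(b • v)) : Tc V (-c) y :=
  fun v => by
    have k : y⁻¹ • v = -(b⁻¹ • v) := by rw [inv_smul_eq_iff, hy, smul_neg, neg_neg, smul_inv_smul]
    rw [hy, k, neg_smul, ← h, neg_add]

theorem Tc.pow {c : K} {b : H} (h : Tc V c b) (hc : c ^ 2 = 2) {n : ℕ} (hn : n % 8 = 5) :
    Tc V (-c) (b ^ n) := by
  have h1 : ∀ v : V, b • b • v = c • b • v - v := fun v => by
    rw [← h (b • v), inv_smul_smul, add_sub_cancel_right]
  have h2 : ∀ v : V, b ^ 4 • v = -v := fun v => by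
    simp only [pow_succ, pow_zero, one_mul, mul_smul, h1, smul_sub, sm b]
    generalize b • v = w
    linear_combination (norm := module) hc • c • w - hc • v
  have h3 : ∀ q (v : V), (b ^ 8) ^ q • v = v := fun q v => by
    induction q with
    | zero => simp
    | succ q ih => rw [pow_succ, mul_smul, show b ^ 8 = b ^ 4 * b ^ 4 by group, mul_smul, h2, h2,
        neg_neg, ← pow_add, ih]
  refine h.neg fun v => ?_
  rw [show n = 8 * (n / 8) + (4 + 1) by omega, pow_add, pow_mul, mul_smul, h3, pow_succ, mul_smul, h2]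

namespace Qu
variable [CharP K 7] {i j : H} {π : H →* Equiv.Perm (Fin 3)} (U : Qu f i j π) (F : Fm H f)
include U F

theorem qm {h : H} {w : V} (hh : h • w = (2 : K) • w) (s : Fin 3) :
    f w (tr i j s • w) ^ 2 = 2 * f w (tr i j (π h s) • w) ^ 2 := by
  have c7 : (7 : K) = 0 := by exact_mod_cast CharP.cast_eq_zero K 7
  obtain ⟨t, ht⟩ := U.act h s
  rw [← F.inv h, ht, hh, sm, fl, fr, fr]
  linear_combination 16 * f w (tr i j (π h s) • w) ^ 2 * sg_sq (K := K) t +
    2 * f w (tr i j (π h s) • w) ^ 2 * c7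

theorem scal {u : V} (hu : f u (i • u) ≠ 0) {b : H} (hi : ∀ v : V, b • i • v = i • b • v)
    (hj : ∀ v : V, b • j • v = j • b • v) : (∀ v : V, b • v = v) ∨ ∀ v : V, b • v = -v := by
  obtain ⟨γ, hγ⟩ := U.sc (DistribSMul.toLinearMap K V b) hi hj
  replace hγ : ∀ v : V, b • v = γ • v := hγ
  have := F.inv b u (i • u)
  rw [hγ, hγ, fl, fr, ← mul_assoc, mul_left_eq_self₀, mul_self_eq_one_iff] at this
  rcases this.resolve_right hu with rfl | rfl
  · exact Or.inl fun v => by rw [hγ, one_smul]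
  · exact Or.inr fun v => by rw [hγ, neg_one_smul]

theorem triv {u : V} (hu : f u (i • u) ≠ 0) {y : H} (hy : π y = 1) :
    (∀ v : V, y • v = v) ∨ (∀ v : V, y • v = -v) ∨ ∀ v : V, y • y • v = -v := by
  obtain ⟨s, hs⟩ := U.act y 0
  obtain ⟨t, ht⟩ := U.act y 1
  rw [hy] at hs ht
  replace hs : ∀ v : V, y • i • v = sg K s • i • y • v := hs
  replace ht : ∀ v : V, y • j • v = sg K t • j • y • v := ht
  have k : ∀ a : H, (∀ v : V, a • a • v = -v) → (∀ v : V, (y * a) • i • v = i • (y * a) • v) →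
      (∀ v : V, (y * a) • j • v = j • (y * a) • v) → ∀ v : V, y • y • v = -v := fun a ha a1 a2 v => by
    have e : ∀ v : V, y • v = -((y * a) • a • v) := fun v => by rw [mul_smul, ha, smul_neg, neg_neg]
    rcases U.scal F hu a1 a2 with h | h <;> rw [e, e v] <;> simp only [h, smul_neg, neg_neg, ha]
  have hi := U.hi
  have hj := U.hj
  have hij := U.hij
  rcases z2 s with rfl | rfl <;> rcases z2 t with rfl | rfl <;>
    simp only [sg0, sg1, one_smul, neg_one_smul] at hs ht
  · exact (U.scal F hu hs ht).imp_right Or.inl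
  · exact Or.inr (Or.inr (k i hi (fun v => by simp [mul_smul, *]) fun v => by simp [mul_smul, *]))
  · exact Or.inr (Or.inr (k j hj (fun v => by simp [mul_smul, *]) fun v => by simp [mul_smul, *]))
  · exact Or.inr (Or.inr (k (i * j) (fun v => by simp [mul_smul, *])
      (fun v => by simp [mul_smul, *]) fun v => by simp [mul_smul, *]))

theorem exists_tc {u : V} (hu : f u (i • u) ≠ 0) {t : H} (ht : π t = Equiv.swap 0 1) :
    ∃ y : H, Tc V (3 : K) y ∨ Tc V (-3 : K) y := by
  have c7 : (7 : K) = 0 := by exact_mod_cast CharP.cast_eq_zero K 7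
  have h2 := ne2 (K := K) le_rfl
  have hi := U.hi
  have hj := U.hj
  have hij := U.hij
  obtain ⟨y, e, h0, h1⟩ : ∃ (y : H) (e : ZMod 2), (∀ v : V, y • i • v = sg K e • j • y • v) ∧
      ∀ v : V, y • i • j • v = i • j • y • v := by
    obtain ⟨e, he⟩ := U.act t 0
    obtain ⟨s, hs⟩ := U.act t 2
    rw [ht] at he hs
    replace he : ∀ v : V, t • i • v = sg K e • j • t • v := he
    replace hs : ∀ v : V, t • (i * j) • v = sg K s • (i * j) • t • v := hs
    simp only [mul_smul] at hs
    rcases z2 s with rfl | rfl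
    · exact ⟨t, e, he, by simpa using hs⟩
    · exact ⟨t * i, e, fun v => by rw [mul_smul, he, mul_smul], fun v => by
        rw [mul_smul, mul_smul, ← neg_neg (i • j • t • _), ← neg_one_smul K (i • j • t • _), ← sg1, ← hs,
          hij, smul_neg, smul_neg, neg_neg]⟩
  have ee := sg_sq (K := K) e
  have a1 : ∀ v : V, y • i • v - sg K e • i • j • y • i • v = i • (y • v - sg K e • i • j • y • v) :=
    fun v => by
      simp only [h0, smul_sub, sm i, sm j, hi, hj, smul_neg]
      generalize i • y • v = a; generalize j • y • v = b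
      linear_combination (norm := module) ee • a
  obtain ⟨γ, hγ⟩ := U.sc (DistribSMul.toLinearMap K V y - sg K e • DistribSMul.toLinearMap K V i ∘ₗ
    DistribSMul.toLinearMap K V j ∘ₗ DistribSMul.toLinearMap K V y) a1 fun v => by
      have k : ∀ v : V, j • v = i • j • i • v := fun v => by rw [hij, smul_neg, hi, neg_neg]
      show y • j • v - sg K e • i • j • y • j • v = j • (y • v - sg K e • i • j • y • v)
      rw [k v, k (_ - _), h1, ← a1, smul_sub, smul_sub, sm, sm]
  replace hγ : ∀ v : V, y • v - sg K e • i • j • y • v = γ • v := hγ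
  have a2 : ∀ v : V, (2 : K) • y • v = γ • (v + sg K e • i • j • v) := fun v => by
    have k := congrArg (fun w => i • j • w) (hγ v)
    have k' := hγ v
    simp only [smul_sub, sm i, sm j, hi, hij, hj, smul_neg, neg_neg] at k
    generalize i • j • y • v = a at k k'; generalize y • v = b at k k'; generalize i • j • v = c at k
    linear_combination (norm := module) k' + sg K e • k - ee • b
  have a3 : γ ^ 2 = 2 := by
    have k := F.inv y u (i • u)
    have k1 : f (i • j • u) (i • u) = -f u (j • u) := by rw [F.inv, F.skew]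
    have k2 : f (i • j • u) (j • u) = f u (i • u) := by
      rw [← neg_neg (i • j • u), ← hij, map_neg, LinearMap.neg_apply, F.inv, ← F.skew]
    have k3 : f ((2 : K) • y • u) ((2 : K) • y • i • u) = 2 * γ ^ 2 * f u (i • u) := by
      simp only [a2, fl, fr, map_add, LinearMap.add_apply, hij, hi, smul_neg, neg_neg, k1, k2]
      linear_combination γ ^ 2 * f u (i • u) * ee
    rw [fl, fr, k] at k3
    exact mul_left_cancel₀ h2 (mul_right_cancel₀ hu (by linear_combination -k3))
  have a4 : Tc V γ y := fun v => smul_right_injective V h2 (by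
    have k := hγ (y⁻¹ • v)
    have k' := a2 v
    rw [smul_inv_smul] at k
    show (2 : K) • _ = (2 : K) • _
    generalize i • j • v = a at k k'; generalize y⁻¹ • v = b at k; generalize y • v = c at k'
    linear_combination (norm := module) k' - γ • k - a3 • b)
  have a5 : (γ - 3) * (γ + 3) = 0 := by linear_combination a3 - c7
  rcases mul_eq_zero.1 a5 with k | k
  · exact ⟨y, Or.inl (sub_eq_zero.1 k ▸ a4)⟩
  · exact ⟨y, Or.inr (eq_neg_of_add_eq_zero_left k ▸ a4)⟩

end Qu

theorem Pr.exists_ps [CharP K 7] [Finite H] (P : Pr 7 H f) {i j : H} {π : H →* Equiv.Perm (Fin 3)}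
    (U : Qu f i j π) {N : ℕ} (h0 : N ≠ 0) (hN : Nat.card H ∣ N) : ∃ ψ : H → ℤ, Ps K V N ψ := by
  classical
  have c7 : (7 : K) = 0 := by exact_mod_cast CharP.cast_eq_zero K 7
  have h2 := ne2 (K := K) le_rfl
  have F := P.toFm
  obtain ⟨u, hu⟩ := U.nz
  have u0 : u ≠ 0 := by rintro rfl; simp at hu
  obtain ⟨g, hg⟩ := ev2 P.le P.ev u
  obtain ⟨q0, qi⟩ := cyc3 (U.qm F hg) (pow_ne_zero 2 hu) fun e => ne3 (K := K) le_rfl
    (by linear_combination e)
  have nf : ∀ s, π g s ≠ s := fun s e => q0 s (by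
    have := U.qm F hg s; rw [e] at this; linear_combination -this)
  have same : ∀ h : H, h • u = (2 : K) • u → π h = π g := fun h hh => Equiv.ext fun s =>
    qi (mul_left_cancel₀ h2 ((U.qm F hh s).symm.trans (U.qm F hg s)))
  have hb : ∀ b : H, b ^ N = 1 := fun b => orderOf_dvd_iff_pow_eq_one.1 ((orderOf_dvd_natCard b).trans hN)
  by_cases hA : ∀ h, Equiv.Perm.sign (π h) = 1
  · obtain ⟨r0, r1, r2⟩ := rot F U.hi U.hj U.hij u
    set w := u + (i * j) • u
    have w0 : w ≠ 0 := fun e => hu (cancel 2 h2 (by rw [← r1, e]; simp))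
    have k : ∀ s, f w (tr i j s • w) ^ 2 = 4 * f u (tr i j (Equiv.swap 0 1 s) • u) ^ 2 := fun s => by
      fin_cases s
      · show f w (i • w) ^ 2 = 4 * f u (j • u) ^ 2; rw [r0]; ring
      · show f w (j • w) ^ 2 = 4 * f u (i • u) ^ 2; rw [r1]; ring
      · show f w ((i * j) • w) ^ 2 = 4 * f u ((i * j) • u) ^ 2; rw [r2]; ring
    refine ⟨fun b => chi (π g) (π b), fun a b => ?_, ⟨N - 1, ?_, fun b => ?_⟩, ⟨g, by simp [chi]⟩,
      u, u, w, u0, u0, w0, fun h1 h2' k1 k2 e1 e2 e3 e4 => ⟨1, 3, by omega, fun b => ?_, fun b => ?_⟩⟩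
    · have a1 := hA a
      have a2 := hA b
      simp only [map_mul, map_inv]
      congr 1
      revert a1 a2; generalize π a = σ; generalize π b = τ; revert σ τ; decide
    · obtain ⟨n, rfl⟩ := Nat.exists_eq_succ_of_ne_zero h0
      simp
    · rw [show b ^ (N - 1) = b⁻¹ from eq_inv_of_mul_eq_one_left (by
        rw [← pow_succ, Nat.sub_add_cancel (Nat.pos_of_ne_zero h0), hb]), map_inv]
      revert nf; generalize π g = σ; generalize π b = τ; revert σ τ; decide
    · simp [same _ e1, same _ e2]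
    · have a1 : ∀ s, Equiv.swap 0 1 (π k2 s) = π g (Equiv.swap 0 1 s) := fun s => qi (by
        have a2 := U.qm F e4 s
        rw [k, k, U.qm F hg] at a2
        exact mul_left_cancel₀ (show (2 * (2 * 2) : K) ≠ 0 by simp [h2]) (by linear_combination -a2))
      have a2 := hA b
      simp only [pow_one, map_mul, map_pow, map_inv, same _ e3]
      revert a1 a2 nf; generalize π g = σ; generalize π b = τ; generalize π k2 = ρ; revert σ τ ρ
      decide
  obtain ⟨t, ht⟩ : ∃ t, π t = Equiv.swap 0 1 := by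
    push Not at hA
    obtain ⟨t, ht⟩ := hA
    have : π t = Equiv.swap 0 1 ∨ π t * π g = Equiv.swap 0 1 ∨ π t * π g * π g = Equiv.swap 0 1 := by
      revert ht nf; generalize π g = σ; generalize π t = τ; revert σ τ; decide
    rcases this with k | k | k
    exacts [⟨t, k⟩, ⟨t * g, by simpa using k⟩, ⟨t * g * g, by simpa using k⟩]
  have ex : ∀ b : H, Tc V (3 : K) b → ¬ Tc V (-3 : K) b := fun b a1 a2 => u0 (by
    have : (6 : K) • u = 0 := by
      linear_combination (norm := module) (a1 u).symm.trans (a2 u)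
    exact (smul_eq_zero.1 this).resolve_left (ne6 le_rfl))
  let ψ : H → ℤ := fun b => if Tc V (3 : K) b then 1 else if Tc V (-3 : K) b then -1 else 0
  have fl : ∀ a b : H, (∀ c : K, c ^ 2 = 2 → Tc V c a → Tc V (-c) b) →
      (∀ c : K, c ^ 2 = 2 → Tc V c b → Tc V (-c) a) → ψ b = -ψ a := fun a b k1 k2 => by
    have a1 := k1 3 (by linear_combination c7)
    have a2 := k1 (-3) (by linear_combination c7)
    have a3 := k2 3 (by linear_combination c7)
    have a4 := k2 (-3) (by linear_combination c7)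
    have a5 := ex a
    have a6 := ex b
    rw [neg_neg] at a2 a4
    simp only [ψ]
    split_ifs <;> tauto
  have cl : ∀ (c : K) (a b : H), Tc V c b → Tc V c (a * b * a⁻¹) := fun c a b h v => by
    simp only [mul_inv_rev, inv_inv, mul_smul]
    rw [← smul_add, h, sm, smul_inv_smul]
  have iu : ∀ s, f (i • u) (tr i j s • i • u) ^ 2 = f u (tr i j s • u) ^ 2 := fun s => by
    fin_cases s <;> simp [tr, mul_smul, U.hij, F.inv]
  refine ⟨ψ, fun a b => ?_, ?_, ?_, u, u, i • u, u0, u0, (smul_ne_zero_iff_ne i).2 u0,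
    fun h1 h2' k1 k2 e1 e2 e3 e4 => ?_⟩
  · have : ∀ c : K, Tc V c (a * b * a⁻¹) ↔ Tc V c b := fun c =>
      ⟨fun h => by simpa [mul_assoc] using cl c a⁻¹ _ h, cl c a b⟩
    simp only [ψ, this]
  · obtain ⟨a, m, hm, rfl⟩ := Nat.exists_eq_two_pow_mul_odd h0
    have k1 : (1 + 4 * m).Coprime (8 * (2 ^ a * m)) := by
      have : (1 + 4 * m).Coprime 2 := (Nat.coprime_two_right).2 ⟨2 * m, by ring⟩
      exact (this.pow_right 3).mul_right ((this.pow_right a).mul_right (by simp))
    obtain ⟨k, -, hk⟩ := Nat.exists_mul_mod_eq_one_of_coprime k1 (by omega)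
    have k2 : (1 + 4 * m) % 8 = 5 := by obtain ⟨n, rfl⟩ := hm; omega
    have k3 : k % 8 = 5 := by
      have := (Nat.mod_mod_of_dvd ((1 + 4 * m) * k) (dvd_mul_right 8 (2 ^ a * m))).symm
      rw [hk, Nat.mul_mod, k2] at this
      omega
    refine ⟨1 + 4 * m, k1.coprime_dvd_right (dvd_mul_left _ _), fun b =>
      fl _ _ (fun c hc h => h.pow hc k2) fun c hc h => ?_⟩
    have := h.pow hc k3
    rwa [← pow_mul, ← Nat.div_add_mod ((1 + 4 * m) * k) (8 * (2 ^ a * m)), hk, pow_succ, mul_comm 8,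
      mul_assoc, pow_mul, hb, one_pow, one_mul] at this
  · obtain ⟨y, hy⟩ := U.exists_tc F hu ht
    refine ⟨y, ?_⟩
    simp only [ψ]
    split_ifs <;> tauto
  have a1 : h1⁻¹ * h2' = 1 := by
    have e : (h1⁻¹ * h2') • u = u := by rw [mul_smul, e2, ← e1, inv_smul_smul]
    rcases U.triv F hu (y := h1⁻¹ * h2') (by simp [same _ e1, same _ e2]) with h | h | h
    · exact P.fa _ h
    · exact absurd (eq_zero_of_eq_neg h2 (e.symm.trans (h u))) u0
    · exact absurd (eq_zero_of_eq_neg h2 (by simpa only [e] using h u)) u0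
  obtain ⟨n, hn⟩ : ∃ n : ℕ, ∀ v : V, (k1⁻¹ * k2) ^ n • v = -v := by
    have e : π k2 = π g := Equiv.ext fun s => qi (mul_left_cancel₀ h2 (by
      have := U.qm F e4 s
      rw [iu, iu] at this
      exact this.symm.trans (U.qm F hg s)))
    rcases U.triv F hu (y := k1⁻¹ * k2) (by simp [same _ e3, e]) with h | h | h
    · obtain rfl : k1 = k2 := inv_mul_eq_one.1 (P.fa _ h)
      have := F.inv k1 u (i • u)
      rw [e3, e4, CF.Dc.fl, fr] at this
      exact absurd (cancel 3 (ne3 le_rfl) (by linear_combination this)) hu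
    · exact ⟨1, by simpa using h⟩
    · exact ⟨2, by simpa only [pow_two, mul_smul (k1⁻¹ * k2)] using h⟩
  refine ⟨n, 2, by omega, fun b => by simp [a1], fun b => ?_⟩
  rw [Finset.sum_range_succ, Finset.sum_range_one, pow_zero, mul_one, pow_one, fl b (b * (k1⁻¹ * k2) ^ n)
    (fun c _ h => h.neg fun v => by rw [mul_smul, hn, smul_neg]) fun c _ h => h.neg fun v => by
      rw [mul_smul, hn, smul_neg, neg_neg], add_neg_cancel]

end CF.Dc
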