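import Cfsg.Agent.Dc.L4

/-! Rational groups; the linear form of Gow's theorem. -/

set_option autoImplicit false
set_option linter.unusedSectionVars false

namespace CF.Dc

open MulAction

/-- rational groups -/
def Rt (G : Type*) [Group G] : Prop := ∀ (x : G) (k : ℕ), k.Coprime (orderOf x) → IsConj x (x ^ k)

section
variable {G G' : Type*} [Group G] [Group G'] [Finite G]

theorem Rt.of_surj (R : Rt G) (φ : G →* G') (hφ : Function.Surjective φ) : Rt G' := fun y k hk => by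
  obtain ⟨x, rfl⟩ := hφ y
  have : NeZero (orderOf x) := ⟨(orderOf_pos x).ne'⟩
  obtain ⟨u, hu⟩ := ZMod.unitsMap_surjective (orderOf_map_dvd φ x) (ZMod.unitOfCoprime k hk)
  have h1 := φ.map_isConj (R x _ (ZMod.val_coe_unit_coprime u))
  have h2 : ((u : ZMod (orderOf x)).val : ZMod (orderOf (φ x))) = k := by
    simpa [ZMod.unitsMap_def] using congrArg Units.val hu
  rwa [map_pow, pow_eq_pow_iff_modEq.2 ((ZMod.natCast_eq_natCast_iff _ _ _).1 h2)] at h1

theorem Rt.inv (R : Rt G) (x : G) : IsConj x x⁻¹ := by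
  obtain ⟨n, hn⟩ := Nat.exists_eq_succ_of_ne_zero (orderOf_pos x).ne'
  have := R x n (by simp [hn])
  rwa [show x ^ n = x⁻¹ from eq_inv_of_mul_eq_one_left (by
    rw [← pow_succ, ← Nat.succ_eq_add_one, ← hn, pow_orderOf_eq_one])] at this

omit [Finite G] in
theorem icp (g h : G) (n : ℕ) : (g⁻¹ * h * g) ^ n = g⁻¹ * h ^ n * g := by
  simpa using conj_pow (a := g⁻¹) (b := h) (i := n)

theorem mackey (R : Rt G) (ψ : G → ℤ) (B : Subgroup G) {k : ℕ} (hk : k.Coprime (Nat.card G))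
    (pw : ∀ h, ψ (h ^ k) = -ψ h) (cl : ∀ g ∈ B, ∀ h, ψ (g⁻¹ * h * g) = ψ h)
    (cr : ∀ g ∉ B, ∃ (y : G) (m : ℕ), 0 < m ∧ (∀ h, ψ (h * y) = ψ h) ∧
      ∀ h, ∑ r ∈ Finset.range m, ψ (g⁻¹ * (h * y ^ r) * g) = 0) (h : G) : ψ h = 0 := by
  have := Fintype.ofFinite G
  have h1 : ∀ h, ∑ g, ψ (g⁻¹ * h * g) = 0 := fun h => by
    obtain ⟨c, hc⟩ := isConj_iff.1 (R h k (hk.coprime_dvd_right (orderOf_dvd_natCard h)))
    have a1 : ∑ g, ψ (g⁻¹ * h * g) = ∑ g, ψ (g⁻¹ * h ^ k * g) :=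
      Fintype.sum_equiv (Equiv.mulLeft c) _ _ fun g => by rw [← hc]; congr 1; simp [mul_assoc]
    have a2 : ∑ g, ψ (g⁻¹ * h ^ k * g) = -∑ g, ψ (g⁻¹ * h * g) := by
      rw [← Finset.sum_neg_distrib]
      exact Finset.sum_congr rfl fun g _ => by rw [← pw, icp]
    omega
  have h2 : ∀ g, 0 ≤ ∑ h, ψ h * ψ (g⁻¹ * h * g) := fun g => by
    by_cases hg : g ∈ B
    · exact Finset.sum_nonneg fun h _ => by rw [cl g hg]; exact mul_self_nonneg _
    obtain ⟨y, m, hm, a1, a2⟩ := cr g hg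
    have a3 : ∀ r h, ψ (h * y ^ r) = ψ h := fun r => by
      induction r with
      | zero => simp
      | succ r ih => intro h; rw [pow_succ, ← mul_assoc, a1, ih]
    have a4 : ∀ r, ∑ h, ψ h * ψ (g⁻¹ * h * g) = ∑ h, ψ h * ψ (g⁻¹ * (h * y ^ r) * g) := fun r =>
      (Fintype.sum_equiv (Equiv.mulRight (y ^ r)) _ _ fun h => by simp [a3]).symm
    have a5 : (m : ℤ) * ∑ h, ψ h * ψ (g⁻¹ * h * g) = 0 := by
      rw [← nsmul_eq_mul, ← Finset.card_range m, ← Finset.sum_const,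
        Finset.sum_congr rfl fun r _ => a4 r, Finset.sum_comm]
      exact Finset.sum_eq_zero fun h _ => by rw [← Finset.mul_sum, a2, mul_zero]
    exact ((mul_eq_zero.1 a5).resolve_left (by omega)).ge
  have h3 : ∑ g, ∑ h, ψ h * ψ (g⁻¹ * h * g) = 0 := by
    rw [Finset.sum_comm]
    exact Finset.sum_eq_zero fun h _ => by rw [← Finset.mul_sum, h1, mul_zero]
  have h4 := (Finset.sum_eq_zero_iff_of_nonneg fun g _ => h2 g).1 h3 1 (Finset.mem_univ _)
  simp only [inv_one, one_mul, mul_one] at h4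
  exact mul_self_eq_zero.1 ((Finset.sum_eq_zero_iff_of_nonneg fun h _ => mul_self_nonneg _).1 h4 h
    (Finset.mem_univ _))

end

variable {K V H : Type*} [Field K] [AddCommGroup V] [Module K V]
  [Group H] [DistribMulAction H V] [SMulCommClass H K V] {f : V →ₗ[K] V →ₗ[K] K} [Finite H]

variable (H) in
/-- stabiliser of a subspace -/
def Sb (W : Submodule K V) : Subgroup H where
  carrier := {h | ∀ w ∈ W, h • w ∈ W}
  one_mem' := fun w hw => by rwa [one_smul]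
  mul_mem' := fun ha hb w hw => by rw [mul_smul]; exact ha _ (hb w hw)
  inv_mem' := fun {h} hh w hw => by
    have k : ∀ n, h ^ n • w ∈ W := fun n => by
      induction n with
      | zero => rwa [pow_zero, one_smul]
      | succ n ih => rw [pow_succ', mul_smul]; exact hh _ ih
    rw [← eq_inv_of_mul_eq_one_left (show h ^ (orderOf h - 1) * h = 1 by
      rw [← pow_succ, Nat.sub_add_cancel (orderOf_pos h), pow_orderOf_eq_one])]
    exact k _

instance actSb (W : Submodule K V) : DistribMulAction (Sb H W) W where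
  smul b w := ⟨b.1 • w.1, b.2 _ w.2⟩
  one_smul w := Subtype.ext (one_smul H w.1)
  mul_smul a b w := Subtype.ext (mul_smul a.1 b.1 w.1)
  smul_zero b := Subtype.ext (smul_zero b.1)
  smul_add b u v := Subtype.ext (smul_add b.1 u.1 v.1)

instance commSb (W : Submodule K V) : SMulCommClass (Sb H W) K W :=
  ⟨fun b c w => Subtype.ext (smul_comm b.1 c w.1)⟩

theorem Blk.two {W : Submodule K V} (F : Fm H f) (B : Blk H f W) (h2 : (2 : K) ≠ 0)
    (h16 : (16 : K) = 2) (ev : ∀ v : V, ∃ h : H, h • v = (2 : K) • v) {g : H} (hg : g ∉ Sb H W)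
    {u w : V} (hu : u ∈ W) (hw : w ∈ W) (u0 : u ≠ 0) (w0 : w ≠ 0) :
    ∃ h ∈ Sb H W, g⁻¹ * h * g ∈ Sb H W ∧ h • u = (2 : K) • u ∧ (g⁻¹ * h * g) • w = (2 : K) • w := by
  obtain ⟨h, hh⟩ := ev (u + g • w)
  have o : ∀ a ∉ Sb H W, ∀ u ∈ W, ∀ v ∈ W, f (a • u) v = 0 := fun a ha => (B.orth a).resolve_left ha
  have hg' : g⁻¹ ∉ Sb H W := fun k => hg (by simpa using (Sb H W).inv_mem k)
  have a1 : h ∈ Sb H W ∨ h * g ∈ Sb H W := by
    by_contra k
    push Not at k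
    refine u0 (B.nd u hu fun v hv => cancel 2 h2 ?_)
    have := congrArg (f · v) hh
    simp only [smul_add, map_add, LinearMap.add_apply, fl, ← mul_smul h g, o _ k.1 u hu v hv,
      o _ k.2 w hw v hv, o _ hg w hw v hv] at this
    linear_combination -this
  have a2 : g⁻¹ * h ∈ Sb H W ∨ g⁻¹ * h * g ∈ Sb H W := by
    by_contra k
    push Not at k
    refine w0 (B.nd w hw fun v hv => cancel 2 h2 ?_)
    have := congrArg (f · v) (congrArg (g⁻¹ • ·) hh)
    simp only [smul_add, map_add, LinearMap.add_apply, fl, ← mul_smul h g, ← mul_smul g⁻¹ h,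
      ← mul_smul g⁻¹ (h * g), ← mul_assoc, sm g⁻¹, inv_smul_smul, o _ k.1 u hu v hv,
      o _ k.2 w hw v hv, o _ hg' u hu v hv] at this
    linear_combination -this
  have a3 : h * h ∈ Sb H W ∧ g⁻¹ * (h * h) * g ∈ Sb H W := by
    rcases a1 with k | k <;> rcases a2 with k' | k'
    · exact absurd (by simpa using (Sb H W).mul_mem k' ((Sb H W).inv_mem k)) hg'
    · exact ⟨(Sb H W).mul_mem k k, by simpa [mul_assoc] using (Sb H W).mul_mem k' k'⟩
    · exact ⟨by simpa [mul_assoc] using (Sb H W).mul_mem k k',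
        by simpa [mul_assoc] using (Sb H W).mul_mem k' k⟩
    · exact absurd (by simpa [mul_assoc] using (Sb H W).mul_mem k' ((Sb H W).inv_mem k)) hg'
  have a4 : h * h * (h * h) ∈ Sb H W := (Sb H W).mul_mem a3.1 a3.1
  have a5 : g⁻¹ * (h * h * (h * h)) * g ∈ Sb H W := by
    simpa [mul_assoc] using (Sb H W).mul_mem a3.2 a3.2
  have a6 : (h * h * (h * h)) • (u + g • w) = (2 : K) • (u + g • w) := by
    simp only [mul_smul, hh, sm h]
    rw [smul_smul, smul_smul, smul_smul]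
    congr 1; linear_combination h16
  generalize h * h * (h * h) = y at a4 a5 a6
  have a7 : y • u - (2 : K) • u = g • ((2 : K) • w - (g⁻¹ * y * g) • w) := by
    rw [smul_add, smul_add] at a6
    rw [smul_sub, sm, mul_smul, mul_smul, smul_inv_smul, sub_eq_sub_iff_add_eq_add, a6, add_comm]
  have a8 : y • u - (2 : K) • u = 0 := B.nd _ (sub_mem (a4 u hu) (W.smul_mem _ hu)) fun v hv => by
    rw [a7, o g hg _ (sub_mem (W.smul_mem _ hw) (a5 w hw)) v hv]
  exact ⟨y, a4, a5, sub_eq_zero.1 a8, (sub_eq_zero.1 ((smul_eq_zero_iff_eq g).1 (a7 ▸ a8))).symm⟩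

theorem gow_lin {p : ℕ} [CharP K p] [Finite V] (hp : p.Prime) (le : 7 ≤ p) (F : Fm H f)
    (hs : Group.IsSolvable H) (R : Rt H) (card : (Nat.card H : K) ≠ 0)
    (ev : ∀ (v : V) (n : ℕ), ¬ p ∣ n → ∃ h : H, h • v = (n : K) • v) (nt : ∃ v : V, v ≠ 0) :
    False := by
  classical
  obtain ⟨W, B, hm⟩ := (wellFounded_lt (α := Submodule K V)).has_min {W | Blk H f W} ⟨⊤, fun e => by
    obtain ⟨v, hv⟩ := nt
    exact hv (by simpa using (e ▸ Submodule.mem_top : v ∈ (⊥ : Submodule K V))),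
    fun u _ h => F.nd u fun v => h v trivial, fun _ => Or.inl fun _ _ => trivial⟩
  let ρ := DistribMulAction.toModuleAut K W (S := Sb H W)
  let σ := ρ.rangeRestrict
  have hσ : ∀ (b : Sb H W) (w : W), ((σ b • w : W) : V) = (b : H) • (w : V) := fun _ _ => rfl
  have sj : Function.Surjective σ := ρ.rangeRestrict_surjective
  have : Finite ρ.range := Finite.of_surjective σ sj
  have hd : Nat.card ρ.range ∣ Nat.card H :=
    (Subgroup.card_dvd_of_surjective σ sj).trans (Subgroup.card_subgroup_dvd_card _)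
  have P : Pr p ρ.range (f.domRestrict₁₂ W W) := by
    refine ⟨⟨fun v => F.alt v, fun g u v => ?_, fun u h => Subtype.ext (B.nd u u.2 fun v hv =>
      h ⟨v, hv⟩)⟩, le, fun e => card ?_, fun w n hn => ?_, fun g hg => Subtype.ext
      (LinearEquiv.ext hg), fun U hU => ?_, ?_⟩
    · obtain ⟨b, rfl⟩ := sj g
      exact F.inv b u v
    · obtain ⟨c, hc⟩ := hd
      rw [hc]; push_cast; rw [e, zero_mul]
    · by_cases w0 : w = 0
      · exact ⟨1, by simp [w0]⟩
      obtain ⟨h, hh⟩ := ev w n hn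
      refine ⟨σ ⟨h, (B.orth h).resolve_right fun k => w0 (Subtype.ext (B.nd _ w.2 fun v hv => ?_))⟩,
        Subtype.ext hh⟩
      have := k w w.2 v hv
      rw [hh, fl] at this
      exact cancel _ (mt (CharP.cast_eq_zero_iff K p n).1 hn) this
    · refine Submodule.map_injective_of_injective W.injective_subtype ?_
      rw [Submodule.map_subtype_top]
      refine (eq_of_le_of_not_lt (Submodule.map_subtype_le W U) (hm _ ⟨fun e => hU.ne
        (Submodule.map_injective_of_injective W.injective_subtype (e.trans (by simp))), ?_, fun h => ?_⟩))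
      · rintro _ ⟨u, hu, rfl⟩ h
        exact congrArg Subtype.val (hU.nd u hu fun v hv => h _ ⟨v, hv, rfl⟩)
      rcases B.orth h with k | k
      · refine (hU.orth (σ ⟨h, k⟩)).imp (fun a => ?_) fun a => ?_
        · rintro _ ⟨u, hu, rfl⟩; exact ⟨_, a u hu, rfl⟩
        · rintro _ ⟨u, hu, rfl⟩ _ ⟨v, hv, rfl⟩; exact a u hu v hv
      · refine Or.inr ?_
        rintro _ ⟨u, -, rfl⟩ _ ⟨v, -, rfl⟩; exact k u u.2 v v.2
    · obtain ⟨v, hv, h0⟩ := Submodule.exists_mem_ne_zero_of_ne_bot B.ne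
      exact ⟨⟨v, hv⟩, fun e => h0 (congrArg Subtype.val e)⟩
  obtain ⟨rfl, i, j, π, U⟩ := P.exists_qu hp (Group.isSolvable_of_surjective sj)
  obtain ⟨ψ, cl, ⟨k, hk, pw⟩, ⟨b, hb⟩, w0, w1, w2, n0, n1, n2, tw⟩ := P.exists_ps U Nat.card_pos.ne' hd
  have c7 : (7 : K) = 0 := by exact_mod_cast CharP.cast_eq_zero K 7
  let ψ0 : H → ℤ := fun h => if hh : h ∈ Sb H W then ψ (σ ⟨h, hh⟩) else 0
  have e0 : ∀ b : Sb H W, ψ0 b = ψ (σ b) := fun b => dif_pos b.2
  have e1 : ∀ h ∉ Sb H W, ψ0 h = 0 := fun h hh => dif_neg hh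
  obtain ⟨b, rfl⟩ := sj b
  refine hb ((e0 b).symm.trans (mackey R ψ0 (Sb H W) hk (fun h => ?_) (fun g hg h => ?_)
    (fun g hg => ?_) b))
  · by_cases hh : h ∈ Sb H W
    · rw [show h ^ k = (⟨h, hh⟩ ^ k : Sb H W) from rfl, e0, map_pow, pw, ← e0]
    · rw [e1 h hh, e1 _ fun a => hh ?_, neg_zero]
      exact (Subgroup.zpowers_le.2 a) (mem_zpowers_pow_iff.2
        (hk.coprime_dvd_right (orderOf_dvd_natCard h)))
  · by_cases hh : h ∈ Sb H W
    · rw [show g⁻¹ * h * g = (⟨g, hg⟩⁻¹ * ⟨h, hh⟩ * ⟨g, hg⟩⁻¹⁻¹ : Sb H W) by simp, e0, map_mul, map_mul,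
        map_inv σ _⁻¹, cl, ← e0]
    · rw [e1 h hh, e1 _ fun a => hh ?_]
      simpa [mul_assoc] using (Sb H W).mul_mem ((Sb H W).mul_mem hg a) ((Sb H W).inv_mem hg)
  have t := fun w : W => B.two F (ne2 le) (by linear_combination 2 * c7) (ev2 le ev) hg w0.2 w.2
    fun e => n0 (Subtype.ext e)
  obtain ⟨h1, a1, b1, c1, d1⟩ := t w1 fun e => n1 (Subtype.ext e)
  obtain ⟨h2, a2, b2, c2, d2⟩ := t w2 fun e => n2 (Subtype.ext e)
  obtain ⟨n, m, hm, s1, s2⟩ := tw (σ ⟨h1, a1⟩) (σ ⟨h2, a2⟩) (σ ⟨_, b1⟩) (σ ⟨_, b2⟩) (Subtype.ext c1)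
    (Subtype.ext c2) (Subtype.ext d1) (Subtype.ext d2)
  refine ⟨(h1⁻¹ * h2) ^ n, m, hm, fun h => ?_, fun h => ?_⟩
  · by_cases hh : h ∈ Sb H W
    · rw [show h * (h1⁻¹ * h2) ^ n = (⟨h, hh⟩ * (⟨h1, a1⟩⁻¹ * ⟨h2, a2⟩) ^ n : Sb H W) from rfl, e0,
        map_mul, map_pow, map_mul, map_inv, s1, ← e0]
    · rw [e1 h hh, e1 _ fun a => hh ((Subgroup.mul_mem_cancel_right _ ?_).1 a)]
      exact pow_mem (mul_mem (inv_mem a1) a2) n
  have e : ∀ r, g⁻¹ * (h * ((h1⁻¹ * h2) ^ n) ^ r) * g =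
      g⁻¹ * h * g * (((g⁻¹ * h1 * g)⁻¹ * (g⁻¹ * h2 * g)) ^ n) ^ r := fun r => by
    rw [show (g⁻¹ * h1 * g)⁻¹ * (g⁻¹ * h2 * g) = g⁻¹ * (h1⁻¹ * h2) * g by group, icp,
      icp]; group
  simp only [e]
  by_cases hh : g⁻¹ * h * g ∈ Sb H W
  · rw [← s2 (σ ⟨_, hh⟩)]
    refine Finset.sum_congr rfl fun r _ => ?_
    rw [← map_inv, ← map_mul, ← map_pow, ← map_pow, ← map_mul, ← e0]; rfl
  · exact Finset.sum_eq_zero fun r _ => e1 _ fun a => hh ((Subgroup.mul_mem_cancel_right _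
      (pow_mem (pow_mem (mul_mem (inv_mem b1) b2) n) r)).1 a)

end CF.Dc
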