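import Cfsg.Agent.Dc.L5
import Cfsg.Agent.BG.B10
import Cfsg.Agent.Fgs2.MaxClass
import Cfsg.Agent.Perm.FieldCoord

/-! The top `p`-chief factor of a rational solvable group; Gow's theorem. -/

set_option autoImplicit false
set_option linter.unusedSectionVars false

namespace CF.Dc

open MulAction Subgroup CF.BG

universe u

theorem form_of_abs {K V H : Type*} [Field K] [AddCommGroup V] [Module K V] [Finite V]
    [Group H] [Finite H] [DistribMulAction H V] [SMulCommClass H K V] (h3 : (3 : K) ≠ 0)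
    (nt : ∃ v : V, v ≠ 0)
    (irr : ∀ W : AddSubgroup V, (∀ h : H, ∀ w ∈ W, h • w ∈ W) → W = ⊥ ∨ W = ⊤)
    (ab : ∀ φ : V →ₗ[K] V, (∀ (h : H) v, h • φ v = φ (h • v)) → ∃ c : K, ∀ v, c • v = φ v)
    (hc : (Nat.card H : K) ≠ 0) (re : ∀ h : H, IsConj h h⁻¹) (ev : ∀ v : V, ∃ h : H, h • v = 2 • v) :
    ∃ f : V →ₗ[K] V →ₗ[K] K, Fm H f := by
  have := Fintype.ofFinite H
  obtain ⟨v, hv⟩ := nt
  have : Module.Finite K V := Module.Finite.of_finite
  have := invertibleOfNonzero hc
  let ρ := Representation.ofDistribMulAction K H V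
  have h1 : Module.finrank K (ρ.linHom ρ).invariants = 1 := by
    refine finrank_eq_one ⟨LinearMap.id, fun g => LinearMap.ext fun w => by simp [ρ]⟩
      (fun e => hv (LinearMap.congr_fun (congrArg Subtype.val e) v)) fun φ => ?_
    obtain ⟨c, hc⟩ := ab φ fun h w => by
      simpa [ρ, Representation.linHom_apply] using LinearMap.congr_fun (φ.2 h) (h • w)
    exact ⟨c, Subtype.ext (LinearMap.ext hc)⟩
  have h2 : Module.finrank K (Representation.invariants (V := V →ₗ[K] Module.Dual K V)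
      (ρ.linHom ρ.dual)) ≠ 0 := fun e => by
    have a1 := (ρ.linHom ρ).card_inv_mul_sum_char_eq_finrank
    have a2 := Representation.card_inv_mul_sum_char_eq_finrank (V := V →ₗ[K] Module.Dual K V)
      (ρ.linHom ρ.dual)
    have a3 : ∀ g : H, ρ.character g⁻¹ = ρ.character g := fun g => by
      obtain ⟨c, hc⟩ := isConj_iff.1 (re g)
      rw [← hc, Representation.char_conj]
    simp only [Representation.char_linHom, Representation.char_dual, a3] at a1 a2
    rw [a1, h1, e] at a2
    simp at a2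
  have := Module.nontrivial_of_finrank_pos (Nat.pos_of_ne_zero h2)
  obtain ⟨⟨φ, hφ⟩, h0⟩ := exists_ne (0 : Representation.invariants (V := V →ₗ[K] Module.Dual K V)
    (ρ.linHom ρ.dual))
  have inv : ∀ (g : H) u v, φ (g • u) (g • v) = φ u v := fun g u v => by
    simpa [ρ, Representation.linHom_apply, Module.Dual.transpose_apply] using
      LinearMap.congr_fun (LinearMap.congr_fun (hφ g⁻¹) u) v
  refine ⟨φ, fun v => cancel 3 h3 ?_, inv, fun u hu => ?_⟩
  · obtain ⟨h, hh⟩ := ev v
    have := inv h v v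
    simp only [hh, two_smul, map_add, LinearMap.add_apply] at this
    linear_combination this
  rcases irr (LinearMap.ker φ).toAddSubgroup (fun h w hw => LinearMap.ext fun v => by
    rw [← smul_inv_smul h v, inv, show φ w = 0 from hw]; rfl) with k | k
  · exact AddSubgroup.mem_bot.1 (k ▸ (LinearMap.ext hu : φ u = 0))
  · exact absurd (Subtype.ext (show φ = 0 from LinearMap.ext fun w =>
      (k ▸ AddSubgroup.mem_top w : w ∈ (LinearMap.ker φ).toAddSubgroup))) h0

theorem exists_form {H : Type*} {V : Type u} [Group H] [Finite H] [AddCommGroup V] [Finite V]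
    [DistribMulAction H V] {p : ℕ} (hp : p.Prime) (h5 : 5 ≤ p) (hV : ∀ v : V, p • v = 0)
    (nt : ∃ v : V, v ≠ 0)
    (irr : ∀ W : AddSubgroup V, (∀ h : H, ∀ w ∈ W, h • w ∈ W) → W = ⊥ ∨ W = ⊤)
    (hc : ¬ p ∣ Nat.card H) (re : ∀ h : H, IsConj h h⁻¹) (ev : ∀ v : V, ∃ h : H, h • v = 2 • v) :
    ∃ (K : Type u) (_ : Field K) (_ : CharP K p) (_ : Module K V) (_ : SMulCommClass H K V)
      (f : V →ₗ[K] V →ₗ[K] K), Fm H f := by
  let T := DistribMulAction.toAddMonoidEnd H V
  let R := Subring.centralizer (Set.range T)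
  have := nontrivial_iff_exists_ne (0 : V) |>.2 nt
  letI : Field R := (CF.Perm.isField_centralizer (Set.range T) fun W h =>
    irr W fun g => h _ ⟨g, rfl⟩).toField
  have : CharP R p := (CharP.charP_iff_prime_eq_zero hp).2 (Subtype.ext (DFunLike.ext _ _ fun w => by
    simpa using hV w))
  have : SMulCommClass H R V := ⟨fun h r v => DFunLike.congr_fun (r.2 _ ⟨h, rfl⟩) v⟩
  refine ⟨R, inferInstance, inferInstance, inferInstance, inferInstance, form_of_abs (fun e => ?_) nt irr
    (fun φ hφ => ⟨⟨φ.toAddMonoidHom, ?_⟩, fun _ => rfl⟩) (mt (CharP.cast_eq_zero_iff R p _).1 hc) re ev⟩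
  · exact absurd (Nat.le_of_dvd (by omega) ((CharP.cast_eq_zero_iff R p 3).1 (by exact_mod_cast e)))
      (by omega)
  · rintro _ ⟨h, rfl⟩
    exact DFunLike.ext _ _ (hφ h)

theorem exists_min (G : Type*) [Group G] [Finite G] [Nontrivial G] (hs : Group.IsSolvable G) :
    ∃ (N : Subgroup G) (_ : N.Normal) (q : ℕ), q.Prime ∧ Abelem q N ∧ MinN N ⊤ := by
  obtain ⟨N, -, h⟩ := exists_minN (K := (⊤ : Subgroup G)) (A := ⊤) top_ne_bot (by simp)
  obtain ⟨q, hq, a⟩ := h.exists_abelem inferInstance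
  exact ⟨N, normalizer_eq_top_iff.1 (top_le_iff.1 h.norm), q, hq, a, h⟩

theorem card_quot_lt {G : Type*} [Group G] [Finite G] {N : Subgroup G} [N.Normal] (h : N ≠ ⊥) :
    Nat.card (G ⧸ N) < Nat.card G := by
  rw [card_eq_card_quotient_mul_card_subgroup N]
  exact lt_mul_of_one_lt_right Nat.card_pos ((one_lt_card_iff_ne_bot N).2 h)

/-- the module attached to the top `p`-chief factor -/
structure Tp (p : ℕ) {Γ H K V : Type*} [Group Γ] [Group H] [Field K] [AddCommGroup V] [Module K V]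
    [DistribMulAction H V] (π : Γ →* H) (f : V →ₗ[K] V →ₗ[K] K) : Prop extends Fm H f where
  sj : Function.Surjective π
  card : ¬ p ∣ Nat.card H
  ev : ∀ (v : V) (n : ℕ), ¬ p ∣ n → ∃ h : H, h • v = (n : K) • v
  fa : ∀ g : H, (∀ v : V, g • v = v) → g = 1
  nt : ∃ v : V, v ≠ 0
  ce : ∀ (x : Γ) (v : V), v ≠ 0 → π x • v = v → π x ≠ 1 → 2 * p ≤ ♯(𝐂₁ x)

theorem exists_tp {p : ℕ} (hp : p.Prime) (h5 : 5 ≤ p) (n : ℕ) : ∀ (Γ : Type u) [Group Γ] [Finite Γ],
    Nat.card Γ = n → Group.IsSolvable Γ → Rt Γ → p ∣ Nat.card Γ →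
    ∃ (H K V : Type u) (_ : Group H) (_ : Field K) (_ : CharP K p) (_ : AddCommGroup V)
      (_ : Module K V) (_ : Finite V) (_ : DistribMulAction H V) (_ : SMulCommClass H K V)
      (π : Γ →* H) (f : V →ₗ[K] V →ₗ[K] K), Tp p π f := by
  induction n using Nat.strong_induction_on with | _ n ih => ?_
  intro Γ _ _ hn hs R hd
  have : Nontrivial Γ := Finite.one_lt_card_iff_nontrivial.1
    (hp.one_lt.trans_le (Nat.le_of_dvd Nat.card_pos hd))
  obtain ⟨N, _, q, hq, a, m⟩ := exists_min Γ hs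
  by_cases h : p ∣ Nat.card (Γ ⧸ N)
  · obtain ⟨H, K, V, _, _, _, _, _, _, _, _, π, f, T⟩ := ih _ (hn ▸ card_quot_lt m.ne_bot) (Γ ⧸ N) rfl
      inferInstance (R.of_surj _ (QuotientGroup.mk'_surjective N)) h
    exact ⟨H, K, V, _, _, inferInstance, _, _, inferInstance, _, inferInstance,
      π.comp (QuotientGroup.mk' N), f, T.toFm, T.sj.comp (QuotientGroup.mk'_surjective N), T.card,
      T.ev, T.fa, T.nt, fun x v h0 h1 h2 => (T.ce _ v h0 h1 h2).trans
        (CF.Fgs2.card_centralizer_quotient_le N x)⟩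
  obtain rfl : p = q := a.pi p hp ((hp.dvd_mul.1
    (card_eq_card_quotient_mul_card_subgroup N ▸ hd)).resolve_left h)
  letI : CommGroup N := { (inferInstance : Group N) with
    mul_comm := fun x y => Subtype.ext (a.abel y.2 x x.2) }
  let θ : Γ →* MulAut N := MulAut.conjNormal
  letI : DistribMulAction θ.range (Additive N) :=
    { smul := fun h v => Additive.ofMul (h.1 v.toMul)
      one_smul := fun _ => rfl
      mul_smul := fun _ _ _ => rfl
      smul_zero := fun h => congrArg Additive.ofMul (map_one h.1)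
      smul_add := fun h u v => congrArg Additive.ofMul (map_mul h.1 u.toMul v.toMul) }
  have hθ : ∀ (g : Γ) (v : Additive N), ((θ.rangeRestrict g • v).toMul : Γ) = g * v.toMul * g⁻¹ :=
    fun _ _ => rfl
  have ex : ∀ u v : Additive N, (u.toMul : Γ) = v.toMul → u = v := fun u v e =>
    Additive.toMul.injective (Subtype.ext e)
  have sj := θ.rangeRestrict_surjective
  have : Finite θ.range := Finite.of_surjective _ sj
  have hN : ∀ x ∈ N, θ.rangeRestrict x = 1 := fun x hx => Subtype.ext (MulEquiv.ext fun y =>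
    Subtype.ext (by
      show x * y * x⁻¹ = y
      rw [a.abel y.2 x hx, mul_inv_cancel_right]))
  have hc : ¬ p ∣ Nat.card θ.range := fun k => h (k.trans (card_dvd_of_surjective _
    (QuotientGroup.lift_surjective_of_surjective N _ sj hN)))
  have ev : ∀ (v : Additive N) (n : ℕ), ¬ p ∣ n → ∃ h : θ.range, h • v = n • v := fun v n hn => by
    obtain ⟨c, hc⟩ := isConj_iff.1 (R (v.toMul : Γ) n
      (((hp.coprime_iff_not_dvd.2 hn).symm).coprime_dvd_right
        (orderOf_dvd_of_pow_eq_one (a.pow _ v.toMul.2))))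
    exact ⟨θ.rangeRestrict c, ex _ _ hc⟩
  have nt : ∃ v : Additive N, v ≠ 0 := by
    obtain ⟨g, hg, h1⟩ := N.bot_or_exists_ne_one.resolve_left m.ne_bot
    exact ⟨Additive.ofMul ⟨g, hg⟩, fun e => h1 (congrArg (fun v : Additive N => (v.toMul : Γ)) e)⟩
  have irr : ∀ W : AddSubgroup (Additive N), (∀ h : θ.range, ∀ w ∈ W, h • w ∈ W) → W = ⊥ ∨ W = ⊤ :=
      fun W hW => by
    have := m.eq_bot_or (N := (AddSubgroup.toSubgroup' W).map N.subtype) (map_subtype_le _)
      (le_norm_iff.2 (by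
        rintro g - _ ⟨y, hy, rfl⟩
        exact ⟨_, hW (θ.rangeRestrict g) (Additive.ofMul y) hy, rfl⟩))
    refine this.imp (fun e => ?_) fun e => ?_
    · rw [Subgroup.map_eq_bot_iff_of_injective _ N.subtype_injective] at e
      exact AddSubgroup.toSubgroup'.injective (e.trans (by simp))
    · refine AddSubgroup.toSubgroup'.injective ((map_injective N.subtype_injective ?_))
      rw [e]; simp [← MonoidHom.range_eq_map]
  obtain ⟨K, _, _, _, _, f, F⟩ := exists_form (H := θ.range) (V := Additive N) hp h5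
    (fun v => ex _ _ (a.pow _ v.toMul.2)) nt irr hc (R.of_surj _ sj).inv
    fun v => ev v 2 fun k => absurd (Nat.le_of_dvd two_pos k) (by omega)
  · refine ⟨θ.range, K, Additive N, _, _, inferInstance, _, _, inferInstance, _, inferInstance,
      θ.rangeRestrict, f, F, sj, hc, fun v n hn => by simpa only [Nat.cast_smul_eq_nsmul] using ev v n hn,
      fun g hg => Subtype.ext (MulEquiv.ext fun y => hg (Additive.ofMul y)), nt, fun x v h0 h1 h2 => ?_⟩
    have k1 : zpowers (v.toMul : Γ) < 𝐂₁ x := lt_of_le_of_ne (zpowers_le.2 (mem_cent1.2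
      (mul_inv_eq_iff_eq_mul.1 ((hθ x v).symm.trans (by rw [h1]))).symm)) fun e =>
        h2 (hN x (zpowers_le.2 v.toMul.2 (e ▸ self_mem_cent1 x)))
    have k2 := a.card_zpowers v.toMul.2 fun e => h0 (ex _ _ e)
    obtain ⟨c, hc⟩ := card_dvd_of_le k1.le
    have k3 := card_lt k1
    rw [hc, k2] at k3
    rw [hc, k2, mul_comm]
    exact Nat.mul_le_mul_left _ (by nlinarith)

/-- Gow's theorem -/
theorem gow {G : Type u} [Group G] [Finite G] (hs : Group.IsSolvable G) (R : Rt G) {p : ℕ}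
    (hp : p.Prime) (hd : p ∣ Nat.card G) : p = 2 ∨ p = 3 ∨ p = 5 := by
  by_contra k
  have h7 : 7 ≤ p := by
    by_contra h
    have := hp.two_le
    push Not at h
    interval_cases p <;> simp_all (config := {decide := true})
  obtain ⟨H, K, V, _, _, _, _, _, _, _, _, π, f, T⟩ := exists_tp hp (by omega) _ G rfl hs R hd
  have := Finite.of_surjective _ T.sj
  exact gow_lin hp h7 T.toFm (Group.isSolvable_of_surjective T.sj) (R.of_surj _ T.sj)
    (mt (CharP.cast_eq_zero_iff K p _).1 T.card) T.ev T.nt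

end CF.Dc
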